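import Cfsg.Agent.SPOR.Ord24Nb

/-! Local data of a group with the order and the order counts of `M24`. -/

set_option autoImplicit false
open Cfsg Subgroup

namespace CL.OJ.M24

open CL.OJ.M24N

/-- The hypothesis on `G`. -/
def Hn (G : Type*) [Group G] : Prop :=
  Nat.card G = 244823040 ∧ ∀ k, nk G k = 0 ∨ ∃ j, nk G k = nk M24 j

section

variable {G : Type*} [Group G] [Finite G]

theorem Hn.ce (h : Hn G) {p a b n r : ℕ} [hp : Fact p.Prime]
    (hM : nk M24 p = n * (p - 1) ∧ ∀ k, nk M24 k % p = tb p a b k)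
    (hn : 244823040 = p * (n * r)) (hm : ¬ p ∣ n * r) (h1 : n * r ≠ 1)
    (ht : ∀ k, tb p a b k = p - 1 → k = p) {z : G} (hz : orderOf z = p) :
    nk G p = nk M24 p ∧ ∃ (P : Sylow p G) (c e : ℕ), Nat.card P = p ∧ e ∣ p - 1 ∧
      Nat.card (centralizer ({z} : Set G)) = p * c ∧
      Nat.card (normalizer ((P : Subgroup G) : Set G)) = p * r ∧ c * e = r ∧
      (IsSimpleGroup G → e ≠ 1) := by
  obtain ⟨P, n', c, e, h2, h3, h4, h5, h6, h7, h8, h9⟩ := loc hz (h.1.trans hn) hm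
  have h0 := hp.out.two_le
  have h10 : nk G p % p = p - 1 := by
    rw [h8, Nat.mul_mod, h3, one_mul, Nat.mod_mod, Nat.mod_eq_of_lt (by omega)]
  obtain ⟨j, hj⟩ := (h.2 p).resolve_left fun h => by rw [h, Nat.zero_mod] at h10; omega
  obtain rfl := ht j (by rw [← hM.2, ← hj, h10])
  obtain rfl : n' = n := Nat.eq_of_mul_eq_mul_right (by omega) (h8.symm.trans (hj.trans hM.1))
  obtain rfl : r = c * e :=
    Nat.eq_of_mul_eq_mul_left (Nat.pos_of_ne_zero fun h => by simp [h] at h3) h7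
  exact ⟨hj, P, c, e, h2, h4, h5, h6, rfl, fun hs => h9 hs h1⟩

theorem Hn.c23 (h : Hn G) : IsSimpleGroup G ∧
    ∀ x : G, orderOf x = 23 → Nat.card (centralizer ({x} : Set G)) = 23 := by
  have key := fun z : G => h.ce M23 (r := 11) (by norm_num) (by norm_num) (by norm_num)
    (fun k hk => by unfold tb at hk; split_ifs at hk <;> omega) (z := z)
  obtain ⟨z, hz⟩ := exists_prime_orderOf_dvd_card' (G := G) 23 (by norm_num [h.1])
  obtain ⟨-, P, -, -, hP, -, -, hN, -⟩ := key z hz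
  have := CL.Ord.simple_of_normalizer P hP (e := 11) (r := 2) (by norm_num) hN (by norm_num)
    (by norm_num) (by norm_num) (by norm_num [h.1]) (h.1 ▸ CL.Ord.pow_mod_ne_one (K := 28)
      [2, 3, 5, 7, 11, 23] (by simp; norm_num) (by norm_num) (by norm_num) (by norm_num)
      (by decide +kernel))
  refine ⟨this, fun x hx => ?_⟩
  obtain ⟨-, -, c, e, -, -, h1, -, h2, h3⟩ := key x hx
  obtain rfl := ((Nat.dvd_prime (by norm_num)).1 (Dvd.intro_left _ h2)).resolve_left (h3 this)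
  omega

theorem Hn.two (h : Hn G) : nk G 2 = nk M24 2 := by
  have := h.c23.1
  have h1 := nk_add (X := G) (p := 2) (k := 1) (by norm_num [h.1]) (by norm_num)
  rw [nk_one, mul_one] at h1
  obtain ⟨j, hj⟩ := (h.2 2).resolve_left (by omega)
  by_cases h2 : j = 2
  · exact h2 ▸ hj
  obtain rfl : j = 1 := by_contra fun h3 => by have := nk_even (X := M24) h3 h2; omega
  rw [nk_one, nk, Nat.card_eq_one_iff_unique] at hj
  obtain ⟨hu, ⟨t, ht⟩⟩ := hj
  have h3 : (zpowers t).Normal := ⟨fun x hx g => by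
    obtain ⟨i, rfl⟩ := hx
    have := congrArg Subtype.val (hu.elim ⟨g * t * g⁻¹, by
      simpa using (MulAut.conj g).orderOf_eq t |>.trans ht⟩ ⟨t, ht⟩)
    exact ⟨i, by simp only at this ⊢; rw [← conj_zpow, this]⟩⟩
  have h4 := Nat.card_zpowers t
  rcases h3.eq_bot_or_eq_top with h5 | h5
  · rw [h5, card_bot] at h4; omega
  · rw [h5, card_top, h.1] at h4; omega

theorem Hn.five (h : Hn G) {y : G} (hy : orderOf y = 5) : nk G 5 = nk M24 5 ∧
    (Nat.card (centralizer ({y} : Set G)) = 5 * 3 * 4 ∨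
      Nat.card (centralizer ({y} : Set G)) = 5 * 3 * 8) := by
  obtain ⟨h0, -, c, e, -, h1, h2, -, h3, h4⟩ := h.ce M5 (r := 48) (by norm_num) (by norm_num)
    (by norm_num) (fun k hk => by unfold tb at hk; split_ifs at hk <;> omega) hy
  have := h4 h.c23.1
  have := Nat.le_of_dvd (by norm_num) h1
  refine ⟨h0, ?_⟩
  interval_cases e <;> omega

theorem Hn.c11 (h : Hn G) (x : G) (hx : orderOf x = 11) :
    Nat.card (centralizer ({x} : Set G)) = 11 := by
  obtain ⟨-, -, c, e, -, h1, h2, -, h3, h4⟩ := h.ce M11 (r := 10) (by norm_num) (by norm_num)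
    (by norm_num) (fun k hk => by unfold tb at hk; split_ifs at hk <;> omega) hx
  have key : ∀ q, q.Prime → q < 11 → nk G q = nk M24 q → c ≠ q := fun q hq h5 h6 h7 => by
    have := Fact.mk hq
    obtain ⟨n, -, h8, h9, -⟩ := sy (q := q) (m := 1) ((zc_ord x).trans hx) (zc_comm x) (by omega)
      (by rw [h2, h7, mul_one]) (by simpa using hq.one_lt.ne')
    have h10 := nk_cent hx q
    have := hq.two_le
    rw [h9, h6, M11.2, Nat.dvd_one.1 h8, tb] at h10
    split_ifs at h10 <;> omega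
  obtain ⟨y, hy⟩ := exists_prime_orderOf_dvd_card' (G := G) 5 (by norm_num [h.1])
  have := key 2 (by norm_num) (by norm_num) h.two
  have := key 5 (by norm_num) (by norm_num) (h.five hy).1
  have := h4 h.c23.1
  have := Nat.le_of_dvd (by norm_num) h1
  interval_cases e <;> omega

theorem Hn.c7 (h : Hn G) (x : G) (hx : orderOf x = 7) :
    Nat.card (centralizer ({x} : Set G)) = 42 ∧ nk (centralizer ({x} : Set G)) 2 = 3 ∧
      nk (centralizer ({x} : Set G)) 3 = 2 ∧ nk (centralizer ({x} : Set G)) 6 = 0 := by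
  obtain ⟨-, -, c, e, -, h1, h2, -, h3, h4⟩ := h.ce M7 (r := 18) (by norm_num) (by norm_num)
    (by norm_num) (fun k hk => by unfold tb at hk; split_ifs at hk <;> omega) hx
  have h5 := nk_cent hx 2
  rw [h.two, M7.2, show tb 7 3 2 2 = 3 from rfl] at h5
  have h6 : 2 ∣ 7 * c := by_contra fun h6 => by rw [nk_zero' (h2 ▸ h6)] at h5; omega
  have := h4 h.c23.1
  have := Nat.le_of_dvd (by norm_num) h1
  obtain rfl : c = 6 := by interval_cases e <;> omega
  obtain ⟨n, -, h7, h8, h9⟩ := sy (q := 2) (m := 3) ((zc_ord x).trans hx) (zc_comm x) (by omega)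
    h2 (by norm_num)
  obtain ⟨m, h10, h11, h12, -⟩ := sy (q := 3) (m := 2) ((zc_ord x).trans hx) (zc_comm x) (by omega)
    h2 (by norm_num)
  have := Nat.le_of_dvd (by norm_num) h7
  have := Nat.le_of_dvd (by norm_num) h11
  obtain rfl : n = 3 := by omega
  refine ⟨h2, by omega, by omega, nk_zero fun g hg => ?_⟩
  have h13 := h9 (g ^ 3) (by rw [orderOf_pow, hg]; rfl)
  have h14 := CL.Small.orderOf_dvd_card_of_mem (CL.Ord.mem_normalizer_zpowers.2
    (show g * g ^ 3 * g⁻¹ ∈ zpowers (g ^ 3) by simp [← pow_succ', pow_succ g 3]))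
  rw [hg] at h14
  omega

theorem Hn.mod5 (h : Hn G) : nk G 3 % 5 = 3 ∧ ∀ k, ¬ 5 ∣ k → (¬ k ∣ 42 ∨ k = 6) → nk G k % 5 = 0 := by
  obtain ⟨x, hx⟩ := exists_prime_orderOf_dvd_card' (G := G) 7 (by norm_num [h.1])
  obtain ⟨h1, -, h2, h3⟩ := h.c7 x hx
  have key : ∀ k, (¬ k ∣ 42 ∨ k = 6) → nk G k % 5 % 2 = 0 := fun k hk => by
    have h4 := nk_cent hx k
    rw [show nk (centralizer ({x} : Set G)) k = 0 from
      hk.elim (fun hk => nk_zero' (h1 ▸ hk)) fun hk => hk ▸ h3] at h4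
    obtain h5 | ⟨j, h5⟩ := h.2 k
    · rw [h5]
    rw [h5, M7.2, tb] at h4
    rw [h5, M5.2, tb]
    split_ifs at h4 ⊢ <;> omega
  constructor
  · have h4 := nk_cent hx 3
    obtain ⟨j, h5⟩ := (h.2 3).resolve_left (by omega)
    rw [h5, M7.2, tb, h2] at h4
    rw [h5, M5.2, tb]
    split_ifs at h4 ⊢ <;> omega
  · intro k h4 h5
    have h6 := nk_add (X := G) (by norm_num [h.1]) h4
    have := key k h5
    have := key (5 * k) (.inl fun h => by have := (dvd_mul_right 5 k).trans h; omega)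
    omega

theorem card_pow {X : Type*} [Group X] [Finite X] {p m : ℕ} [hp : Fact p.Prime] {z : X}
    (hz : orderOf z = p) (hc : ∀ g, Commute z g) (hX : Nat.card X = p * m) (hm : ¬ p ∣ m) :
    ∑ k ∈ m.divisors, nk X k = m := by
  classical
  have := Fintype.ofFinite X
  obtain ⟨P, hP⟩ := (IsPGroup.of_card (n := 1) (G := zpowers z)
    (by rw [Nat.card_zpowers, hz, pow_one])).exists_le_sylow
  have h1 : Nat.card P = p :=
    (CL.Small.card_sylow_eq_of_factor P (a := 1) (by rwa [pow_one]) hm).trans (pow_one p)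
  have h2 := eq_of_le_of_card_ge hP (by rw [h1, Nat.card_zpowers, hz])
  obtain ⟨K, _, hK⟩ := CL.Ord.exists_compl P fun g _ y hy => by
    obtain ⟨i, rfl⟩ := h2.ge hy
    exact ((hc g).zpow_left i).eq
  have h3 : Nat.card K = m := Nat.eq_of_mul_eq_mul_right hp.out.pos (by rw [← h1, hK, hX, h1]; ring)
  have h4 : K.index = p := Nat.eq_of_mul_eq_mul_left Nat.card_pos
    ((card_mul_index K).trans (by rw [← hK, h1]))
  simp only [nk, Nat.card_eq_fintype_card, Fintype.card_subtype]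
  rw [sum_card_orderOf_eq_card_pow_eq_one (by rintro rfl; simp at hm), ← Fintype.card_subtype,
    ← Nat.card_eq_fintype_card, ← h3]
  refine Nat.card_congr (Equiv.subtypeEquivRight fun g => ⟨fun h => ?_, fun h =>
    congrArg Subtype.val (pow_card_eq_one' (x := (⟨g, h⟩ : K)))⟩)
  rw [← QuotientGroup.eq_one_iff, ← orderOf_eq_one_iff]
  exact Nat.eq_one_of_dvd_coprimes (hp.out.coprime_iff_not_dvd.2 hm) (h4 ▸ orderOf_dvd_natCard _)
    (h3 ▸ orderOf_dvd_of_pow_eq_one (by rw [← QuotientGroup.mk_pow, h]; rfl))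

theorem Hn.c5 (h : Hn G) (y : G) (hy : orderOf y = 5) :
    Nat.card (centralizer ({y} : Set G)) = 60 ∧ ∃ v, orderOf v = 3 ∧ Commute v y ∧
      Nat.card ↥(centralizer ({y} : Set G) ⊓ centralizer ({v} : Set G)) ≤ 15 := by
  obtain ⟨h1, h2⟩ := h.mod5
  have h3 := (h.five hy).2.resolve_right fun h3 => by
    have h4 := card_pow (m := 24) ((zc_ord y).trans hy) (zc_comm y) h3 (by norm_num)
    rw [show Nat.divisors 24 = {1, 2, 3, 4, 6, 8, 12, 24} by decide] at h4
    simp only [Finset.mem_insert, Finset.mem_singleton, Nat.reduceEqDiff, or_self,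
      not_false_eq_true, Finset.sum_insert, Finset.sum_singleton, nk_one] at h4
    have h5 := nk_cent hy 2
    rw [h.two, M5.2, show tb 5 3 3 2 = 3 from rfl] at h5
    have := nk_cent hy 3
    have := (nk_cent hy 4).symm.trans (h2 4 (by norm_num) (by norm_num))
    have := (nk_cent hy 6).symm.trans (h2 6 (by norm_num) (by norm_num))
    have := (nk_cent hy 8).symm.trans (h2 8 (by norm_num) (by norm_num))
    have := (nk_cent hy 12).symm.trans (h2 12 (by norm_num) (by norm_num))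
    have := (nk_cent hy 24).symm.trans (h2 24 (by norm_num) (by norm_num))
    omega
  obtain ⟨n, h4, h5, h6, h7⟩ := sy (q := 3) (m := 4) ((zc_ord y).trans hy) (zc_comm y) (by omega)
    h3 (by norm_num)
  have := nk_cent hy 3
  have := Nat.le_of_dvd (by norm_num) h5
  obtain rfl : n = 4 := by omega
  obtain ⟨v, hv⟩ := exists_prime_orderOf_dvd_card' (G := centralizer ({y} : Set G)) 3
    (by norm_num [h3])
  refine ⟨h3, v, (orderOf_coe v).trans hv, mem_centralizer_singleton_iff.1 v.2, ?_⟩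
  have h8 := h7 v hv
  rw [← Nat.card_congr (subgroupOfEquivOfLe inf_le_left).toEquiv]
  refine (card_le_of_le (K := normalizer (zpowers v : Set (centralizer ({y} : Set G))))
    fun g hg => CL.Ord.mem_normalizer_zpowers.2 ?_).trans (by omega)
  rw [mul_inv_eq_iff_eq_mul.2 (Subtype.ext (mem_centralizer_singleton_iff.1 hg.2) : g * v = v * g)]
  exact mem_zpowers v

end

theorem loc_of_nse {G : Type*} [Group G] [Finite G]
    (hcard : Nat.card G = Nat.card ↥Cfsg.M24)
    (hnse : {c : ℕ | 0 < c ∧ ∃ n : ℕ, c = Nat.card {g : G // orderOf g = n}} =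
      {c : ℕ | 0 < c ∧ ∃ n : ℕ, c = Nat.card {g : ↥Cfsg.M24 // orderOf g = n}}) :
    IsSimpleGroup G ∧ Nat.card G = 244823040 ∧
    (∀ x : G, orderOf x = 23 → Nat.card (centralizer ({x} : Set G)) = 23) ∧
    (∀ x : G, orderOf x = 11 → Nat.card (centralizer ({x} : Set G)) = 11) ∧
    (∀ x : G, orderOf x = 7 → Nat.card (centralizer ({x} : Set G)) = 42 ∧
      ∃ t t' : G, orderOf t = 2 ∧ orderOf t' = 2 ∧ t ≠ t' ∧ Commute t x ∧ Commute t' x) ∧
    (∀ y : G, orderOf y = 5 → Nat.card (centralizer ({y} : Set G)) = 60 ∧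
      ∃ v : G, orderOf v = 3 ∧ Commute v y ∧
        Nat.card ↥(centralizer ({y} : Set G) ⊓ centralizer ({v} : Set G)) ≤ 15) := by
  have h : Hn G := ⟨hcard.trans CL.Golay.card_M24, fun k => (Nat.eq_zero_or_pos _).imp_right
    fun h => (hnse.le (show nk G k ∈ _ from ⟨h, k, rfl⟩)).2⟩
  refine ⟨h.c23.1, h.1, h.c23.2, h.c11, fun x hx => ⟨(h.c7 x hx).1, ?_⟩, h.c5⟩
  obtain ⟨t, t', h1⟩ := (Finite.one_lt_card_iff_nontrivial.1
    ((h.c7 x hx).2.1.ge.trans_lt' (by norm_num))).exists_pair_ne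
  exact ⟨t.1, t'.1, (orderOf_coe _).trans t.2, (orderOf_coe _).trans t'.2,
    fun h => h1 (Subtype.ext (Subtype.ext h)), mem_centralizer_singleton_iff.1 t.1.2,
    mem_centralizer_singleton_iff.1 t'.1.2⟩

end CL.OJ.M24
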