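import Cfsg.Agent.SPOR.Ord24c
import Cfsg.Agent.CHAR.FS

/-! The small character degrees of a group with the local structure of `M24`. -/

set_option autoImplicit false
open Cfsg Subgroup CL.Char CL.D1 CL.D1T CL.Ord
open scoped Classical ComplexConjugate

namespace CL.OJ.M24

variable {G : Type*} [Group G] [Finite G] (H : Hyp G)

theorem exists_real [Fintype G] {d : ℕ} (hd : Odd d)
    (h : Odd (∑ χ : IrrCharacter G, if charDegree χ.1 = d then 1 else 0)) :
    ∃ χ : IrrCharacter G, charDegree χ.1 = d ∧ fsInd χ.1 = 1 := by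
  by_contra! hn
  have h0 : ∀ χ : IrrCharacter G, charDegree (irrConj G χ).1 = charDegree χ.1 := fun χ =>
    Nat.cast_injective (R := ℂ) (by
      rw [← (irrConj G χ).2.apply_one_eq_charDegree, irrConj_apply, χ.2.apply_one_eq_charDegree]
      simp)
  have h1 : ∑ χ : IrrCharacter G, ((if charDegree χ.1 = d then 1 else 0 : ℕ) : ZMod 2) = 0 := by
    refine Finset.sum_involution (fun χ _ => irrConj G χ) (fun χ _ => ?_) (fun χ _ h e => h ?_)
      (fun _ _ => Finset.mem_univ _) fun χ _ => Subtype.ext (funext fun g => by simp [irrConj_apply])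
    · rw [h0, ← two_mul]
      exact mul_eq_zero_of_left rfl _
    · rw [if_neg fun h1 => hn χ h1 (χ.2.fsInd_eq_one_of_odd (fun g => Complex.conj_eq_iff_im.1
        (by rw [← irrConj_apply, e])) (h1 ▸ χ.2.apply_one_eq_charDegree) hd), Nat.cast_zero]
  rw [← Nat.cast_sum, ZMod.natCast_eq_zero_iff_even] at h1
  exact Nat.not_even_iff_odd.2 h h1

namespace Hyp
include H

theorem kill3 {x : G} (D : Bk 7 x 1 1 3) (h : D.sd = ↑[(3795 : ℤ), -3520, -230]) : False := by
  have := H.simple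
  have := Fact.mk Nat.prime_two
  obtain ⟨y, hy⟩ := H.ex 5 (by norm_num)
  obtain ⟨t, h1, ht⟩ := CL.Small.exists_mem_orderOf_eq_prime (centralizer ({y} : Set G)) 2
    (by rw [(H.c5 y hy).1]; norm_num)
  obtain ⟨θ, hθ⟩ := D.Y_nonempty
  obtain ⟨h2, h3, -⟩ := deg_of_sdeg D.ε_sign ((D.sd_sum hθ).symm.trans (congrArg _ h))
  replace h2 : charDegree θ.1 = 45 := h2
  replace h3 : D.ε = 1 := h3 (by decide)
  obtain ⟨w, w1, w2, w3, w4, -⟩ := inv_val H.nc ht (χ := θ) (by
    rintro rfl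
    rw [show charDegree (irrOne G).1 = 1 from charDegree_const_one] at h2
    omega) h2
  have h4 : ¬ (5 : ℤ) ∣ (centralizer ({t} : Set G)).index := fun h4 => by
    have h5 := CL.Small.orderOf_dvd_card_of_mem
      (mem_centralizer_singleton_iff.2 (mem_centralizer_singleton_iff.1 h1).symm)
    have := mul_dvd_mul h5 (Int.natCast_dvd_natCast (m := 5).1 h4)
    rw [card_mul_index, H.card, hy] at this
    norm_num at this
  have h5 := ((by norm_num : Prime (5 : ℤ)).dvd_or_dvd ((by norm_num : (5 : ℤ) ∣ (45 : ℕ)).trans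
    w4)).resolve_left h4
  obtain ⟨L, -, l1, l2, l3⟩ := exists_list_of_map h
  obtain ⟨χ₁, χ₂, χ₃, rfl⟩ := List.length_eq_three.1 (by simpa using congrArg List.length l2)
  simp only [List.map_cons, List.map_nil, List.cons.injEq, and_true] at l2
  obtain ⟨a1, a2, -⟩ := deg_of_sdeg (D.σ_sign _ ((l1 _).2 (by simp))) l2.1
  obtain ⟨b1, -, b2⟩ := deg_of_sdeg (D.σ_sign _ ((l1 _).2 (by simp))) l2.2.1
  obtain ⟨c1, -, c2⟩ := deg_of_sdeg (D.σ_sign _ ((l1 _).2 (by simp))) l2.2.2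
  obtain ⟨b, hb⟩ := exists_int_of_two χ₂ ht
  obtain ⟨c, hc⟩ := exists_int_of_two χ₃ ht
  have e1 := D.eqn θ hθ t (by rw [ht]; norm_num)
  have e2 := D.quad (fun y hy => (H.f7 hy).2) hθ (t := t) (by rw [← sq, ← ht, pow_orderOf_eq_one])
  simp only [l3, List.map_cons, List.map_nil, List.sum_cons, List.sum_nil, a2 (by decide),
    b2 (by decide), c2 (by decide), h3, hb, hc, w1, h2, a1, b1, c1,
    IsIrrCharacter.apply_one_eq_charDegree (Subtype.prop _)] at e1 e2
  norm_num at e1 e2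
  rw [show χ₁.1 t = w + b + c by linear_combination e1] at e2
  have e3 : 230 * (3520 * w - 45 * b) ^ 2 + 3520 * (230 * w - 45 * c) ^ 2 +
      45 * (230 * b - 3520 * c) ^ 2 = 0 := by
    exact_mod_cast (by linear_combination -(45 * 3520 * 230 * 3795) * e2 :
      230 * (3520 * w - 45 * b) ^ 2 + 3520 * (230 * w - 45 * c) ^ 2 +
        45 * (230 * b - 3520 * c : ℂ) ^ 2 = 0)
  have e4 : (230 * w - 45 * c) ^ 2 = 0 := by
    nlinarith [sq_nonneg (3520 * w - 45 * b), sq_nonneg (230 * w - 45 * c),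
      sq_nonneg (230 * b - 3520 * c)]
  have := pow_eq_zero_iff two_ne_zero |>.1 e4
  omega

theorem kill4 {x : G} (hx : orderOf x = 7) (D₀ D₁ : Bk 7 x 1 1 3) (D₂ : Bk 7 x 2 2 3)
    (hD : ∀ (M : Type) [AddCommMonoid M] (F : IrrCharacter G → M),
      ∑ χ with ¬ 7 ∣ charDegree χ.1, F χ = D₀.sum F + (D₁.sum F + D₂.sum F))
    (h0 : D₀.sd = ↑[(2024 : ℤ), -1035, 1]) (h1 : D₁.sd = ↑[(-3520 : ℤ), 3312, 253])
    (h2 : D₂.sd = ↑[(-1265 : ℤ), -1265, -1265]) : False := by
  have := Fintype.ofFinite G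
  have h := H.p1 hx (by norm_num)
  obtain ⟨hf, hn⟩ := H.f7 hx
  have h3 : ∀ d, d = 1035 ∨ d = 1265 → ∃ χ : IrrCharacter G, charDegree χ.1 = d ∧ fsInd χ.1 = 1 :=
    fun d hd => exists_real (by rcases hd with rfl | rfl <;> decide) (by
      have a0 := D₀.card_Y
      have a1 := D₁.card_Y
      have a2 := D₂.card_Y
      rw [sum_cut (p := 7) (F := fun e => if e = d then 1 else 0) fun e he => if_neg (by omega), hD,
        sm_eq D₀ h0.symm fun e => if e = d then 1 else 0,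
        sm_eq D₁ h1.symm fun e => if e = d then 1 else 0,
        sm_eq D₂ h2.symm fun e => if e = d then 1 else 0, show D₀.Y.card = 2 by omega,
        show D₁.Y.card = 2 by omega, show D₂.Y.card = 2 by omega]
      rcases hd with rfl | rfl <;> decide)
  let k : ℕ → IrrCharacter G → ℝ := fun d χ => if charDegree χ.1 = d ∧ fsInd χ.1 = 1 then 1 else 0
  have h4 : ∀ d, d = 1035 ∨ d = 1265 → 1 ≤ ∑ χ, k d χ := fun d hd => by
    obtain ⟨χ, h⟩ := h3 d hd
    exact (if_pos h).symm.trans_le (Finset.single_le_sum (f := k d)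
      (fun _ _ => ite_nonneg zero_le_one le_rfl) (Finset.mem_univ χ))
  have h5 : (3 : ℝ) ≤ ∑ χ : IrrCharacter G, (fsInd χ.1 * χ.1 x).re := by
    rw [← Complex.re_sum, ← card_sqrt_eq_sum, Complex.natCast_re]
    obtain ⟨-, t, t', a1, a2, a3, a4, a5⟩ := H.c7 x hx
    have b1 : x ^ 4 * x ^ 4 = x := by
      rw [← pow_add, show 4 + 4 = orderOf x + 1 by rw [hx], pow_succ, pow_orderOf_eq_one, one_mul]
    have b2 : ∀ t : G, orderOf t = 2 → Commute t x → x ^ 4 * t * (x ^ 4 * t) = x ∧ x ^ 4 ≠ x ^ 4 * t :=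
      fun t h1 h2 => ⟨by
        rw [← sq, (h2.pow_right 4).symm.mul_pow, sq, b1, ← h1, pow_orderOf_eq_one, mul_one],
        fun h => by simp [left_eq_mul.1 h] at h1⟩
    exact_mod_cast (Set.two_lt_ncard_iff (s := {s : G | s * s = x})).2
      ⟨_, _, _, b1, (b2 t a1 a4).1, (b2 t' a2 a5).1, (b2 t a1 a4).2, (b2 t' a2 a5).2, by simpa⟩
  let r : IrrCharacter G → ℝ := fun χ => (fsInd χ.1 * χ.1 x).re + k 1035 χ + 2 * k 1265 χ
  have h6 : ∀ {m : ℕ} (D : Bk 7 x m m 3), m = 1 ∨ m = 2 → D.sum r ≤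
      (D.sd.map fun y => if y.natAbs = 1035 ∨ y.natAbs = 1265 then (0 : ℝ) else m).sum :=
    fun {m} D hm => by
    rw [D.sd_map fun _ d => if d = 1035 ∨ d = 1265 then (0 : ℝ) else m, Bk.sum,
      Finset.sum_eq_zero (s := D.Y) fun θ hθ => by simp [r, k, θ.2.fsInd_eq_zero_of_not_real
        ⟨x, (D.re_Y h (by rw [hf]) hn (by omega) hθ).2⟩], add_zero]
    refine Finset.sum_le_sum fun χ hχ => ?_
    have a1 := D.deg_X h hχ
    have a2 := D.σ_sign χ hχ
    have a3 := fun h => even_iff_two_dvd.1 (χ.2.even_degree_of_fsInd h χ.2.apply_one_eq_charDegree)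
    simp only [r, k, D.val_X χ hχ x (mem_zpowers x) h.ne_one]
    unfold Int.ModEq at a1
    by_cases b1 : charDegree χ.1 = 1035
    · obtain ⟨rfl, a4⟩ : m = 1 ∧ D.σ χ = -1 := by rcases hm with rfl | rfl <;> omega
      rcases χ.2.fsInd_trichotomy with h | h | h
      · simp [h, b1]
      · simp [h, b1, a4]
      · have := a3 h; omega
    by_cases b2 : charDegree χ.1 = 1265
    · obtain ⟨rfl, a4⟩ : m = 2 ∧ D.σ χ = -1 := by rcases hm with rfl | rfl <;> omega
      rcases χ.2.fsInd_trichotomy with h | h | h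
      · simp [h, b2]
      · simp [h, b2, a4]
      · have := a3 h; omega
    rcases χ.2.fsInd_trichotomy with h | h | h <;> rcases a2 with a2 | a2 <;> simp [h, a2, b1, b2]
  have h7 : ∑ χ, r χ = _ := (Finset.sum_filter_of_ne
    (p := fun χ : IrrCharacter G => ¬ 7 ∣ charDegree χ.1) fun χ _ h1 h2 => h1 (by
    simp [r, k, val_zero h h2 hx.symm.dvd, show charDegree χ.1 ≠ 1035 by omega,
      show charDegree χ.1 ≠ 1265 by omega])).symm.trans (hD ℝ r)
  have a0 := h6 D₀ (.inl rfl)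
  have a1 := h6 D₁ (.inl rfl)
  have a2 := h6 D₂ (.inr rfl)
  simp only [r, Finset.sum_add_distrib, ← Finset.mul_sum] at h7
  rw [h0] at a0
  rw [h1] at a1
  rw [h2] at a2
  norm_num at a0 a1 a2
  linarith [h4 _ (.inl rfl), h4 _ (.inr rfl)]

theorem small : (∀ χ : IrrCharacter G, charDegree χ.1 ∈ [1, 23, 45, 231, 252, 253] ∨
    276 < charDegree χ.1) ∧ ∃ χ : IrrCharacter G, charDegree χ.1 = 23 ∧
      ∀ φ : IrrCharacter G, charDegree φ.1 = charDegree χ.1 → φ = χ := by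
  obtain ⟨x, D₀, D₁, D₂, hx, hD, ⟨h1, h2⟩ | h | ⟨h0, h1, h2⟩⟩ := H.sieve
  · refine ⟨fun χ => by_contra fun h => ?_, ?_⟩
    · simpa [fz, h, not_or.1 h, not_lt.1 (not_or.1 h).2] using Finset.sum_eq_zero_iff.1 h1 χ (by simp)
    · simp only [fu, ← Finset.card_filter, Finset.card_eq_one, Finset.ext_iff, Finset.mem_filter,
        Finset.mem_univ, true_and, Finset.mem_singleton] at h2
      obtain ⟨χ, h2⟩ := h2
      exact ⟨χ, (h2 χ).2 rfl, fun φ h => (h2 φ).1 (h.trans ((h2 χ).2 rfl))⟩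
  · exact (H.kill3 D₁ h).elim
  · exact (H.kill4 hx D₀ D₁ D₂ hD h0 h1 h2).elim

end Hyp

end CL.OJ.M24
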