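import Cfsg.Agent.SPOR.Ord23c
import Cfsg.Agent.SPOR.Ord24d
import Cfsg.Agent.SPOR.OrdNse

/-! A group with the local structure of `M24` is isomorphic to `M24`. -/

set_option autoImplicit false
open Cfsg Subgroup CL.Char CL.D1 CL.D1T CL.Ord MulAction
open scoped ComplexConjugate

namespace CL.OJ

section
variable {G : Type*} [Group G] [Finite G] [IsSimpleGroup G] (hG : Nat.card G = 10200960)
include hG

namespace M23

theorem perm [Fintype G] {ψ : G → ℂ} (hψ : IsCharacter G ψ) (h23 : ψ 1 = 23) {g₀ : G}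
    (h0 : ψ g₀ ≠ 23) : ∃ f : G → ℕ, (∀ g, ψ g = f g) ∧ (∀ u, orderOf u = 2 → f u = 7) ∧
      (∀ u, orderOf u = 4 → f u < 4) ∧ ∑ g, (f g).descFactorial 4 = Nat.card G := by
  classical
  have := Fact.mk Nat.prime_two
  have hp := CL.Small.commutator_eq_top (G := G)
    (CL.Small.not_comm_of_not_prime (by rw [hG]; norm_num))
  obtain ⟨χ, -, hd⟩ := exists_of_mem (degs hG) (d := 22) (by simp)
  have hS : ∀ φ : IrrCharacter G, charDegree φ.1 ∈
      [1, 22, 45, 230, 231, 253, 770, 896, 990, 1035, 2024].toFinset := fun φ =>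
    (by decide : ∀ d ∈ [1, 253, 990, 990, 896, 896, 231, 231, 231, 45, 45, 22, 770, 770, 1035,
      230, 2024], d ∈ _) _ (mem_of_Rec (degs hG) φ)
  have hu := fun (φ : IrrCharacter G) (h : charDegree φ.1 = _) =>
    (uniq hG (χ := χ) h).resolve_right (by simp [hd])
  have key : ∀ g, ψ g = 1 + χ.1 g := by
    obtain ⟨n, -, hn⟩ := hψ.exists_nat_coeffs
    have o1 : charDegree (irrOne G).1 = 1 := charDegree_const_one
    have c1 : ∑ φ : IrrCharacter G, n φ * charDegree φ.1 = 23 := by
      rw [hn, Finset.sum_apply] at h23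
      simp only [Pi.smul_apply, smul_eq_mul, IsIrrCharacter.apply_one_eq_charDegree (Subtype.prop _)] at h23
      exact_mod_cast h23
    have c2 : ∀ φ, φ ≠ irrOne G ∧ φ ≠ χ → n φ = 0 := fun φ h => by_contra fun h3 => by
      have c3 := (Nat.le_mul_of_pos_left _ (Nat.pos_of_ne_zero h3)).trans ((Finset.single_le_sum
        (f := fun φ : IrrCharacter G => n φ * charDegree φ.1) (fun _ _ => Nat.zero_le _)
        (Finset.mem_univ φ)).trans c1.le)
      have c4 := degree_ne_one hp h.1
      have c5 := hS φ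
      have c6 := mt (hu φ) h.2
      simp only [List.mem_toFinset, List.mem_cons, List.not_mem_nil, or_false] at c5
      omega
    have c3 : irrOne G ≠ χ := fun h => by rw [← h, o1] at hd; omega
    rw [Fintype.sum_eq_add _ _ c3 fun φ h => by simp [c2 φ h], o1, hd] at c1
    rw [Fintype.sum_eq_add _ _ c3 fun φ h => by simp [c2 φ h]] at hn
    rcases (by omega : n (irrOne G) = 1 ∧ n χ = 1 ∨ n (irrOne G) = 23 ∧ n χ = 0) with h | h
    · simp [hn, h, irrOne_apply]
    · simp [hn, h, irrOne_apply] at h0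
  obtain ⟨M, N, a1, a2, a3⟩ := sq_decomp hS hp hd (by norm_num) hu
  simp only [List.sum_toFinset _
    (by decide : [1, 22, 45, 230, 231, 253, 770, 896, 990, 1035, 2024].Nodup),
    List.map_cons, List.map_nil, List.sum_cons, List.sum_nil, List.mem_toFinset,
    List.forall_mem_cons] at a2 a3
  have h2 : ∀ t : G, orderOf t = 2 → χ.1 t = (6 : ℤ) := fun t ht => by
    obtain ⟨v, h1, -, h2, -⟩ := inv_col hG ht
    rw [h1, hd, h2]
  have h1 : χ.1 1 = (22 : ℤ) := by simp [χ.2.apply_one_eq_charDegree, hd]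
  obtain ⟨t, ht⟩ := exists_prime_orderOf_dvd_card' (G := G) 2 (by rw [hG]; norm_num)
  obtain ⟨v, hv, v1, v2, v3⟩ := inv_col hG ht
  obtain ⟨b1, b2⟩ := a2 1 (fun d => d) 22 (fun φ => by simp [φ.2.apply_one_eq_charDegree])
    (by simp [h1])
  have b3 := (a2 t v 22 hv (by rw [← sq, ← ht, pow_orderOf_eq_one, h1])).1
  have b4 := (arith1 a1 b1).2.resolve_right fun h => by simp [arith1 a1 b1, h, v1, v2, v3] at b3
  have b5 := arith2 (by simpa [b4] using a1) b2
  obtain ⟨H, d1, d2, -, d3⟩ := a3 231 rfl (by simp [arith1 a1 b1, b4]) (by simp [arith1 a1 b1, b5])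
  replace d3 := d3 (by simp [arith1 a1 b1, b4, b5]) (by simp [arith1 a1 b1, b4, b5])
  clear a1 a2 a3 b1 b2 b3 b4 b5 hS hv
  have d5 : ∀ g, χ.1 g = ((Nat.card (fixedBy (G ⧸ H) g) : ℤ) - 1 : ℤ) := fun g => by
    rw [Int.cast_sub, Int.cast_natCast, d2]
    simp
  have d6 : ∀ u, orderOf u = 2 → Nat.card (fixedBy (G ⧸ H) u) = 7 := fun u hu => by
    have := Int.cast_injective ((h2 u hu).symm.trans (d5 u))
    omega
  have d7 : ∀ (g : G) (k : ℕ), Nat.card (fixedBy (G ⧸ H) g) ≤ Nat.card (fixedBy (G ⧸ H) (g ^ k)) :=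
    fun g k => Set.ncard_le_ncard (by simpa using fixedBy_subset_fixedBy_zpow (G ⧸ H) g k)
  refine ⟨_, fun g => (key g).trans (d2 g).symm, d6, fun g hg => not_le.1 fun e1 => ?_, d3⟩
  have e2 : orderOf (g ^ 2) = 2 := by rw [orderOf_pow, hg]; rfl
  have e3 := eight_dvd hp χ.2.isCharacter (hg ▸ pow_orderOf_eq_one g) (d5 g) (h2 _ (sq g ▸ e2)) h1
  have e4 := le_cent (f := (·.descFactorial 4)) d3
  have e5 := (d7 g 2).trans_eq (d6 _ e2)
  have e6 := e4 g
  rw [show Nat.card (fixedBy (G ⧸ H) g) = 7 by omega] at e6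
  have e7 := card_centralizer_dvd_of_commute_pow g 2
  rw [((trees hG).2.2.2.2 _ e2).1] at e7
  have : Fact (Nat.Prime 7) := ⟨by norm_num⟩
  obtain ⟨y, f1, f2⟩ := CL.Small.exists_mem_orderOf_eq_prime (centralizer ({g} : Set G)) 7
    ((by decide +kernel : ∀ d ∈ Nat.divisors 2688, 840 ≤ d → 7 ∣ d) _ (by simpa using e7) e6)
  replace f1 : Commute y g := mem_centralizer_singleton_iff.1 f1
  have f3 : Nat.card (fixedBy (G ⧸ H) y) = 2 := by
    have f4 := int_mod_of_val f2 (d5 y) hd
    have f5 := (e4 y).trans ((trees hG).2.2.2.1 y f2)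
    have : Nat.card (fixedBy (G ⧸ H) y) < 5 := not_le.1 fun h =>
      absurd ((Nat.descFactorial_le 4 h).trans f5) (by decide)
    omega
  have f4 := Ord.modEq_of_comm (by norm_num) (by norm_num) f2 e2 (f1.pow_right 2) (d5 _) (h2 _ e2)
  have f5 := d7 (y * g ^ 2) 8
  rw [(f1.pow_right 2).mul_pow, ← pow_mul, show 2 * 8 = orderOf g * 4 by rw [hg], pow_mul,
    pow_orderOf_eq_one, one_pow, mul_one, pow_succ y, ← f2, pow_orderOf_eq_one, one_mul, f3] at f5
  obtain ⟨p, q, -, f6⟩ := Set.ncard_eq_two.1 f3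
  have f7 : ∀ x ∈ fixedBy (G ⧸ H) y, g • x ∈ fixedBy (G ⧸ H) y := fun x hx => by
    rw [mem_fixedBy, smul_smul, f1.eq, mul_smul, mem_fixedBy.1 hx]
  have f8 : p ∈ fixedBy (G ⧸ H) y := by simp [f6]
  have f9 : p ∈ fixedBy (G ⧸ H) (y * g ^ 2) := by
    have g1 := f7 _ f8
    have g2 := f7 _ g1
    rw [f6] at g1 g2
    rw [mem_fixedBy, mul_smul, sq, mul_smul, show g • g • p = p by
      rcases g1 with g1 | g1
      · rw [g1, g1]
      · exact g2.resolve_right fun h => by
          have := MulAction.injective g (h.trans g1.symm)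
          rw [this, this] at h
          simp_all, mem_fixedBy.1 f8]
  have := (Set.ncard_pos (Set.toFinite _)).2 ⟨p, f9⟩
  rw [← Nat.card_coe_set_eq] at this
  omega

end M23

end

namespace M24.Hyp

variable {G : Type*} [Group G] [Finite G] (H : Hyp G)
include H

theorem index : ∃ (χ : IrrCharacter G) (K : Subgroup G), charDegree χ.1 = 23 ∧ K.index = 24 ∧
    ∀ g, (Nat.card (fixedBy (G ⧸ K) g) : ℂ) = 1 + χ.1 g := by
  classical
  have := Fintype.ofFinite G
  obtain ⟨h1, χ, hd, hu⟩ := H.small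
  obtain ⟨x, hx, h2, -⟩ := H.ex11
  have hr : ∀ g, conj (χ.1 g) = χ.1 g := fun g => by
    obtain ⟨n, hn⟩ := exists_int_of_unique hu g
    simp [hn]
  have o1 : charDegree (irrOne G).1 = 1 := charDegree_const_one
  have hu1 : ∀ φ : IrrCharacter G, charDegree φ.1 = charDegree (irrOne G).1 → φ = irrOne G :=
    fun φ h => by_contra fun h2 => by have := degree_ne_one H.perf h2; omega
  have c1 : χ.1 1 = 23 := by simp [χ.2.apply_one_eq_charDegree, hd]
  have c2 : χ.1 x = 1 := by simp [(h2 χ).1, hd, w11]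
  have c3 : χ.1 (x * x) = 1 := by
    have h := H.p1 hx (by norm_num)
    obtain ⟨c, hc⟩ := isConj_iff.1 (h.isConj_of_card (card_expA h (c := 22256640)
      (by rw [H.c11 x hx, H.card]) rfl) (k := 2) (by norm_num))
    rw [← sq, ← hc, χ.2.isClassFunction, c2]
  have key : ∀ {ψ : G → ℂ}, IsCharacter G ψ → ∀ {a b : ℤ}, ψ 1 = a → ψ x = b → a ≤ 276 →
      ∃ M : ℕ → ℕ, classInner ψ (irrOne G).1 = M 1 ∧ classInner ψ χ.1 = M 23 ∧
        (∀ φ : IrrCharacter G, classInner ψ φ.1 ≠ 0 → M (charDegree φ.1) ≠ 0 ∧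
          charDegree φ.1 ∈ [1, 23, 45, 231, 252, 253]) ∧
        a = M 1 + 23 * M 23 + 45 * M 45 + 231 * M 231 + 252 * M 252 + 253 * M 253 ∧
        b = M 1 + M 23 + M 45 - M 252 := fun {ψ} hψ a b ha hb hab => by
    let T := (Finset.univ.image fun φ : IrrCharacter G => charDegree φ.1).filter (276 < ·)
    have t1 : Disjoint [1, 23, 45, 231, 252, 253].toFinset T := Finset.disjoint_left.2 fun d h h' => by
      have := (Finset.mem_filter.1 h').2
      simp only [List.mem_toFinset, List.mem_cons, List.not_mem_nil, or_false] at h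
      omega
    obtain ⟨m, M, a1, a2, a3, -, a5⟩ := decomp (S := [1, 23, 45, 231, 252, 253].toFinset ∪ T)
      (fun φ => Finset.mem_union.2 ((h1 φ).imp List.mem_toFinset.2 fun h =>
        Finset.mem_filter.2 ⟨Finset.mem_image_of_mem _ (Finset.mem_univ φ), h⟩)) hψ
    have b1 := Int.cast_injective (ha.symm.trans
      (a5 1 (fun d => d) fun φ => by simp [φ.2.apply_one_eq_charDegree]))
    have b2 := Int.cast_injective (hb.symm.trans (a5 x (fun d => w11 d / 2) fun φ => (h2 φ).1))
    simp only [Finset.sum_union t1, List.sum_toFinset _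
      (by decide : [1, 23, 45, 231, 252, 253].Nodup), List.map_cons, List.map_nil, List.sum_cons,
      List.sum_nil] at b1 b2
    have b3 : ∀ d ∈ T, M d = 0 := fun d h => by_contra fun h3 => by
      have := Finset.single_le_sum (f := fun d => (M d * d : ℤ)) (fun _ _ => by positivity) h
      have := (Finset.mem_filter.1 h).2
      have : (1 * d : ℤ) ≤ M d * d := by gcongr; omega
      omega
    rw [Finset.sum_eq_zero fun d h => by simp [b3 d h]] at b1 b2
    refine ⟨M, by rw [a1, ← a3 _ hu1, o1], by rw [a1, ← a3 _ hu, hd], fun φ h => ?_, by omega, ?_⟩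
    · have : M (charDegree φ.1) ≠ 0 := fun h0 => h (by rw [a1, Nat.le_zero.1 ((a2 φ).trans h0.le)]; simp)
      exact ⟨this, (h1 φ).resolve_right fun h => this (b3 _ (Finset.mem_filter.2
        ⟨Finset.mem_image_of_mem _ (Finset.mem_univ φ), h⟩))⟩
    · simp [w11] at b2
      omega
  obtain ⟨M, a1, a2, a3, a4, a5⟩ := key χ.2.isCharacter.altSq (a := 253) (b := 0)
    (by simp [c1]; norm_num) (by simp [c2, c3]) (by norm_num)
  obtain ⟨N, b1, b2, -, b4, b5⟩ := key χ.2.isCharacter.symSq (a := 276) (b := 1)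
    (by simp [c1]; norm_num) (by simp [c2, c3]) le_rfl
  have hr' := fun g => Complex.conj_eq_iff_im.1 (hr g)
  obtain ⟨e1, e2⟩ := (χ.2.sq_inner_of_real hr').resolve_right fun h => by
    have := χ.2.fsInd_eq_one_of_odd hr' χ.2.apply_one_eq_charDegree (by rw [hd]; decide)
    rw [fsInd_eq_sub, h.1, h.2] at this
    norm_num at this
  replace e1 : N 1 = 1 := by exact_mod_cast b1.symm.trans e1
  replace e2 : M 1 = 0 := by exact_mod_cast a1.symm.trans e2
  obtain ⟨φ, f1, f2⟩ := χ.2.isCharacter.altSq.exists_irr_inner_ne_zero fun h => by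
    have := congrFun h 1
    simp [c1] at this
    norm_num at this
  have f3 : charDegree φ = 253 := by
    obtain ⟨f3, f4⟩ := a3 ⟨φ, f1⟩ f2
    simp only [List.mem_cons, List.not_mem_nil, or_false] at f4
    rcases f4 with h | h | h | h | h | h <;> rw [h] at f3 ⊢ <;> omega
  have f4 := χ.2.isCharacter.altSq.eq_of_inner_ne_zero_of_degree f1 f2
    (by rw [f1.apply_one_eq_charDegree, f3]; simp [c1]; norm_num)
  obtain ⟨K, d1, d2⟩ := exists_index_of_altSq χ.2 (by omega) hr (f4 ▸ f1) fun h => by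
    have g1 := card_mul_classInner (fun g => (χ.1 g ^ 2 + χ.1 (g * g)) / 2) χ.1
    have g2 := card_mul_classInner (fun g => (χ.1 g ^ 2 - χ.1 (g * g)) / 2) χ.1
    rw [b2, show N 23 = 1 by omega] at g1
    rw [a2, show M 23 = 0 by omega] at g2
    refine card_ne_zero G ?_
    rw [← h, Finset.sum_congr rfl fun g _ => show χ.1 g ^ 3 = (χ.1 g ^ 2 + χ.1 (g * g)) / 2 *
      conj (χ.1 g) + (χ.1 g ^ 2 - χ.1 (g * g)) / 2 * conj (χ.1 g) by rw [hr]; ring,
      Finset.sum_add_distrib, ← g1, ← g2]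
    simp
  exact ⟨χ, K, hd, by omega, d2⟩

theorem iso : Nonempty (G ≃* Cfsg.M24) := by
  classical
  have := Fintype.ofFinite G
  have := H.simple
  obtain ⟨χ, K, hd, d1, d2⟩ := H.index
  have d4 : Fintype.card (G ⧸ K) = 24 := by rw [← Nat.card_eq_fintype_card, ← index_eq_card, d1]
  have key : ∀ ω : G ⧸ K, (∀ u : stabilizer G ω, orderOf u = 2 → Nat.card (fixedBy (G ⧸ K) u.1) = 8) ∧
      (∀ u : stabilizer G ω, orderOf u = 4 → Nat.card (fixedBy (G ⧸ K) u.1) < 5) ∧
      ∑ g : stabilizer G ω, (Nat.card (fixedBy (G ⧸ K) g.1) - 1).descFactorial 4 = 10200960 := fun ω => by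
    have h1 : Nat.card (stabilizer G ω) = 10200960 := by
      have := (stabilizer G ω).card_mul_index
      rw [index_stabilizer_of_transitive, Nat.card_eq_fintype_card (α := G ⧸ K), d4, H.card] at this
      omega
    obtain ⟨x, hx⟩ := exists_prime_orderOf_dvd_card' (G := stabilizer G ω) 23 (by rw [h1]; norm_num)
    have h : P1 23 x := ⟨hx, by rw [h1]; norm_num⟩
    have h2 : Nat.card (centralizer {x}) = 23 := by
      refine Nat.dvd_antisymm ?_ (hx ▸ orderOf_dvd_card_centralizer x)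
      rw [← H.c23 x (by simpa using hx), ← card_map_of_injective (stabilizer G ω).subtype_injective]
      refine card_dvd_of_le (map_le_iff_le_comap.2 fun g hg => mem_centralizer_singleton_iff.2 ?_)
      exact congrArg Subtype.val (mem_centralizer_singleton_iff.1 hg)
    obtain ⟨P, hP⟩ := h.exists_sylow
    have := simple_of_normalizer P (h.card_sylow P) (e := 11) (r := 2) (by norm_num)
      (by rw [hP, h.card_normalizer, h2, card_expA h (c := 443520) (by rw [h1, h2]) rfl])
      (by norm_num) (by norm_num) (by norm_num) (by rw [h1]; norm_num) (h1 ▸ pow_mod_ne_one (K := 24)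
        [2, 3, 5, 7, 11, 23] (by simp; norm_num) (by norm_num) (by norm_num) (by norm_num)
        (by decide +kernel))
    obtain ⟨f, f1, f2, f3, f4⟩ := M23.perm h1 (χ.2.isCharacter.res (stabilizer G ω))
      (by simp [χ.2.apply_one_eq_charDegree, hd]) (g₀ := x) fun h0 => by
        have := norm_lt_deg H.nc (χ := χ) (g := x) (by
          rintro rfl
          rw [show charDegree (irrOne G).1 = 1 from charDegree_const_one] at hd
          omega) (by simpa using h.ne_one)
        simp [h0, hd] at this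
    have f5 : ∀ g : stabilizer G ω, Nat.card (fixedBy (G ⧸ K) g.1) = f g + 1 := fun g =>
      Nat.cast_injective (R := ℂ) (by rw [d2, f1, add_comm, Nat.cast_succ])
    simp only [f5, Nat.add_sub_cancel, f4, h1, and_true]
    exact ⟨fun u hu => by rw [f2 u hu], fun u hu => Nat.succ_lt_succ (f3 u hu)⟩
  have h0 : ∀ {g : G} {P : Prop}, (∀ (ω : G ⧸ K) (h : g ∈ stabilizer G ω), P) →
      P ∨ Nat.card (fixedBy (G ⧸ K) g) < 5 := fun {g _} h => or_iff_not_imp_right.2 fun h1 => by
    obtain ⟨⟨ω, h2⟩⟩ := (Nat.card_pos_iff.1 (show 0 < Nat.card (fixedBy (G ⧸ K) g) by omega)).1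
    exact h ω h2
  obtain ⟨B, hB, φ, hφ⟩ := exists_steiner (t := 5) d4 H.card
    (fun u hu => h0 fun ω h => (key ω).1 ⟨u, h⟩ (by simpa))
    (fun u hu => (or_self_iff).1 (h0 fun ω h => (key ω).2.1 ⟨u, h⟩ (by simpa))) (by
      have h1 : ∀ g : G, (Nat.card (fixedBy (G ⧸ K) g)).descFactorial 5 = ∑ ω : G ⧸ K,
          if g ∈ stabilizer G ω then (Nat.card (fixedBy (G ⧸ K) g) - 1).descFactorial 4 else 0 :=
        fun g => by
          rw [← Finset.sum_filter, Finset.sum_const, smul_eq_mul, show (Finset.univ.filter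
            fun ω : G ⧸ K => g ∈ stabilizer G ω).card = Nat.card (fixedBy (G ⧸ K) g) by
              rw [Nat.card_eq_fintype_card, Fintype.card_subtype]; rfl]
          cases Nat.card (fixedBy (G ⧸ K) g) with
          | zero => rfl
          | succ k => exact Nat.succ_descFactorial_succ k 4
      rw [Finset.sum_congr rfl fun g _ => h1 g, Finset.sum_comm, Finset.sum_congr rfl fun ω _ => by
        rw [← Finset.sum_filter, Finset.sum_subtype _ (p := (· ∈ stabilizer G ω)) (by simp),
          (key ω).2.2], Finset.sum_const, Finset.card_univ, d4, H.card]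
      rfl)
  obtain ⟨e⟩ := CL.Steiner.nonempty_aut24_equiv d4 hB
  exact ⟨(MulEquiv.ofBijective φ ((Nat.bijective_iff_injective_and_card φ).2 ⟨hφ, by
    rw [H.card, Nat.card_congr e.toEquiv, CL.Golay.card_M24]⟩)).trans e⟩

end M24.Hyp

end CL.OJ
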