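/-
Generation of `M23` by triples of prime orders: Ree's genus inequality and explicit pairs.
-/
import Cfsg.Agent.SPOR.GolayFib
import Cfsg.Agent.SPOR.GolayClasses

set_option autoImplicit false

namespace CL.M23Gen

open Cfsg CL.Golay CL.K Module Subgroup

theorem trace_sum {V : Type*} [AddCommGroup V] [Module ℂ V] [FiniteDimensional ℂ V]
    {f : V →ₗ[ℂ] V} {k : ℕ} (hk : k ≠ 0) (hf : f ^ k = 1) :
    ∑ i ∈ Finset.range k, LinearMap.trace ℂ V (f ^ i) = k * finrank ℂ (LinearMap.ker (1 - f)) := by
  have hk' : (k : ℂ) ≠ 0 := Nat.cast_ne_zero.2 hk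
  have hp : LinearMap.IsProj (LinearMap.ker (1 - f))
      ((k : ℂ)⁻¹ • ∑ i ∈ Finset.range k, f ^ i) := by
    refine ⟨fun v => ?_, fun v hv => ?_⟩
    · rw [LinearMap.mem_ker, ← Module.End.mul_apply, mul_smul_comm, mul_neg_geom_sum, hf, sub_self,
        smul_zero, LinearMap.zero_apply]
    · have hv' : f v = v := (sub_eq_zero.1 (LinearMap.mem_ker.1 hv)).symm
      have : ∀ i : ℕ, (f ^ i) v = v := fun i => by
        induction i with
        | zero => rfl
        | succ i ih => rw [pow_succ, Module.End.mul_apply, hv', ih]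
      simp [this, smul_smul, ← Nat.cast_smul_eq_nsmul ℂ, hk']
  rw [← hp.trace, map_smul, map_sum, smul_eq_mul, mul_inv_cancel_left₀ hk']

theorem scott_lin {V : Type*} [AddCommGroup V] [Module ℂ V] [FiniteDimensional ℂ V] (A B : V →ₗ[ℂ] V) :
    finrank ℂ (LinearMap.ker (1 - A)) + finrank ℂ (LinearMap.ker (1 - B)) +
      finrank ℂ (LinearMap.ker (1 - A * B)) +
      finrank ℂ ↥(LinearMap.range (1 - A) ⊔ LinearMap.range (1 - B)) ≤
    2 * finrank ℂ V + finrank ℂ ↥(LinearMap.ker (1 - A) ⊓ LinearMap.ker (1 - B)) := by
  have hAB : ∀ v ∈ LinearMap.ker (1 - A * B), A (B v) = v := fun v hv =>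
    (sub_eq_zero.1 (LinearMap.mem_ker.1 hv)).symm
  let φ := (1 - B).domRestrict (LinearMap.ker (1 - A * B))
  have h1 : finrank ℂ (LinearMap.range φ) ≤
      finrank ℂ ↥(LinearMap.range (1 - A) ⊓ LinearMap.range (1 - B)) := by
    refine Submodule.finrank_mono ?_
    rintro _ ⟨v, rfl⟩
    exact ⟨⟨-B v, by simp [φ, hAB v.1 v.2, neg_add_eq_sub]⟩, ⟨v, rfl⟩⟩
  have h2 : finrank ℂ (LinearMap.ker φ) ≤
      finrank ℂ ↥(LinearMap.ker (1 - A) ⊓ LinearMap.ker (1 - B)) := by
    rw [← Submodule.finrank_map_subtype_eq]
    refine Submodule.finrank_mono ?_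
    rintro _ ⟨v, hv, rfl⟩
    have h4 : (1 - B) v.1 = 0 := hv
    refine ⟨?_, h4⟩
    have := hAB v.1 v.2
    rw [← show v.1 = B v from sub_eq_zero.1 h4] at this
    exact sub_eq_zero.2 this.symm
  have h3 := φ.finrank_range_add_finrank_ker
  have h4 := Submodule.finrank_sup_add_finrank_inf_eq (LinearMap.range (1 - A))
    (LinearMap.range (1 - B))
  have h5 := (1 - A).finrank_range_add_finrank_ker
  have h6 := (1 - B).finrank_range_add_finrank_ker
  omega

section Ree

variable {Ω : Type*} [Fintype Ω] [DecidableEq Ω]

/-- the permutation module -/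
noncomputable def pl (g : Equiv.Perm Ω) : (Ω → ℂ) →ₗ[ℂ] (Ω → ℂ) := LinearMap.funLeft ℂ ℂ g

/-- the number of cycles -/
noncomputable def cyc (g : Equiv.Perm Ω) : ℕ := finrank ℂ (LinearMap.ker (1 - pl g))

omit [Fintype Ω] [DecidableEq Ω] in
theorem pl_mul (g h : Equiv.Perm Ω) : pl (g * h) = pl h * pl g := rfl

omit [Fintype Ω] [DecidableEq Ω] in
theorem pl_pow (g : Equiv.Perm Ω) (i : ℕ) : pl (g ^ i) = pl g ^ i := by
  induction i with
  | zero => rfl
  | succ i ih => rw [pow_succ, pl_mul, ih, pow_succ']

theorem trace_pl (g : Equiv.Perm Ω) :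
    LinearMap.trace ℂ _ (pl g) = (Finset.univ.filter fun p => g p = p).card := by
  rw [LinearMap.trace_eq_matrix_trace ℂ (Pi.basisFun ℂ Ω), Matrix.trace, Finset.card_filter]
  push_cast
  refine Finset.sum_congr rfl fun p _ => ?_
  simp [pl, Pi.single_apply]

theorem cyc_prime {g : Equiv.Perm Ω} {p : ℕ} (hp : p.Prime) (hg : orderOf g = p) :
    p * cyc g = Fintype.card Ω + (p - 1) * (Finset.univ.filter fun a => g a = a).card := by
  have h := trace_sum (f := pl g) hp.ne_zero (by rw [← pl_pow, ← hg, pow_orderOf_eq_one]; rfl)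
  obtain ⟨m, rfl⟩ : ∃ m, p = m + 1 := ⟨p - 1, by have := hp.pos; omega⟩
  rw [Finset.sum_range_succ', Finset.sum_congr rfl (g := fun _ =>
    ((Finset.univ.filter fun a => g a = a).card : ℂ)) fun i hi => by
      rw [← pl_pow, trace_pl]
      congr 2
      ext a
      have hi' := Finset.mem_range.1 hi
      obtain ⟨k, hk⟩ := exists_pow_eq_self_of_coprime (x := g) (n := i + 1)
        (hg ▸ (Nat.coprime_of_lt_prime (by omega) (by omega) hp).symm)
      simp only [Finset.mem_filter, Finset.mem_univ, true_and]
      exact ⟨fun e => hk ▸ Equiv.Perm.pow_apply_eq_self_of_apply_eq_self e k,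
        fun e => Equiv.Perm.pow_apply_eq_self_of_apply_eq_self e _⟩] at h
  rw [Finset.sum_const, Finset.card_range, pow_zero, LinearMap.trace_one, finrank_fintype_fun_eq_card,
    nsmul_eq_mul] at h
  rw [Nat.add_sub_cancel, add_comm (Fintype.card Ω)]
  exact_mod_cast h.symm

/-- Ree's inequality for a group with at most two orbits -/
theorem ree {x y : Equiv.Perm Ω} {a b : Ω} (h : ∀ c, c = a ∨ ∃ g ∈ closure {x, y}, g c = b) :
    cyc x + cyc y + cyc (x * y) ≤ Fintype.card Ω + 4 := by
  have h0 := scott_lin (pl y) (pl x)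
  rw [← pl_mul, finrank_fintype_fun_eq_card] at h0
  set S := LinearMap.range (1 - pl y) ⊔ LinearMap.range (1 - pl x)
  set F := LinearMap.ker (1 - pl y) ⊓ LinearMap.ker (1 - pl x)
  have hS : ∀ g ∈ closure {x, y}, ∀ v, v - pl g v ∈ S := fun g hg => by
    induction hg using closure_induction with
    | mem g hg =>
      rcases hg with rfl | rfl
      exacts [fun v => Submodule.mem_sup_right ⟨v, rfl⟩, fun v => Submodule.mem_sup_left ⟨v, rfl⟩]
    | one => exact fun v => by rw [show pl 1 v = v from rfl, sub_self]; exact zero_mem _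
    | mul g k _ _ hg hk =>
      exact fun v => by
        have := add_mem (hg v) (hk (pl g v))
        rwa [sub_add_sub_cancel] at this
    | inv g _ hg =>
      exact fun v => by
        have := neg_mem (hg (pl g⁻¹ v))
        rwa [neg_sub, ← Module.End.mul_apply, ← pl_mul, inv_mul_cancel] at this
  have hF : ∀ g ∈ closure {x, y}, ∀ v ∈ F, pl g v = v := fun g hg => by
    induction hg using closure_induction with
    | mem g hg =>
      rcases hg with rfl | rfl
      exacts [fun v hv => (sub_eq_zero.1 hv.2).symm, fun v hv => (sub_eq_zero.1 hv.1).symm]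
    | one => exact fun v _ => rfl
    | mul g k _ _ hg hk => exact fun v hv => by rw [pl_mul, Module.End.mul_apply, hg v hv, hk v hv]
    | inv g _ hg =>
      exact fun v hv => by
        nth_rewrite 1 [← hg v hv]
        rw [← Module.End.mul_apply, ← pl_mul, mul_inv_cancel]; rfl
  have h1 : finrank ℂ F ≤ 2 := by
    have := LinearMap.finrank_le_finrank_of_injective (f := ((LinearMap.proj a).prod
      (LinearMap.proj b) : (Ω → ℂ) →ₗ[ℂ] ℂ × ℂ).domRestrict F) (by
        rw [← LinearMap.ker_eq_bot, eq_bot_iff]
        intro v hv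
        have e : (v.1 a, v.1 b) = 0 := hv
        refine Subtype.ext (funext fun c => ?_)
        rcases h c with rfl | ⟨g, hg, rfl⟩
        · exact congrArg Prod.fst e
        · exact (congrFun (hF g hg v.1 v.2) c).symm.trans (congrArg Prod.snd e))
    simpa using this
  have h2 : Fintype.card Ω ≤ finrank ℂ S + 2 := by
    let T := Submodule.span ℂ (({Pi.single a 1, Pi.single b 1} : Finset (Ω → ℂ)) : Set (Ω → ℂ))
    have t1 : finrank ℂ T ≤ 2 := (finrank_span_finset_le_card _).trans Finset.card_le_two
    have t2 : S ⊔ T = ⊤ := by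
      rw [eq_top_iff, ← (Pi.basisFun ℂ Ω).span_eq, Submodule.span_le]
      rintro _ ⟨c, rfl⟩
      rw [Pi.basisFun_apply]
      rcases h c with rfl | ⟨g, hg, rfl⟩
      · exact Submodule.mem_sup_right (Submodule.subset_span (by simp))
      · have e : pl g (Pi.single (g c) 1) = Pi.single c 1 := funext fun d => by
          simp [pl, Pi.single_apply]
        have := sub_mem (Submodule.mem_sup_right (S := S) (Submodule.subset_span
          (s := (({Pi.single a 1, Pi.single (g c) 1} : Finset (Ω → ℂ)) : Set (Ω → ℂ)))
          (a := Pi.single (g c) 1) (by simp))) (Submodule.mem_sup_left (hS g hg (Pi.single (g c) 1)))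
        rwa [sub_sub_cancel, e] at this
    have t3 := Submodule.finrank_add_le_finrank_add_finrank S T
    rw [t2, finrank_top, finrank_fintype_fun_eq_card] at t3
    omega
  unfold cyc
  omega

end Ree

/-- lower bounds for the number of cycles -/
def cb (p : ℕ) : ℕ := if p = 2 then 16 else if p = 3 then 12 else if p = 5 then 8 else
  if p = 7 then 6 else 2

theorem cb_le {g : Equiv.Perm GolayPt} (hg : g ∈ Spor.M23) {p : ℕ} (hp : p.Prime) (h : orderOf g = p) :
    cb p ≤ cyc g := by
  have h1 := cyc_prime hp h
  have h0 : (fixS g).card ≠ 0 := (Finset.card_pos.2 ⟨none, mem_fixS.2 hg.2⟩).ne'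
  rw [show Fintype.card GolayPt = 24 from rfl] at h1
  change p * cyc g = 24 + (p - 1) * (fixS g).card at h1
  unfold cb
  split_ifs with a b c d
  · subst a
    rw [(conjTo_2A hg.1 h h0).card_fixS, card_fixS_2A] at h1
    omega
  · subst b
    rw [(conjTo_3A hg.1 h h0).card_fixS, card_fixS_3A] at h1
    omega
  · subst c; omega
  · subst d; omega
  · by_contra hc
    have h2 := hp.two_le
    obtain ⟨m, rfl⟩ : ∃ m, p = m + 1 := ⟨p - 1, by omega⟩
    obtain ⟨f, hf⟩ : ∃ f, (fixS g).card = f + 1 := ⟨(fixS g).card - 1, by omega⟩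
    rw [hf, Nat.add_sub_cancel] at h1
    have : cyc g = 0 ∨ cyc g = 1 := by omega
    rcases this with e | e <;> rw [e] at h1 <;> nlinarith [Nat.zero_le (m * f)]

theorem neg {x y z : Spor.M23} {p q r : ℕ} (hp : p.Prime) (hq : q.Prime) (hr : r.Prime)
    (hx : orderOf x = p) (hy : orderOf y = q) (hz : orderOf z = r) (h : x * y * z = 1)
    (hg : closure {x, y} = ⊤) : cb p + cb q + cb r ≤ 28 := by
  have h1 := ree (x := x.1) (y := y.1) (a := none) (b := some 0) fun c => by
    rcases c with _ | c
    · exact .inl rfl
    obtain ⟨g, hg1, hg2⟩ := exists_map_tuple (k := 2) (by norm_num) ![none, some c] ![none, some 0]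
      (by simp [Function.Injective, Fin.forall_fin_two]) (by simp [Function.Injective, Fin.forall_fin_two])
    have : (⟨g, hg1, hg2 0⟩ : Spor.M23) ∈ closure {x, y} := hg ▸ mem_top _
    refine .inr ⟨g, ?_, hg2 1⟩
    have h3 := mem_map_of_mem Spor.M23.subtype this
    rwa [MonoidHom.map_closure, Set.image_pair] at h3
  have a := cb_le x.2 hp ((orderOf_coe x).trans hx)
  have b := cb_le y.2 hq ((orderOf_coe y).trans hy)
  have c := cb_le (x * y).2 hr ((orderOf_coe _).trans (by
    rw [eq_inv_of_mul_eq_one_left h, orderOf_inv, hz]))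
  rw [show Fintype.card GolayPt = 24 from rfl] at h1
  rw [coe_mul] at c
  omega

/-- evaluation of a word coded in binary -/
noncomputable def evw (X Y : ℕ) (n : ℕ) : ℕ → ℕ :=
  Nat.rec (motive := fun _ => ℕ → ℕ) (fun _ => one24) (fun _ ih w => force w fun w =>
    cond (Nat.ble w 1) one24 (force (ih (Nat.shiftRight w 1)) fun U =>
      comp24 (cond (Nat.beq (Nat.land w 1) 0) X Y) U)) n

theorem evw_in {H : Subgroup (Equiv.Perm GolayPt)} {X Y : ℕ} (hX : I H X) (hY : I H Y) (n w : ℕ) :
    I H (evw X Y n w) := by
  induction n generalizing w with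
  | zero => exact ⟨1, one_mem _, R.one⟩
  | succ n ih =>
    show I H (force w fun w => cond (Nat.ble w 1) one24 (force (evw X Y n (Nat.shiftRight w 1)) fun U =>
      comp24 (cond (Nat.beq (Nat.land w 1) 0) X Y) U))
    rw [force_eq, force_eq]
    cases Nat.ble w 1
    · refine I.mul _ _ ?_ (ih _)
      cases Nat.beq (Nat.land w 1) 0
      exacts [hY, hX]
    · exact ⟨1, one_mem _, R.one⟩

/-- check of the order -/
noncomputable def ordOK (P p : ℕ) : Bool := Nat.beq (pow24 P p) one24 && !Nat.beq (pow24 P 1) one24

/-- check of a generating pair -/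
noncomputable def rowOK (t : ℕ × ℕ × ℕ × ℕ × ℕ × ℕ × ℕ) : Bool :=
  match t with
  | (p, q, r, X, Y, u, v) => okM X && okM Y && Nat.beq (app24 X 23) 23 && Nat.beq (app24 Y 23) 23 &&
    ordOK X p && ordOK Y q && force (comp24 X Y) (fun Z => ordOK Z r) &&
    Nat.beq (evw X Y 40 u) (lget g23 0) && Nat.beq (evw X Y 40 v) (lget g23 1)

theorem pos {p q r X Y u v : ℕ} (hp : p.Prime) (hq : q.Prime) (hr : r.Prime)
    (h : rowOK (p, q, r, X, Y, u, v) = true) : ∃ x y z : Spor.M23, orderOf x = p ∧ orderOf y = q ∧
      orderOf z = r ∧ x * y * z = 1 ∧ closure {x, y} = ⊤ := by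
  simp only [rowOK, Bool.and_eq_true, Nat.beq_eq, force_eq] at h
  obtain ⟨⟨⟨⟨⟨⟨⟨⟨a1, a2⟩, a3⟩, a4⟩, a5⟩, a6⟩, a7⟩, a8⟩, a9⟩ := h
  obtain ⟨x, hx, rx⟩ := (I.of_okM a1).stabilizer (b := 23) (by norm_num) a3
  obtain ⟨y, hy, ry⟩ := (I.of_okM a2).stabilizer (b := 23) (by norm_num) a4
  have := Fact.mk hp
  have := Fact.mk hq
  have := Fact.mk hr
  refine ⟨⟨x, hx⟩, ⟨y, hy⟩, (⟨x, hx⟩ * ⟨y, hy⟩)⁻¹, ?_, ?_, ?_, mul_inv_cancel _, ?_⟩
  · exact (orderOf_coe _).symm.trans (R.orderOf_eq_prime rx a5)
  · exact (orderOf_coe _).symm.trans (R.orderOf_eq_prime ry a6)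
  · rw [orderOf_inv]
    exact (orderOf_coe _).symm.trans (R.orderOf_eq_prime (R.mul rx ry) a7)
  · refine map_injective Spor.M23.subtype_injective ?_
    rw [MonoidHom.map_closure, Set.image_pair, ← MonoidHom.range_eq_map, range_subtype]
    refine le_antisymm ((closure_le _).2 (by rintro _ (rfl | rfl); exacts [hx, hy])) ?_
    have i1 : I (closure {x, y}) X := ⟨x, subset_closure (by simp), rx⟩
    have i2 : I (closure {x, y}) Y := ⟨y, subset_closure (by simp), ry⟩
    refine M23_eq.le.trans (AllI.grp_le fun P hP => ?_)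
    have : P = lget g23 0 ∨ P = lget g23 1 := by
      have h2 : ∀ P ∈ g23, P = lget g23 0 ∨ P = lget g23 1 := by decide +kernel
      exact h2 P hP
    rcases this with rfl | rfl
    exacts [a8 ▸ evw_in i1 i2 _ _, a9 ▸ evw_in i1 i2 _ _]

/-- the generating pairs -/
def rows : List (ℕ × ℕ × ℕ × ℕ × ℕ × ℕ × ℕ) := [
  (2, 5, 11, 984810155754622566520256189283205154, 966304190998413464284653438253517173, 11456666582, 531868530389),
  (2, 5, 23, 983560219871965054030433640375233920, 978766074725129757576043890024172619, 265728780981, 5735538091),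
  (2, 7, 7, 980900055165957088153449875315458690, 964000248635637881823465411375713312, 25076414125, 33755147117),
  (2, 7, 11, 979220185094877299415431706412596225, 981760022590759514137214901000256097, 3044930911, 8520693690),
  (2, 7, 23, 974418279897662019857653824396568625, 968383109944686801917815894782168264, 12806708987, 2138929069),
  (2, 11, 11, 962629292105160794512216592628517353, 982254723057102475150541519600230057, 1052749749, 23611488990),
  (2, 11, 23, 977759248181629214425604038922963552, 962215638098370625390747686740826549, 4155341749, 6085259223),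
  (2, 23, 23, 959545112584965093252574641110321736, 978274310920820432025707551070080678, 7917530111, 14761847643),
  (3, 3, 11, 963782831771703467125254793707270581, 980761489067223318437764590559406598, 1705728845, 62651667626),
  (3, 3, 23, 966180594253232000738033529646254133, 956179025330566542092760298859636902, 93742666, 723888556),
  (3, 5, 5, 984473312335320662457962225632653365, 968821286129646773747105369799297517, 173199219, 233618378),
  (3, 5, 7, 980905679912078383520477443678261637, 955489167887832190014955700759058766, 10181782, 43465149),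
  (3, 5, 11, 971793077827868731770541342008448032, 955898060126198627584964331706619241, 41540391, 131460298),
  (3, 5, 23, 962263922883650689524131772390987080, 969235680349246556810973981814364576, 132043943, 9606391),
  (3, 7, 7, 983952344627864506138209656843356804, 958488922524774194258341726563611759, 20657875, 91460175),
  (3, 7, 11, 978277144767402084774644578744895625, 979201045958223042065508615464190163, 45501012, 26528085),
  (3, 7, 23, 961886431758658613786491992298064260, 973883612353029531145000199449450675, 47923005, 384689380),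
  (3, 11, 11, 956244130068268575602005635842286801, 974307504563091590363488403418515755, 427239764, 12255033),
  (3, 11, 23, 978870421716190489965925647681724494, 962446856531178722771765788025127504, 39310950, 95841572),
  (3, 23, 23, 965225113279737155758354497310656544, 976741277655893889755197385899222605, 38597534, 131942771),
  (5, 5, 5, 967936737294325789161871320342403618, 958032192937391883914449166309698837, 13518372, 54145496),
  (5, 5, 7, 979418641948272331328862292533777508, 984037927714568384671407396995242115, 22899182, 25654326),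
  (5, 5, 11, 960683116422899387745368233958556230, 982659438231545523668250142273908165, 15962576, 2019620),
  (5, 5, 23, 982202753896403874254754841713718898, 963266301078117410438619822869332135, 27080082, 56472046),
  (5, 7, 7, 966677411686999244915663599944509489, 962788847324916418862465492630230124, 31678313, 5542687),
  (5, 7, 11, 961021393743772651563263100165674060, 955974994436146680161957741748987953, 10151534, 46975269),
  (5, 7, 23, 959465057930718260101960470893955306, 957554548783524486401710344153513578, 62148264, 3793899),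
  (5, 11, 11, 984639574616353397904641153864611027, 969836849839223061673133965822740968, 11446249, 5893991),
  (5, 11, 23, 962006876879777162533469723981848583, 964820401438682585027999845436438739, 16710466, 7135581),
  (5, 23, 23, 967537055910756764793941652211645550, 975324251753505598142603120762818630, 9533336, 1138165),
  (7, 7, 7, 984000596238536146350940322808517795, 961970075164361801637203000371233325, 4662960, 64844174),
  (7, 7, 11, 984687583078336784636964204788859081, 956035564400747525125592475675965837, 326978, 7655805),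
  (7, 7, 23, 967822160264722311587873959137755182, 984039805368484608740344396498216163, 5854654, 10938564),
  (7, 11, 11, 972543651201093037956853640278002824, 977957363034999463002768097918588105, 27251376, 27712709),
  (7, 11, 23, 966647730461347153596272147305107969, 960023929649667213489504012126656563, 10032828, 83398),
  (7, 23, 23, 959626149454487482640862733828269460, 970253556705803557003665401287032918, 27183089, 2757862),
  (11, 11, 11, 984285152338930598071983634372806311, 971569649248819426447388376720679348, 2745015, 14689450),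
  (11, 11, 23, 962701151464937171124557321525072263, 969922875177045046242274079676684713, 8310786, 31052316),
  (11, 23, 23, 971832330148503447487605776567113889, 963642197581649792952298693923846664, 5065733, 4418542),
  (23, 23, 23, 967678089337321194528422108118533803, 962209765988738302577325020645822158, 15206949, 8281605)]

theorem rows_ok : rows.all rowOK = true := by decide +kernel

theorem rows_cov : ∀ p ∈ [2, 3, 5, 7, 11, 23], ∀ q ∈ [2, 3, 5, 7, 11, 23], ∀ r ∈ [2, 3, 5, 7, 11, 23],
    p ≤ q → q ≤ r → ¬ (p = 2 ∧ q = 2) → ¬ ((p = 2 ∧ q = 3) ∨ (p = 2 ∧ q = 5 ∧ r = 5) ∨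
      (p = 2 ∧ q = 5 ∧ r = 7) ∨ (p = 3 ∧ q = 3 ∧ r ≤ 7)) →
      (p, q, r) ∈ rows.map fun t => (t.1, t.2.1, t.2.2.1) := by decide +kernel

theorem mem_primes {p : ℕ} (hp : p.Prime) (h : p ∣ 10200960) : p ∈ [2, 3, 5, 7, 11, 23] := by
  rw [show 10200960 = 2 ^ 7 * 3 ^ 2 * 5 * 7 * 11 * 23 from rfl] at h
  simp only [hp.dvd_mul] at h
  have k : ∀ {q n : ℕ}, q.Prime → p ∣ q ^ n → p = q := fun hq e =>
    (Nat.prime_dvd_prime_iff_eq hp hq).1 (hp.dvd_of_dvd_pow e)
  rcases h with ((((h | h) | h) | h) | h) | h
  · simp [k (by norm_num) h]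
  · simp [k (by norm_num) h]
  all_goals simp [(Nat.prime_dvd_prime_iff_eq hp (by norm_num)).1 h]

end CL.M23Gen
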