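import Cfsg.Agent.SPOR.FiJ3
import Cfsg.Agent.S0144

/-!
The normalizer of a 3-central subgroup of order three of the second Fischer group is a solvable
maximal subgroup of derived length ten.
-/

set_option autoImplicit false

namespace CL.FiDL

open Cfsg CL.FiE CL.FiH CL.FiJ
open CL.K hiding lall lall_iff lany lany_iff
open CL.TTU CL.TT CL.FiC CL.FiA CL.FiL CL.Fi CL.FiN CL.Net
open scoped commutatorElement

universe u

variable {G : Type u} [Group G]

theorem dvd_of_nofix [Finite G] {g : G} {r : ℕ} (hr : r.Prime) (hg : g ^ r = 1) {S : Set G}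
    (hS : ∀ x ∈ S, g * x * g⁻¹ ∈ S) (hn : ∀ x ∈ S, ¬ Commute g x) : r ∣ S.ncard := by
  classical
  haveI := Fact.mk hr
  haveI := Fintype.ofFinite S
  let f : Function.End S := fun x => ⟨_, hS x x.2⟩
  have key : ∀ (n : ℕ) (x : S), ((f ^ n) x : G) = g ^ n * x * (g ^ n)⁻¹ := fun n => by
    induction n with
    | zero => intro x; simp; rfl
    | succ n ih =>
      intro x
      rw [pow_succ, pow_succ]
      exact (ih (f x)).trans (by simp only [f]; group)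
  have := Equiv.Perm.card_fixedPoints_modEq (f := f) (p := r) (n := 1) (funext fun x =>
    Subtype.ext (by rw [pow_one, key, hg]; simp; rfl))
  rw [(Fintype.card_eq_zero_iff (α := f.fixedPoints)).2 ⟨fun x => hn _ x.1.2
    (commute_of_cj_eq (congrArg Subtype.val x.2))⟩] at this
  rw [← Nat.card_coe_set_eq, Nat.card_eq_fintype_card]
  exact Nat.modEq_zero_iff_dvd.1 this

/-- two planes -/
theorem fix_all [Finite G] {F : Set G} (hF : FS F) (c1 : F.ncard = 18)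
    (c2 : ∀ a ∈ F, (nb F a).ncard = 9)
    (c3 : ∀ a ∈ F, ∀ b ∈ nb F a, ∀ c ∈ F, (c ∈ nb F a ∨ c ∈ nb F b) ∧
      (c ∈ nb F b → c = a ∨ ¬ Commute a c)) {g : G} {r : ℕ} (hr : r.Prime) (h5 : 5 ≤ r)
    (hg : g ^ r = 1) (hS : ∀ x ∈ F, g * x * g⁻¹ ∈ F) : ∀ x ∈ F, Commute g x := by
  have n9 : ¬ r ∣ 18 := fun h => by
    have := Nat.le_of_dvd (by decide) h
    interval_cases r <;> first | omega | norm_num at hr
  have cn : ∀ {s a x : G}, (∀ x ∈ F, s * x * s⁻¹ ∈ F) → Commute s a → x ∈ nb F a →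
      s * x * s⁻¹ ∈ nb F a := fun {s a x} h1 h2 h3 => by
    refine ⟨h1 x h3.1, fun e => h3.2.1 (cj_inj (e.trans (cj_eq_of_commute h2).symm)), ?_⟩
    rw [← cj_eq_of_commute h2]; exact (commute_cj_iff _ _ _).2 h3.2.2
  have key : ∀ a ∈ F, ∀ b ∈ nb F a, Commute g a → Commute g b → ∀ c ∈ nb F b, Commute g c := by
    intro a ha b hb ga gb c hc
    by_contra n
    have ia : ∀ x ∈ F, a * x * a⁻¹ ∈ F := fun x hx => hF.cj ha x ▸ hF.conj a ha x hx
    have d1 := dvd_of_nofix hr hg (S := {x | x ∈ nb F b ∧ ¬ Commute g x}) (fun x hx =>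
      ⟨cn hS gb hx.1, fun e => hx.2 ((commute_cj_iff g _ _).1 (by simpa using e))⟩) fun x hx => hx.2
    have d2 := dvd_of_nofix Nat.prime_two (g := a) (by rw [sq, hF.sq ha])
      (S := {x | x ∈ nb F b ∧ ¬ Commute g x}) (fun x hx => ⟨cn ia hb.2.2 hx.1, fun e => hx.2
        ((commute_cj_iff a _ _).1 (by rwa [cj_eq_of_commute ga.symm]))⟩)
      fun x hx e => ((c3 a ha b hb x hx.1.1).2 hx.1).elim (fun q => hx.2 (q ▸ ga)) fun q => q e
    have d3 := Nat.le_of_dvd ((Set.ncard_pos (s := {x | x ∈ nb F b ∧ ¬ Commute g x})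
      (Set.toFinite _)).2 ⟨c, hc, n⟩)
      (((Nat.coprime_primes hr Nat.prime_two).2 (by omega)).mul_dvd_of_dvd_of_dvd d1 d2)
    have d4 := Set.ncard_le_ncard (s := {x | x ∈ nb F b ∧ ¬ Commute g x}) (t := nb F b)
      (fun x hx => hx.1) (Set.toFinite _)
    rw [c2 b hb.1] at d4
    omega
  obtain ⟨a, ha, ga⟩ : ∃ a ∈ F, Commute g a := by
    by_contra n
    exact n9 (c1 ▸ dvd_of_nofix hr hg hS fun x hx e => n ⟨x, hx, e⟩)
  obtain ⟨b, hb, gb⟩ : ∃ b ∈ nb F a, Commute g b := by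
    by_contra n
    exact n9 ((c2 a ha ▸ dvd_of_nofix hr hg (fun x => cn hS ga) fun x hx e => n ⟨x, hx, e⟩).trans
      (by decide))
  exact fun x hx => (c3 a ha b hb x hx).1.elim
    (key b hb.1 a ⟨ha, hb.2.1.symm, hb.2.2.symm⟩ gb ga x) (key a ha b hb ga gb x)

/-- no prime divisors but two and three -/
def P23 (m : ℕ) : Prop := ∀ r, r.Prime → r ∣ m → r < 5

theorem P23.mul {m n : ℕ} (h : P23 m) (h' : P23 n) : P23 (m * n) := fun r hr e =>
  ((Nat.Prime.dvd_mul hr).1 e).elim (h r hr) (h' r hr)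

theorem p2 : P23 2 := fun r _ e => (Nat.le_of_dvd (by decide) e).trans_lt (by decide)

theorem p3 : P23 3 := fun r _ e => (Nat.le_of_dvd (by decide) e).trans_lt (by decide)

theorem P23.exists {m : ℕ} (h0 : m ≠ 0) (h : P23 m) : ∃ a b, m = 2 ^ a * 3 ^ b := by
  induction m using Nat.recOnMul with
  | zero => exact absurd rfl h0
  | one => exact ⟨0, 0, rfl⟩
  | prime r hr =>
    have := h r hr dvd_rfl
    have := hr.two_le
    interval_cases r
    exacts [⟨1, 0, rfl⟩, ⟨0, 1, rfl⟩, absurd hr (by decide)]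
  | mul a b ha hb =>
    obtain ⟨i, j, rfl⟩ := ha (left_ne_zero_of_mul h0) fun r hr e => h r hr (e.mul_right _)
    obtain ⟨k, l, rfl⟩ := hb (right_ne_zero_of_mul h0) fun r hr e => h r hr (e.mul_left _)
    exact ⟨i + k, j + l, by ring⟩

section L0

open CL.TTU.U6 CL.FiE.L0 CL.FiJ.L0

/-- neighbours among the fixed points -/
noncomputable def nbB (a u : ℕ) : Bool := an (lmem u F0) (an (no (Nat.beq u a)) (com op a u))

theorem chk_two : lall (fun a => an (Nat.beq (cntB (nbB a) 693) 9) (lall (fun b => ou (no (nbB a b))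
    (lall (fun c => an (ou (nbB a c) (nbB b c)) (ou (no (nbB b c)) (ou (Nat.beq c a)
      (no (com op a c))))) F0)) F0)) F0 = true := by decide +kernel

theorem p23_0 (G : Type u) [Group G] (D : Set G) (h : Fi 0 D) (x : G) (hx : O3 x)
    (e : (fx D x).ncard = 18) : P23 (Nat.card (NZ x)) := by
  haveI := h.finite
  have key : ∀ f, Real 693 op D f → P23 (Nat.card (NZ (wd f [2,64,2,64,0,32]))) := fun f R => by
    have A := ac0 h R
    have r := rep h R _ (.tail _ (.tail _ (.head _)))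
    rw [ez]
    set z := wd (g0 f) [696,696,695]
    have m : ∀ u < 693, f u ∈ fx D z ↔ u ∈ F0 := fun u hu => by
      rw [A.mem_fx R (by decide) hu, ← lmem_iff]; exact eqB_iff.1 (allLt_iff.1 FiJ.L0.chk_F u hu)
    have mn : ∀ a < 693, ∀ u < 693, f u ∈ nb (fx D z) (f a) ↔ nbB a u = true := fun a ha u hu => by
      rw [nbB, an_iff, an_iff, lmem_iff, no_iff, beq_iff, ← m u hu, ← R.commute_iff ha hu,
        ← R.eq_iff hu ha]
      rfl
    have c := chk_two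
    simp only [lall_iff, an_iff, beq_iff, ou_iff, no_iff] at c
    intro q hq hd
    by_contra n
    haveI := Fact.mk hq
    obtain ⟨g, hg⟩ := exists_prime_orderOf_dvd_card' q hd
    have g1 : (g : G) ^ q = 1 := by
      rw [← hg, ← Subgroup.coe_pow, pow_orderOf_eq_one]; rfl
    have := (FiJ.L0.bp G D h z r.1 r.2.1).2.1 g (fix_all (fs_fx h.fs z) r.2.1 (fun a ha => by
      obtain ⟨u, hu, rfl⟩ := R.surj ha.1
      rw [R.ncard_eq (fun y hy => hy.1.1) (mn u hu), (c u ((m u hu).1 ha)).1]) (fun a ha b hb d hd => by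
      obtain ⟨u, hu, rfl⟩ := R.surj ha.1
      obtain ⟨v, hv, rfl⟩ := R.surj hb.1.1
      obtain ⟨w, hw, rfl⟩ := R.surj hd.1
      have := ((c u ((m u hu).1 ha)).2 v ((m v hv).1 hb.1)).resolve_left
        (fun q => q ((mn u hu v hv).1 hb)) w ((m w hw).1 hd)
      rw [mn u hu w hw, mn v hv w hw, R.eq_iff hw hu, R.commute_iff hu hw]
      exact ⟨this.1, fun q => this.2.resolve_left fun q' => q' q⟩) hq (not_lt.1 n) g1
      (cj_mem_fx h.cj g.2))
    have d := orderOf_dvd_of_mem_zpowers this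
    rw [r.1.orderOf, Subgroup.orderOf_coe, hg] at d
    exact n (p3 q hq d)
  obtain ⟨f, R⟩ := (h.is : Is21 D)
  have r := rep h R _ (.tail _ (.tail _ (.head _)))
  obtain ⟨f, R, q | q⟩ := exists_rep h R (w := [2,64,2,64,0,32])
    (ez f ▸ (cl0 h).cj x _ hx r.1 (e.trans r.2.1.symm))
  · exact q ▸ key f R
  · have := key f R
    rwa [q, NZ, Subgroup.zpowers_inv] at this

end L0

theorem p23_1 (G : Type u) [Group G] (D : Set G) (h : Fi 1 D) (x : G) (hx : O3 x)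
    (e : (fx D x).ncard = 27) : P23 (Nat.card (NZ x)) := by
  obtain ⟨m, h1, h2⟩ := nz_step h cl0' (by decide) (ex1 h) (t := (18, 2)) (by decide) (by decide)
    p23_0 hx e
  exact h2 ▸ (p3.mul (p3.mul p3)).mul (p2.mul h1)

theorem solv {D : Set G} (h : Fi 2 D) {x : G} (hx : O3 x) (e : (fx D x).ncard = 324) :
    Group.IsSolvable (NZ x) := by
  haveI := h.finite
  obtain ⟨m, h1, h2⟩ := nz_step h cl1 (by decide) (ex2 h) (t := (27, 3)) (by decide) (by decide)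
    p23_1 hx e
  obtain ⟨a, b, q⟩ := P23.exists Nat.card_pos.ne' (h2 ▸
    ((p2.mul p2).mul ((p3.mul p3).mul (p3.mul p3))).mul (p2.mul h1) : P23 (Nat.card (NZ x)))
  exact Cfsg.Agent.S0144.result 2 3 a b Nat.prime_two Nat.prime_three q

theorem ne_of_solv {H : Type*} [Group H] [Group.IsSolvable H] {n : ℕ} (h : derivedSeries H n ≠ ⊥) :
    derivedSeries H (n + 1) ≠ derivedSeries H n := fun e =>
  (Group.IsSolvable.commutator_lt_of_ne_bot h).ne e

open CL.Fi.D23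

/-- the element of order three -/
noncomputable def z : List ℕ := nth FiJ.L2.W 0
/-- a base -/
def B : List ℕ := (List.range 14).map pt
/-- generators -/
def ws : List (List ℕ) := [[4,5,6,5,2],[7,6,5,3,1,7,4,1,5,6,5,3,1,2,0,1,5,1,2,3,1,11,8],[8,7,0,10,13,5,7,10,6,5,10,6,7,5,4,1,7,2,3,4,6,2,0,1,5,2,3,11,8],[4,0,7,5,4,2,0,7,4,1,2,0,1,5,0,1]]
/-- conjugating elements -/
def hs : List (List ℕ) := [[6,5,0,1,2,3,4,6,0,1,5,2,3,1,2,0,1,5,6,1,5,3,0],[13,7,9,1,13,4,3,7,9,3,10,2,0,1,7,4,0,7,6,5,0,1,2,3,4,2,0,1,5,6,2,3,1,2,0,1,5,2,0,1,0],[11,7,0,10,13,4,1,7,5,10,7,5,4,7,4,3,2,0,7,3,4,6,5,3,1,2,0,1,5,6,5,2,0,1,8],[10,8,0,9,1,13,6,7,0,10,9,5,7,6,1,7,3,2,0,7,3,4,1,2,0,1,5,6,1,5,0,1,2,3,0,1,8],[7,9,13,1,10,4,12,8,5,10,5,4,7,9,5,7,5,3,0,7,4,1,5,6,0,1,5,2,3,1,2,0,1,5,6,5,1,2],[10,5,1,10,4,12,0,7,4,1,2,10,7,5,0,7,3,1,7,4,3,2,1,5,0,1,2,3,4,3,1,2,0,1,5,6,1,2,3,2,0],[3,10,0,1,13,1,2,0,7,0,10,6,3,2,7,3,0,1,7,4,3,1,2,0,1,5,6,1,2,0],[1,13,0,9,13,10,3,7,1,2,10,3,1,2,7,5,4,1,7,6,5,0,1,2,3,4,5,3,1,2,0,1,5,6,1,2,1,0,11],[4,12,9,5,13,7,5,10,3,7,9,0,7,3,1,7,5,3,0,7,4,2,1,5,6,2,3,1,2,0,1,5,1,2,3,2,0,1,0]]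
/-- members of the derived series -/
def xs : List (List ℕ) := [[4,5,6,5,2],[1,2,3,4,0,1,5,2,3,1,2,0,1,5,6,2,0,1,5,2,3,11],[12,2,7,9,1,13,4,7,10,8,9,2,0,7,1,5,3,4,2,7,3,4,5,1,2,0,1,5,6,5,2,3,1,2,0,1,5,3,0,1,2,1,0],[10,5,3,4,13,4,12,10,9,6,0,10,3,1,7,5,3,2,7,5,6,2,1,5,0,1,2,3,4,3,2,0,1,5,6,5,1,2,0,1,5,2,3,1,2,1,0,11,8],[8,9,5,3,1,7,12,7,10,5,3,7,9,3,1,7,4,2,7,3,1,0,7,2,3,4,5,6,1,5,2,3,1,2,0,1,5,3,1],[13,11,8,13,10,4,1,10,5,7,4,3,2,7,6,4,3,2,1,5,0,1,2,3,4,1,2,0,1,5,6,3,2,1,5,2,3,1,0,11],[7,6,2,0,10,5,1,2,7,3,0,7,4,3,2,1,5,0,1,2,3,4,6,5,1,2,0,1,5,6,5,2,3,1,2,0,1,5,3,2,0,11,8],[6,7,4,0,7,1,5,7,3,2,0,1,5,6,5,1,2,0,1,5,1,2,3,1,2,0,1,11,8],[13,12,7,5,10,7,12,10,8,5,4,3,10,5,4,3,2,1,7,4,0,7,6,2,1,5,0,1,2,3,4,0,1,5,6,0,1,5,2,3,1,2,0,1,5,3,1,2,0,11,8],[3,7,0,1,7,6,3,2,7,0,1,5,6,3,2,1,5,0,1,2,3,4,2,1,5,6,1,2,0,1,5,3,1,2,1,0,11]]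

/-- the word normalizes the subgroup -/
noncomputable def nzB (w : List ℕ) : Bool :=
  ou (sameOn 14 T B (w ++ z) (z ++ w)) (sameOn 14 T B (z ++ w ++ z) w)

theorem chk_n : lall nzB (nth xs 0 :: ws ++ hs) = true := by decide +kernel

theorem chk_c : allLt (fun i => sameOn 14 T B (nth xs (i + 1) ++ nth hs i ++ nth xs i ++
    (nth hs i).reverse ++ nth xs i) (nth xs i ++ nth hs i ++ nth xs i ++ (nth hs i).reverse)) 9 = true := by
  decide +kernel

theorem chk_z : sameOn 14 T B (nth xs 9) z = true := by decide +kernel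

theorem chk_b : sub (full 31671) (bfs nets ws 6 (lmask [0, 73, 144])) = true ∧
    sub (full 31671) (bfs nets ([2] :: ws) 6 (lmask [0])) = true ∧
    sub (full 31671) (bfs nets ([0] :: ws) 5 (lmask [0])) = true := by decide +kernel

section

variable {D : Set G} (h : Fi 2 D) {p : ℕ → G} (R : Real 31671 op D p)
include h R

theorem mem_NZ {w : List ℕ} (hw : w ∈ nth xs 0 :: ws ++ hs) :
    (∀ a ∈ w, a < 14) ∧ lw p pt w ∈ NZ (lw p pt z) := by
  haveI := h.finite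
  have A := acL mod R h
  rcases ou_iff.1 (lall_iff.1 chk_n w hw) with c | c
  · have e := A.wd_eq c
    rw [wd_append, wd_append, wd_letters, wd_letters] at e
    exact ⟨fun a ha => (lt_of_sameOn c).1 a (by simp [ha]), mem_NZ_of_commute e⟩
  · have e := A.wd_eq c
    rw [wd_append, wd_append, wd_letters, wd_letters] at e
    refine ⟨(lt_of_sameOn c).2, mem_normalizer_zpowers.2 ?_⟩
    rw [show lw p pt w * lw p pt z * (lw p pt w)⁻¹ = (lw p pt z)⁻¹ by
      rw [eq_inv_mul_iff_mul_eq.2 ((mul_assoc _ _ _).symm.trans e)]; group]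
    exact inv_mem (Subgroup.mem_zpowers _)

theorem mem_der : ∀ i ≤ 9, ∃ x ∈ derivedSeries (NZ (lw p pt z)) i, x = lw p pt (nth xs i)
  | 0, _ => ⟨⟨_, (mem_NZ h R (.head _)).2⟩, Subgroup.mem_top _, rfl⟩
  | i + 1, hi => by
    haveI := h.finite
    obtain ⟨x, hx, e⟩ := mem_der i (by omega)
    obtain ⟨l, m⟩ := mem_NZ h R (w := nth hs i) (by simp [nth_mem (W := hs) (i := i) hi])
    have c := (acL mod R h).wd_eq (allLt_iff.1 chk_c i hi)
    simp only [wd_append, wd_letters, mod.lw_reverse R l, ← e] at c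
    refine ⟨_, Subgroup.commutator_mem_commutator hx
      ((derivedSeries_normal _ i).conj_mem _ hx ⟨_, m⟩), ?_⟩
    simp only [commutatorElement_def, Subgroup.coe_mul, Subgroup.coe_inv]
    rw [show ∀ y : G, x * (y * x * y⁻¹) = x * y * x * y⁻¹ from fun _ => by group, ← c]
    group

theorem coatom : IsCoatom (NZ (lw p pt z)) := by
  haveI := h.finite
  have r := FiJ.L2.rep h R
  have b := (FiJ.L2.bp G D h _ r.1 r.2.2).2.1
  have f1 : fx D (lw p pt z) ⊆ NZ (lw p pt z) := fun y hy => mem_NZ_of_commute hy.2.symm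
  have hw : ∀ w ∈ ws, _ := fun w hw => mem_NZ h R (w := w) (by simp [hw])
  have top : ∀ K : Subgroup G, D ⊆ K → K = ⊤ := fun K hK =>
    eq_top_iff.2 (h.gen ▸ (Subgroup.closure_le K).2 hK)
  have key : ∀ K : Subgroup G, NZ (lw p pt z) ≤ K → K ≠ ⊤ → ∀ y ∈ D, y ∈ K → y ∈ fx D (lw p pt z) := by
    intro K hK n y hy hyK
    have t : ∀ a < 14, ∀ d, sub (full 31671) (bfs nets ([a] :: ws) d (lmask [0])) = true →
        p (pt a) ∉ K := fun a ha d c m => n (top K ((ms_full R).symm.subset.trans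
      ((ms_mono R c).trans (mod.ms_bfs_subset R (fun w q => by
        rcases List.mem_cons.1 q with rfl | q
        exacts [by simpa using ha, (hw w q).1]) (fun w q y _ e => by
        have : lw p pt w ∈ K := by
          rcases List.mem_cons.1 q with rfl | q
          exacts [by simpa [lw, wd] using m, hK (hw w q).2]
        simpa [mul_assoc] using K.mul_mem (K.mul_mem (K.inv_mem this) e) this) d fun y hy => by
        obtain ⟨u, hu, -, rfl⟩ := exists_of_mem_lmask R hy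
        rw [List.mem_singleton.1 hu]; exact hK (f1 r.2.1)))))
    refine mod.ms_bfs_subset R
      (S := {y | y ∈ K → y ∈ fx D (lw p pt z)}) (fun w q => (hw w q).1) (fun w q y _ e m => ?_) 6
      (fun y hy m => ?_) (ms_mono R chk_b.1 ((ms_full R).symm.subset hy)) hyK
    · have := cj_mem_fx h.cj (inv_mem (hw w q).2) _
        (e (K.mul_mem (K.mul_mem (hK (hw w q).2) m) (K.inv_mem (hK (hw w q).2))))
      rwa [inv_cj_cj] at this
    · obtain ⟨u, hu, -, rfl⟩ := exists_of_mem_lmask R hy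
      simp only [List.mem_cons, List.not_mem_nil, or_false] at hu
      rcases hu with rfl | rfl | rfl
      exacts [r.2.1, absurd m (t 2 (by decide) 6 chk_b.2.1), absurd m (t 0 (by decide) 5 chk_b.2.2)]
  refine ⟨fun e => ?_, fun K hK => by_contra fun n => hK.not_ge fun g hg => ?_⟩
  · have := Set.ncard_le_ncard (s := D) (t := fx D (lw p pt z)) (fun y hy => by
      obtain ⟨u, hu, rfl⟩ := R.surj hy
      rw [mod.pa_spec R hu]
      exact cj_mem_fx h.cj (e ▸ Subgroup.mem_top _) _ r.2.1) (Set.toFinite _)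
    rw [R.ncard, show (fx D (lw p pt z)).ncard = 324 from r.2.2] at this
    omega
  · refine mem_normalizer_zpowers.2 (b _ fun c hc => ?_)
    have := key K hK.le n _ (h.cj g⁻¹ c hc.1) (K.mul_mem (K.mul_mem (K.inv_mem hg) (hK.le (f1 hc)))
      (K.inv_mem (K.inv_mem hg)))
    exact (commute_cj_left_iff _ _ _).2 this.2

theorem der : derivedSeries (NZ (lw p pt z)) 10 ≠ derivedSeries (NZ (lw p pt z)) 9 := by
  have r := FiJ.L2.rep h R
  haveI : Group.IsSolvable (NZ (lw p pt z)) := solv h r.1 r.2.2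
  refine ne_of_solv fun e => r.1.2 ?_
  obtain ⟨x, hx, q⟩ := mem_der h R 9 le_rfl
  have c := (acL mod R h).wd_eq chk_z
  rw [wd_letters, wd_letters, ← q, show x = 1 from Subgroup.mem_bot.1 (e ▸ hx)] at c
  exact c.symm

end

end CL.FiDL
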