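import Cfsg.Agent.SPOR.OrdNse
import Cfsg.Agent.SPOR.GolayLoc

/-! Counting elements of a given order modulo a prime. -/

set_option autoImplicit false
open Cfsg Subgroup

namespace CL.OJ.M24N

/-- number of elements of order `k`. -/
noncomputable def nk (X : Type*) [Group X] (k : ℕ) : ℕ := Nat.card {g : X // orderOf g = k}

theorem fix_mod {α : Type*} [Finite α] {p : ℕ} [Fact p.Prime] (f : Function.End α)
    (hf : f ^ p = 1) : Nat.card α % p = Nat.card f.fixedPoints % p := by
  classical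
  have := Fintype.ofFinite α
  rw [Nat.card_eq_fintype_card, Nat.card_eq_fintype_card]
  exact Equiv.Perm.card_fixedPoints_modEq (n := 1) (by rwa [pow_one])

variable {X : Type*} [Group X] [Finite X] {p : ℕ} [hp : Fact p.Prime]

theorem nk_one : nk X 1 = 1 := by simp [nk]

theorem nk_cent {z : X} (hz : orderOf z = p) (k : ℕ) :
    nk X k % p = nk (centralizer ({z} : Set X)) k % p := by
  let f : Function.End {g : X // orderOf g = k} := fun g => ⟨z * g * z⁻¹, by
    simpa using (MulAut.conj z).orderOf_eq g.1 |>.trans g.2⟩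
  have h : ∀ n g, ((f ^ n) g).1 = z ^ n * g * (z ^ n)⁻¹ := fun n => by
    induction n with
    | zero => intro g; simp [Function.End.one_def]
    | succ n ih =>
      intro g
      rw [pow_succ', pow_succ']
      exact (congrArg (fun x => z * x * z⁻¹) (ih g)).trans (by group)
  rw [nk, fix_mod f (funext fun g => Subtype.ext (by
    rw [h, ← hz, pow_orderOf_eq_one]; simp [Function.End.one_def]))]
  refine congrArg (· % p) (Nat.card_congr ⟨fun g => ⟨⟨g.1.1, mem_centralizer_singleton_iff.2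
    (mul_inv_eq_iff_eq_mul.1 (congrArg Subtype.val g.2)).symm⟩, (orderOf_coe _).symm.trans g.1.2⟩,
    fun g => ⟨⟨g.1.1, (orderOf_coe _).trans g.2⟩, Subtype.ext (mul_inv_eq_iff_eq_mul.2
      (mem_centralizer_singleton_iff.1 g.1.2).symm)⟩, fun _ => rfl, fun _ => rfl⟩)

theorem nk_add_central {z : X} (hz : orderOf z = p) (hc : ∀ g, Commute z g) {k : ℕ}
    (hk : ¬ p ∣ k) : (nk X k + nk X (p * k)) % p = 0 := by
  have h1 : ∀ g : X, orderOf (g ^ p) = k ↔ orderOf g = k ∨ orderOf g = p * k := fun g => by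
    rw [orderOf_pow]
    by_cases h : p ∣ orderOf g
    · obtain ⟨m, hm⟩ := h
      rw [hm, Nat.gcd_mul_right_left, Nat.mul_div_cancel_left _ hp.out.pos]
      exact ⟨fun h => .inr (h ▸ rfl), fun h => h.elim (fun h => absurd (h ▸ dvd_mul_right _ _) hk)
        (Nat.eq_of_mul_eq_mul_left hp.out.pos)⟩
    · rw [((hp.out.coprime_iff_not_dvd.2 h).symm : Nat.gcd _ _ = 1), Nat.div_one]
      exact ⟨.inl, fun h' => h'.resolve_right fun h' => h (h' ▸ dvd_mul_right _ _)⟩
  have h0 : z ^ p = 1 := hz ▸ pow_orderOf_eq_one z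
  let f : Function.End {g : X // orderOf (g ^ p) = k} := fun g => ⟨z * g, by
    rw [(hc _).mul_pow, h0, one_mul, g.2]⟩
  have h : ∀ n g, ((f ^ n) g).1 = z ^ n * g := fun n => by
    induction n with
    | zero => intro g; simp [Function.End.one_def]
    | succ n ih =>
      intro g
      rw [pow_succ', pow_succ']
      exact (congrArg (fun x => z * x) (ih g)).trans (by group)
  have h2 := fix_mod (p := p) f (funext fun g => Subtype.ext (by
    rw [h, h0]; simp [Function.End.one_def]))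
  have : IsEmpty f.fixedPoints := ⟨fun g => hp.out.one_lt.ne' (by
    rw [← hz, orderOf_eq_one_iff]; exact mul_eq_right.1 (congrArg Subtype.val g.2))⟩
  rw [Nat.card_of_isEmpty (α := f.fixedPoints), Nat.zero_mod, Nat.card_congr (Equiv.subtypeEquivRight h1)] at h2
  rw [← h2, nk, nk, ← Nat.card_sum]
  refine congrArg (· % p) (Nat.card_congr (subtypeOrEquiv _ _ ?_).symm)
  refine Pi.disjoint_iff.2 fun g => Prop.disjoint_iff.2 fun ⟨a, b⟩ => hk ?_
  exact a ▸ b ▸ dvd_mul_right _ _

/-- `z` as an element of its centraliser. -/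
def zc (z : X) : centralizer ({z} : Set X) := ⟨z, mem_centralizer_singleton_iff.2 rfl⟩

omit [Finite X] in
theorem zc_comm (z : X) (g : centralizer ({z} : Set X)) : Commute (zc z) g :=
  Subtype.ext (mem_centralizer_singleton_iff.1 g.2).symm

omit [Finite X] in
theorem zc_ord (z : X) : orderOf (zc z) = orderOf z := (orderOf_coe _).symm

theorem nk_add (h : p ∣ Nat.card X) {k : ℕ} (hk : ¬ p ∣ k) :
    (nk X k + nk X (p * k)) % p = 0 := by
  obtain ⟨z, hz⟩ := exists_prime_orderOf_dvd_card' p h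
  rw [Nat.add_mod, nk_cent hz, nk_cent hz, ← Nat.add_mod]
  exact nk_add_central ((zc_ord z).trans hz) (zc_comm z) hk

omit hp in
theorem nk_even {k : ℕ} (h1 : k ≠ 1) (h2 : k ≠ 2) : nk X k % 2 = 0 := by
  let f : Function.End {g : X // orderOf g = k} := fun g => ⟨g.1⁻¹, (orderOf_inv _).trans g.2⟩
  have : IsEmpty f.fixedPoints := ⟨fun g => by
    have h : g.1.1 ^ 2 = 1 := by
      rw [sq]; exact mul_eq_one_iff_inv_eq.2 (congrArg Subtype.val g.2)
    have := (Nat.dvd_prime Nat.prime_two).1 (g.1.2 ▸ orderOf_dvd_of_pow_eq_one h)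
    omega⟩
  rw [nk, fix_mod f (funext fun g => Subtype.ext (inv_inv _)), Nat.card_of_isEmpty]

omit hp in
theorem nk_zero {k : ℕ} (h : ∀ g : X, orderOf g ≠ k) : nk X k = 0 :=
  have : IsEmpty {g : X // orderOf g = k} := ⟨fun g => h _ g.2⟩
  Nat.card_of_isEmpty

omit hp in
theorem nk_zero' {k : ℕ} (h : ¬ k ∣ Nat.card X) : nk X k = 0 :=
  nk_zero fun g hg => h (hg ▸ orderOf_dvd_natCard g)

theorem sy {z : X} {q m : ℕ} [hq : Fact q.Prime] (hz : orderOf z = p) (hc : ∀ g, Commute z g)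
    (hpq : p ≠ q) (hX : Nat.card X = p * q * m) (hm : ¬ q ∣ m) :
    ∃ n, n % q = 1 ∧ n ∣ m ∧ nk X q = n * (q - 1) ∧
      ∀ t : X, orderOf t = q → n * Nat.card (normalizer (zpowers t : Set X)) = Nat.card X := by
  obtain ⟨Q⟩ : Nonempty (Sylow q X) := inferInstance
  have hQ : Nat.card Q = q := (CL.Small.card_sylow_eq_of_factor Q (a := 1) (m := p * m)
    (by rw [hX]; ring) (fun h => (hq.out.dvd_mul.1 h).elim (fun h =>
      hpq ((Nat.prime_dvd_prime_iff_eq hq.out hp.out).1 h).symm) hm)).trans (pow_one q)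
  refine ⟨_, CL.Small.card_sylow_mod, ?_, CL.Small.card_orderOf_eq_prime Q hQ,
    fun t => CL.Ord.card_normalizer_zpowers Q hQ⟩
  have h1 := CL.Small.card_sylow_mul_card_normalizer Q
  obtain ⟨r, hr⟩ : p * q ∣ Nat.card (normalizer ((Q : Subgroup X) : Set X)) :=
    ((Nat.coprime_primes hp.out hq.out).2 hpq).mul_dvd_of_dvd_of_dvd
      (hz.symm.dvd.trans (CL.Small.orderOf_dvd_card_of_mem
        (CL.Small.centralizer_le_normalizer' _ fun g _ => (hc g).symm)))
      (hQ.symm.dvd.trans (card_dvd_of_le le_normalizer))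
  exact ⟨r, Nat.eq_of_mul_eq_mul_left (Nat.mul_pos hp.out.pos hq.out.pos) (by
    rw [← hX, ← h1, hr]; ring)⟩

theorem loc {z : X} (hz : orderOf z = p) {m : ℕ} (hX : Nat.card X = p * m) (hm : ¬ p ∣ m) :
    ∃ (P : Sylow p X) (n c e : ℕ), Nat.card P = p ∧ n % p = 1 ∧ e ∣ p - 1 ∧
      Nat.card (centralizer ({z} : Set X)) = p * c ∧
      Nat.card (normalizer ((P : Subgroup X) : Set X)) = p * (c * e) ∧ m = n * (c * e) ∧
      nk X p = n * (p - 1) ∧ (IsSimpleGroup X → m ≠ 1 → e ≠ 1) := by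
  obtain ⟨P⟩ : Nonempty (Sylow p X) := inferInstance
  have hP : Nat.card P = p :=
    (CL.Small.card_sylow_eq_of_factor P (a := 1) (by rwa [pow_one]) hm).trans (pow_one p)
  obtain ⟨n, c, e, h1, h2, h3, h4, h5⟩ := CL.Ord.prime_data P hP
  have h6 := CL.Small.card_sylow_mul_card_normalizer P
  refine ⟨P, n, c, e, hP, h1, h2, (CL.D1.card_centralizer_eq P hP hz).trans h3,
    h4.trans (mul_assoc ..), Nat.eq_of_mul_eq_mul_left hp.out.pos (by rw [← hX, h5]; ring), ?_,
    fun _ h7 h8 => ?_⟩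
  · rw [nk, CL.Small.card_orderOf_eq_prime P hP,
      Nat.eq_of_mul_eq_mul_right Nat.card_pos (h6.trans (h5.trans (by rw [h4])))]
  · obtain ⟨K, hK, h9⟩ := CL.Ord.exists_compl P (eq_of_le_of_card_ge
      (CL.Small.centralizer_le_normalizer' _) (by rw [h3, h4, h8, mul_one])).ge
    rw [hP] at h9
    rcases hK.eq_bot_or_eq_top with rfl | rfl
    · rw [card_bot, one_mul, hX] at h9
      exact h7 (Nat.eq_of_mul_eq_mul_left hp.out.pos (by rw [← h9, mul_one]))
    · rw [card_top] at h9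
      exact hp.out.one_lt.ne' (Nat.eq_of_mul_eq_mul_left Nat.card_pos (h9.trans (mul_one _).symm))

end CL.OJ.M24N
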