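import Cfsg.Agent.SPOR.Ord24Na

/-! Numbers of elements of each order in `M24`, modulo 5, 7, 11 and 23. -/

set_option autoImplicit false
open Cfsg Subgroup

namespace CL.OJ.M24N

open CL.K CL.Orb CL.Enc CL.Golay

/-- residues of the numbers of elements of order `k`. -/
def tb (p a b k : ℕ) : ℕ := if k = 1 then 1 else if k = p then p - 1 else if k = 2 then a
  else if k = 3 then b else if k = p * 2 then (p - a) % p else if k = p * 3 then (p - b) % p else 0

theorem tab {X : Type*} [Group X] [Finite X] {p a b : ℕ} [hp : Fact p.Prime] {z : X}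
    (hz : orderOf z = p) (h3 : 3 < p)
    (h : ∀ g : centralizer ({z} : Set X), g ^ (p * 2) = 1 ∨ g ^ (p * 3) = 1)
    (ha : nk (centralizer ({z} : Set X)) 2 % p = a) (hb : nk (centralizer ({z} : Set X)) 3 % p = b)
    (k : ℕ) : nk X k % p = tb p a b k := by
  have key : ∀ j c, j < p → 0 < j → nk (centralizer ({z} : Set X)) j % p = c →
      nk (centralizer ({z} : Set X)) (p * j) % p = (p - c) % p := fun j c h1 h2 h5 => by
    have := nk_add_central ((zc_ord z).trans hz) (zc_comm z) (Nat.not_dvd_of_pos_of_lt h2 h1)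
    rw [← Nat.mod_add_mod, h5] at this
    refine (Nat.ModEq.add_left_cancel' c ?_ : Nat.ModEq p _ _)
    rw [Nat.add_sub_cancel' (h5.ge.trans (Nat.mod_lt _ hp.out.pos).le), Nat.ModEq, this, Nat.mod_self]
  rw [nk_cent hz, tb]
  split_ifs with h1 h2 h4 h5 h6 h7
  · rw [h1, nk_one, Nat.mod_eq_of_lt hp.out.one_lt]
  · have := key 1 1 (by omega) (by omega) (by rw [nk_one, Nat.mod_eq_of_lt hp.out.one_lt])
    rw [mul_one, Nat.mod_eq_of_lt (a := p - 1) (by omega)] at this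
    rw [h2, this]
  · rw [h4, ha]
  · rw [h5, hb]
  · exact h6 ▸ key 2 a (by omega) (by omega) ha
  · exact h7 ▸ key 3 b (by omega) (by omega) hb
  · rw [nk_zero fun g hg => ?_, Nat.zero_mod]
    have h8 : ∀ q, q.Prime → k ∣ p * q → k = 1 ∨ k = q ∨ k = p ∨ k = p * q := fun q hq hd => by
      obtain ⟨u, v, hu, hv, rfl⟩ := Nat.dvd_mul.1 hd
      rcases (Nat.dvd_prime hp.out).1 hu with rfl | rfl <;>
        rcases (Nat.dvd_prime hq).1 hv with rfl | rfl <;> simp
    rcases h g with h | h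
    · have := h8 2 Nat.prime_two (hg ▸ orderOf_dvd_of_pow_eq_one h); omega
    · have := h8 3 Nat.prime_three (hg ▸ orderOf_dvd_of_pow_eq_one h); omega

/-- check for `g * t = t * g` and `g` of prime order `q`. -/
noncomputable def cq (T q P : ℕ) : Bool := Nat.beq (comp24 P T) (comp24 T P) &&
  (Nat.beq (pow24 P q) one24 && !Nat.beq (pow24 P 1) one24)

theorem nk_M {T : ℕ} (hT : I M24 T) (q : ℕ) [hq : Fact (q + 1).Prime] :
    nk (centralizer ({⟨pm T, hT.permOf_mem⟩} : Set M24)) (q + 1) =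
      sumP24 (PC.cConj 5 31 T T) (fun P => when (cq T (q + 1) P) 1) lv0 [] one24 := by
  rw [← lvl0.count0 (p := fun g => g * pm T = pm T * g ∧ orderOf g = q + 1)
    ((Snd.cConj hT.rep hT.rep).mono fun _ h => h.1) fun g P hP => when_spec ?_,
    ← Nat.card_coe_set_eq]
  · exact Nat.card_congr ⟨fun g => ⟨g.1.1.1, g.1.1.2, congrArg Subtype.val
      (mem_centralizer_singleton_iff.1 g.1.2), by rw [orderOf_coe, orderOf_coe, g.2]⟩,
      fun g => ⟨⟨⟨g.1, g.2.1⟩, mem_centralizer_singleton_iff.2 (Subtype.ext g.2.2.1)⟩, by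
        rw [← orderOf_coe, ← orderOf_coe]; exact g.2.2.2⟩, fun _ => rfl, fun _ => rfl⟩
  · rw [cq, Bool.and_eq_true, Nat.beq_eq, hP.comp24_eq_iff hT.rep hT.rep hP]
    refine and_congr_right fun _ => ⟨hP.orderOf_eq_prime, fun h => ?_⟩
    rw [Bool.and_eq_true, Nat.beq_eq, hP.pow_succ_eq_one_iff, Bool.not_eq_true', ← h,
      and_iff_right (pow_orderOf_eq_one g), ← Bool.not_eq_true, Nat.beq_eq,
      hP.pow_succ_eq_one_iff 0, zero_add, pow_one, ← orderOf_eq_one_iff, h]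
    exact hq.out.one_lt.ne'

/-- The whole check for an element of order `p`. -/
noncomputable def chk (T p c a b : ℕ) : Bool :=
  (Nat.beq (pow24 T p) one24 && !Nat.beq (pow24 T 1) one24) &&
  (Nat.beq (sumP24 (PC.cConj 5 31 T T) (qConj T T) lv0 [] one24) c &&
  (Nat.beq (sumP24 (PC.cConj 5 31 T T) (fun P => when (cq T 2 P) 1) lv0 [] one24 % p) a &&
  (Nat.beq (sumP24 (PC.cConj 5 31 T T) (fun P => when (cq T 3 P) 1) lv0 [] one24 % p) b &&
  allP24 (PC.cConj 5 31 T T) (fun P => !Nat.beq (comp24 P T) (comp24 T P) ||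
    (Nat.beq (pow24 P (p * 2 - 1 + 1)) one24 || Nat.beq (pow24 P (p * 3 - 1 + 1)) one24))
      lv0 [] one24)))

theorem tab_M {T p c a b : ℕ} [hp : Fact p.Prime] (hT : okM T = true) (h3 : 3 < p)
    (h : chk T p c a b = true) :
    (∃ z : M24, orderOf z = p ∧ Nat.card (centralizer ({z} : Set M24)) = c) ∧
      ∀ k, nk M24 k % p = tb p a b k := by
  have hT := I.of_okM hT
  have : Fact (Nat.Prime (1 + 1)) := ⟨Nat.prime_two⟩
  have : Fact (Nat.Prime (2 + 1)) := ⟨Nat.prime_three⟩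
  rw [chk, Bool.and_eq_true, Bool.and_eq_true (Nat.beq (sumP24 ..) c), Bool.and_eq_true (Nat.beq _ a),
    Bool.and_eq_true (Nat.beq _ b), Nat.beq_eq, Nat.beq_eq, Nat.beq_eq] at h
  obtain ⟨h1, h2, h4, h5, h6⟩ := h
  have hz : orderOf (⟨pm T, hT.permOf_mem⟩ : M24) = p := by
    rw [← orderOf_coe]; exact R.orderOf_eq_prime hT.rep h1
  refine ⟨⟨_, hz, ?_⟩, tab hz h3 (fun g => ?_) ((nk_M hT 1).symm ▸ h4) ((nk_M hT 2).symm ▸ h5)⟩
  · rw [← h2, ← ncard_cent lvl0 hT.rep, ← Nat.card_coe_set_eq]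
    exact Nat.card_congr ⟨fun g => ⟨g.1.1, g.1.2, congrArg Subtype.val
      (mem_centralizer_singleton_iff.1 g.2)⟩, fun g => ⟨⟨g.1, g.2.1⟩,
        mem_centralizer_singleton_iff.2 (Subtype.ext g.2.2)⟩, fun _ => rfl, fun _ => rfl⟩
  · have h7 := congrArg Subtype.val (mem_centralizer_singleton_iff.1 g.2)
    obtain ⟨P, hP, h8⟩ := lvl0.all0 (Snd.cConj hT.rep hT.rep) h6 _ g.1.2 h7
    rw [Bool.or_eq_true, Bool.or_eq_true, Bool.not_eq_true', ← Bool.not_eq_true, Nat.beq_eq,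
      Nat.beq_eq, Nat.beq_eq, hP.comp24_eq_iff hT.rep hT.rep hP, hP.pow_succ_eq_one_iff,
      hP.pow_succ_eq_one_iff, Nat.sub_add_cancel (by omega), Nat.sub_add_cancel (by omega)] at h8
    exact (h8.resolve_left (not_not.2 h7)).imp (fun h => Subtype.ext (Subtype.ext h))
      fun h => Subtype.ext (Subtype.ext h)

theorem chk5 : chk c5A 5 60 3 3 = true := by decide +kernel
theorem chk7 : chk c7A 7 42 3 2 = true := by decide +kernel
theorem chk11 : chk 983435072843990828779021698901151808 11 11 0 0 = true := by decide +kernel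
theorem chk23 : chk 956302485175575353788796878166559809 23 23 0 0 = true := by decide +kernel

theorem nkM {p c e n : ℕ} [hp : Fact p.Prime] {z : M24} (hz : orderOf z = p)
    (hc : Nat.card (centralizer ({z} : Set M24)) = p * c) (hn : 244823040 = p * (n * (c * e)))
    (hm : ¬ p ∣ n * (c * e)) (h : ∀ f < p, f ∣ p - 1 → c * f % p = n * (c * e) % p → f = e) :
    nk M24 p = n * (p - 1) := by
  obtain ⟨P, n', c', e', -, h1, h2, h3, -, h4, h5, -⟩ := loc hz (card_M24.trans hn) hm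
  obtain rfl : c = c' := Nat.eq_of_mul_eq_mul_left hp.out.pos (hc.symm.trans h3)
  have h0 := hp.out.two_le
  obtain rfl := h e' ((Nat.le_of_dvd (by omega) h2).trans_lt (by omega)) h2 (by
    rw [h4, Nat.mul_mod n', h1, one_mul, Nat.mod_mod])
  rw [h5, Nat.eq_of_mul_eq_mul_right (Nat.pos_of_ne_zero fun h => hm (by simp [h])) h4]

instance : Fact (Nat.Prime 5) := ⟨by norm_num⟩
instance : Fact (Nat.Prime 7) := ⟨by norm_num⟩
instance : Fact (Nat.Prime 11) := ⟨by norm_num⟩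
instance : Fact (Nat.Prime 23) := ⟨by norm_num⟩

theorem M5 : nk M24 5 = 1020096 * (5 - 1) ∧ ∀ k, nk M24 k % 5 = tb 5 3 3 k := by
  obtain ⟨⟨z, h1, h2⟩, h⟩ := tab_M (by decide +kernel) (by norm_num) chk5
  exact ⟨nkM (c := 12) (e := 4) h1 h2 (by norm_num) (by norm_num) (by decide), h⟩

theorem M7 : nk M24 7 = 1943040 * (7 - 1) ∧ ∀ k, nk M24 k % 7 = tb 7 3 2 k := by
  obtain ⟨⟨z, h1, h2⟩, h⟩ := tab_M (by decide +kernel) (by norm_num) chk7
  exact ⟨nkM (c := 6) (e := 3) h1 h2 (by norm_num) (by norm_num) (by decide), h⟩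

theorem M11 : nk M24 11 = 2225664 * (11 - 1) ∧ ∀ k, nk M24 k % 11 = tb 11 0 0 k := by
  obtain ⟨⟨z, h1, h2⟩, h⟩ := tab_M (by decide +kernel) (by norm_num) chk11
  exact ⟨nkM (c := 1) (e := 10) h1 h2 (by norm_num) (by norm_num) (by decide), h⟩

theorem M23 : nk M24 23 = 967680 * (23 - 1) ∧ ∀ k, nk M24 k % 23 = tb 23 0 0 k := by
  obtain ⟨⟨z, h1, h2⟩, h⟩ := tab_M (by decide +kernel) (by norm_num) chk23
  exact ⟨nkM (c := 1) (e := 11) h1 h2 (by norm_num) (by norm_num) (by decide), h⟩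

end CL.OJ.M24N
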