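import Cfsg.Agent.SPOR.Ord24a

/-! Specification of the degree sieve. -/

set_option autoImplicit false
open CL.D1

namespace CL.OJ.M24

theorem en_a : en2 7 3 [w23, w11] La 2 Ca [1] = false := by decide +kernel
theorem en_b : en2 7 3 [w23, w11] Lb 3 Ca [] = false := by decide +kernel
theorem en_c : en2 7 6 [w23, w11] Lc 3 Cc [] = false := by decide +kernel
theorem en_w : en2 5 4 [w23, w11, w7] Lw 2 Cw [] = false := by decide +kernel
theorem en_q : en1 Lq 3 Cq [1] = false := by decide +kernel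
theorem en_v : en1 Lv 4 Cq [] = false := by decide +kernel
theorem en_r : en1 Lr 4 Cr [] = false := by decide +kernel
theorem jn_all : allE Ea jn = true := by decide +kernel

theorem masks : (allE Eq fun q => allE Ew fun w => tb M1 (Nat.mod (q.g1 + w.g1) 4001) &&
      allE Er fun r => tb M5 (Nat.mod (q.g1 + w.g1 + (w.g2 + r.g2)) 65537)) = true ∧
    (allE Er fun r => tb M2 (Nat.mod r.g2 8191) && r.g1 == 0) = true ∧
    (allE Ev fun v => tb M3 (Nat.mod v.g1 8191) && v.g2 == 0) = true ∧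
    (allE Eq fun q => q.g2 == 0 && allE Ev fun v => allE Ev fun u =>
      tb M4 (Nat.mod (q.g1 + (v.g1 + u.g1)) 65537)) = true := by
  decide +kernel

theorem allE_iff {L : List En} {f : En → Bool} : allE L f = true ↔ ∀ a ∈ L, f a = true := by
  induction L with
  | nil => simp [allE]
  | cons a L ih =>
    rw [List.forall_mem_cons, ← ih, allE, allE]
    dsimp only
    cases f a <;> simp

theorem cnd_iff {b x : Bool} : cnd b x = true ↔ (b = true → x = true) := by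
  cases b <;> simp [cnd]

theorem frc_eq {n : ℕ} {f : ℕ → Bool} : frc n f = f n := by cases n <;> rfl

def Solv (x : En) : Prop := ∃ m₁ m₂ m₃ m₄ m₅ m₆ : ℕ, x.sq + m₁ * 592900 + m₂ * 2371600 +
  m₃ * 23328900 + m₄ * 78411025 + m₅ * 108056025 + m₆ * 165894400 = 244823040 ∧ x.c + m₁ = 2 ∧
    x.b + m₂ + m₅ = 11 ∧ x.d + m₃ + m₆ = 11

theorem fin_spec {a b c x : En} (h : fin a b c x = true) (hx : Solv x) : Fin a b c x := by
  obtain ⟨m₁, m₂, m₃, m₄, m₅, m₆, h1, h2, h3, h4⟩ := hx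
  simp only [fin, frc_eq, cnd_iff, Nat.beq_eq, decide_eq_true_eq] at h
  refine h (show x.sq % 1225 = 665 by omega) (anyB_of (i := m₅) (by omega) (anyB_of (i := m₆) (by omega) ?_))
  simp only [frc_eq, Bool.and_eq_true, Nat.ble_eq, Nat.beq_eq]
  rw [show 2 - x.c = m₁ by omega, show 11 - x.b - m₅ = m₂ by omega, show 11 - x.d - m₆ = m₃ by omega]
  clear h
  refine ⟨⟨⟨⟨by omega, ?_⟩, by omega⟩, by omega⟩, by omega⟩
  exact Nat.mod_eq_zero_of_dvd ⟨m₄, Nat.sub_eq_of_eq_add (by omega)⟩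

theorem Solv.le {x : En} (h : Solv x) : x.sq ≤ 244823040 := by
  obtain ⟨_, _, _, _, _, _, h, -⟩ := h
  omega

variable {a b c q w v u r : En} (ha : a ∈ Ea) (hb : b ∈ Eb) (hc : c ∈ Ec) (hq : q ∈ Eq) (hr : r ∈ Er)
include ha hb hc

theorem jn_spec (h : (a.add (b.add c)).sq ≤ 244823040) :
    j1 a b c (a.add (b.add c)).g1 (a.add (b.add c)).g2 (a.add (b.add c)).sq = true ∧
      j2 a b c (a.add (b.add c)).g1 (a.add (b.add c)).g2 (a.add (b.add c)).sq = true := by
  have h1 := allE_iff.1 (allE_iff.1 (allE_iff.1 jn_all a ha) b hb) c hc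
  simp only [j5, j4, frc_eq, cnd_iff, Nat.ble_eq] at h1
  have h2 : j3 a b c (a.add (b.add c)).sq (a.add (b.add c)).g1 (a.add (b.add c)).g2 = true := h1 h
  rw [j3] at h2
  revert h2
  cases j1 a b c (a.add (b.add c)).g1 (a.add (b.add c)).g2 (a.add (b.add c)).sq <;> simp

include hq hr

theorem join1 (hw : w ∈ Ew) (h1 : (a.add (b.add c)).g1 = (q.add (w.add r)).g1)
    (h2 : (a.add (b.add c)).g2 = (q.add (w.add r)).g2)
    (h : Solv ((a.add (b.add c)).add (q.add (w.add r)))) :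
    Fin a b c ((a.add (b.add c)).add (q.add (w.add r))) := by
  have h3 : (a.add (b.add c)).sq + (q.sq + (w.sq + r.sq)) ≤ _ := h.le
  have h4 := (jn_spec ha hb hc (by omega)).1
  obtain ⟨m1, m2, -, m4⟩ := masks
  simp only [allE_iff, Bool.and_eq_true, beq_iff_eq] at m1 m2 m4
  have h5 : (q.add (w.add r)).g1 = q.g1 + w.g1 := by simp [En.add, (m2 r hr).2]
  have h6 : (q.add (w.add r)).g2 = w.g2 + r.g2 := by simp [En.add, (m4 q hq).1]
  simp only [j1, k3, k2, k1, h1, h2, h5, h6, cnd_iff, allE_iff, frc_eq, Nat.beq_eq, Nat.ble_eq] at h4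
  have h7 : Nat.sub (w.g2 + r.g2) w.g2 = r.g2 := Nat.add_sub_cancel_left ..
  exact fin_spec (h4 (m1 q hq w hw).1 ((m1 q hq w hw).2 r hr) q hq w hw rfl (by omega)
    (by rw [h7]; exact (m2 r hr).1) r hr h7.symm) h

theorem join2 (hv : v ∈ Ev) (hu : u ∈ Ev) (h1 : (a.add (b.add c)).g1 = (q.add (v.add (u.add r))).g1)
    (h2 : (a.add (b.add c)).g2 = (q.add (v.add (u.add r))).g2)
    (h : Solv ((a.add (b.add c)).add (q.add (v.add (u.add r))))) :
    Fin a b c ((a.add (b.add c)).add (q.add (v.add (u.add r)))) := by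
  have h3 : (a.add (b.add c)).sq + (q.sq + (v.sq + (u.sq + r.sq))) ≤ _ := h.le
  have h4 := (jn_spec ha hb hc (by omega)).2
  obtain ⟨-, m2, m3, m4⟩ := masks
  simp only [allE_iff, Bool.and_eq_true, beq_iff_eq] at m2 m3 m4
  have h5 : (q.add (v.add (u.add r))).g1 = q.g1 + (v.g1 + u.g1) := by simp [En.add, (m2 r hr).2]
  have h6 : (q.add (v.add (u.add r))).g2 = r.g2 := by
    simp [En.add, (m4 q hq).1, (m3 v hv).2, (m3 u hu).2]
  simp only [j2, k6, k5, k4, h1, h2, h5, h6, cnd_iff, allE_iff, frc_eq, Nat.beq_eq, Nat.ble_eq] at h4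
  have h7 : Nat.sub (q.g1 + (v.g1 + u.g1)) q.g1 = v.g1 + u.g1 := Nat.add_sub_cancel_left ..
  have h8 : Nat.sub (v.g1 + u.g1) v.g1 = u.g1 := Nat.add_sub_cancel_left ..
  exact fin_spec (h4 (m2 r hr).1 ((m4 q hq).2 v hv u hu) q hq v hv (by rw [h7]; omega)
    (by rw [h7, h8]; exact (m3 u hu).1) (by omega) u hu h7.symm (by omega) r hr rfl) h

omit ha hb hc hq hr

theorem mem_cands {p m : ℤ} {c d : ℕ} {σ : ℤ} (hσ : σ = 1 ∨ σ = -1) (hd : d ∈ D)
    (h1 : (d : ℤ) ≡ σ * m [ZMOD p]) (h2 : d ∣ c) : σ * d ∈ cands p m c := by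
  refine List.mem_filter.2 ⟨List.mem_flatMap.2 ⟨d, hd, by rcases hσ with rfl | rfl <;> simp⟩, ?_⟩
  have h3 := (h1.mul_left σ).symm.dvd
  rcases hσ with rfl | rfl <;>
    simpa [Nat.mod_eq_zero_of_dvd h2] using h3

theorem chk_of {ws : List (ℕ → ℤ)} {t : ℕ} {l : List ℤ} {s : Multiset ℤ} (hl : ↑l = s)
    (h1 : (s.map fun x => x.natAbs ^ 2).sum + t * s.sum.natAbs ^ 2 ≤ 244823040)
    (h2 : ∀ w ∈ ws, (s.map (sw w)).sum = sw w s.sum) : chk ws t l = true := by
  subst hl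
  simpa [chk] using ⟨h1, h2⟩

theorem en2_spec {p m : ℤ} {ws : List (ℕ → ℤ)} {L : List (List ℤ)} {k : ℕ} {cs acc : List ℤ}
    (h : en2 p m ws L k cs acc = false) {s t : Multiset ℤ} (ht : t = acc + s) (hk : s.card = k)
    (hs : ∀ x ∈ s, x ∈ cs) (h0 : t.sum ≡ m [ZMOD p]) (h0' : t.sum.natAbs ∈ D)
    (h1 : (t.map fun x => x.natAbs ^ 2).sum + 2 * t.sum.natAbs ^ 2 ≤ 244823040)
    (h2 : ∀ w ∈ ws, (t.map (sw w)).sum = sw w t.sum) : ∃ l ∈ L, ↑l = t := by
  by_contra! h3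
  refine Bool.eq_false_iff.1 h (go_of hk hs ?_ fun l hl => ?_)
  · rw [ht, Multiset.map_add, Multiset.sum_add] at h1
    omega
  · rw [← ht] at hl
    have h4 : l.sum = t.sum := by rw [← hl, Multiset.sum_coe]
    simpa [chk_of hl h1 h2, h4, h0'] using ⟨h0.symm.dvd, fun h => h3 l h hl⟩

theorem en1_spec {L : List (List ℤ)} {k : ℕ} {cs acc : List ℤ} (h : en1 L k cs acc = false)
    (ha : ∀ x ∈ acc, x = 1) {s t : Multiset ℤ} (ht : t = acc + s) (hk : s.card = k + 1)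
    (hs : ∀ x ∈ s, x ∈ cs) (h0 : t.sum = 0) (h1 : (t.map fun x => x.natAbs ^ 2).sum ≤ 244823040)
    (h2 : ∀ w ∈ [w23, w11, w7], (t.map (sw w)).sum = 0) : ∃ l ∈ L, -l.sum ::ₘ ↑l = t := by
  by_contra! h3
  obtain ⟨y, hy, hm⟩ := s.exists_max_image id (by rintro rfl; simp at hk)
  obtain ⟨s, rfl⟩ := Multiset.exists_cons_of_mem hy
  rw [Multiset.add_cons] at ht
  subst ht
  simp only [Multiset.map_cons, Multiset.sum_cons] at h0 h1 h2
  refine Bool.eq_false_iff.1 h (go_of (s := s) (by simpa using hk) (fun x hx => hs x (by simp [hx]))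
    ?_ fun l hl => ?_)
  · rw [Multiset.map_add, Multiset.sum_add] at h1
    omega
  · rw [← hl] at h0 h1 h2 h3
    have h4 : -l.sum = y := by rw [Multiset.sum_coe] at h0; omega
    have h5 : chk [w23, w11, w7] 1 l = true := chk_of rfl
      (by rw [Multiset.sum_coe, ← Int.natAbs_neg l.sum, h4]; omega) fun w hw => by
        have := h2 w hw
        rw [← h4, sw, Int.sign_neg, Int.natAbs_neg] at this
        rw [Multiset.sum_coe l, sw]
        linear_combination this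
    simp only [h4, h5, Bool.and_eq_true, decide_eq_true_eq, List.all_eq_true, Bool.or_eq_true,
      beq_iff_eq, Bool.not_eq_true', decide_eq_false_iff_not, and_true]
    refine ⟨⟨hs y hy, fun x hx => ?_⟩, fun h => h3 l h (by rw [h4])⟩
    exact (Multiset.mem_add.1 (hl ▸ Multiset.mem_coe.2 hx)).imp (ha x) fun h => hm x (by simp [h])

end CL.OJ.M24
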