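import Cfsg.Agent.SPOR.OrdBk2
import Cfsg.Agent.BLK.PrincCol

/-! Signed degrees of a block of defect one. -/

set_option autoImplicit false
open Cfsg Subgroup CL.Char CL.D1T CL.Ord
open scoped ComplexConjugate Classical

namespace CL.OJ

variable {G : Type*} [Group G] [Finite G] {p : ℕ} [hp : Fact p.Prime] {x : G}

theorem card_expA (h : P1 p x) {c f : ℕ} (hc : Nat.card G = Nat.card (centralizer ({x} : Set G)) * c)
    (hf : c % p = f) : (expA p x).card = f := by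
  obtain ⟨P, -⟩ := h.exists_sylow
  have h1 := card_normalizer_zpowers P (h.card_sylow P) h.ord
  rw [h.card_normalizer, hc, ← mul_assoc, mul_comm _ c] at h1
  have h2 := hp.out.one_lt
  have h3 := Nat.le_of_dvd (by omega) h.card_expA_dvd
  rw [← hf, ← Nat.eq_of_mul_eq_mul_right Nat.card_pos h1, Nat.mul_mod, card_sylow_modEq_one p G,
    Nat.mod_eq_of_lt h2, one_mul, Nat.mod_mod, Nat.mod_eq_of_lt (by omega)]

omit [Finite G] in
theorem not_isConj_inv (h : P1 p x) (hf : 2 * (expA p x).card + 1 = p) (ho : Odd (expA p x).card) :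
    ¬ IsConj x x⁻¹ := fun h1 => by
  rw [← h.pow_val_neg_one, ← mem_expA] at h1
  have h2 : ∑ _ ∈ expA p x, (1 : ZMod 2) = 0 := Finset.sum_involution (fun a _ => -1 * a)
    (fun _ _ => rfl) (fun a ha _ h3 => h.ne_zero_of_mem ha (by
      have h4 : ((expA p x).card * 2 + 1 : ℕ) * a = 0 := by rw [mul_comm _ 2, hf]; simp
      push_cast at h4
      linear_combination h4 + (expA p x).card * h3)) (fun _ ha => h.mul_mem h1 ha) (by simp)
  rw [Finset.sum_const, nsmul_eq_mul, mul_one, ZMod.natCast_eq_zero_iff_even] at h2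
  exact Nat.not_odd_iff_even.2 h2 ho

theorem val_zero (h : P1 p x) {χ : IrrCharacter G} (hχ : p ∣ charDegree χ.1) {g : G}
    (hg : p ∣ orderOf g) : χ.1 g = 0 :=
  vanish hp.out rfl (fun h1 => h.2 (by
    rw [← Nat.div_mul_cancel χ.2.charDegree_dvd_card, sq]
    exact mul_dvd_mul h1 hχ)) hg

/-- The indicator function of a character. -/
noncomputable def ind (χ ψ : IrrCharacter G) : ℕ := if ψ = χ then 1 else 0

omit hp in
theorem ct_sum (χ : IrrCharacter G) : ∑ ψ : IrrCharacter G with ¬ p ∣ charDegree ψ.1, ind χ ψ =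
    if p ∣ charDegree χ.1 then 0 else 1 := by
  simp [ind]

omit hp in
theorem sum_cut {F : ℕ → ℕ} (h : ∀ d, p ∣ d → F d = 0) : ∑ χ : IrrCharacter G, F (charDegree χ.1) =
    ∑ χ : IrrCharacter G with ¬ p ∣ charDegree χ.1, F (charDegree χ.1) :=
  (Finset.sum_filter_of_ne (p := fun χ : IrrCharacter G => ¬ p ∣ charDegree χ.1)
    fun _ _ h1 h2 => h1 (h _ h2)).symm

omit [Finite G] hp in
theorem map_split {S : Finset (IrrCharacter G)} {f : IrrCharacter G → ℤ} {acc : List ℤ}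
    (h : acc = [] ∧ irrOne G ∉ S ∨ acc = [1] ∧ irrOne G ∈ S ∧ f (irrOne G) = 1) :
    S.val.map f = acc + (S.erase (irrOne G)).val.map f ∧
      acc.length + ((S.erase (irrOne G)).val.map f).card = S.card := by
  rcases h with ⟨rfl, h⟩ | ⟨rfl, h, h1⟩
  · simp [h]
  · refine ⟨?_, by rw [Multiset.card_map, add_comm]; exact Finset.card_erase_add_one h⟩
    rw [← Multiset.cons_erase (Finset.mem_def.1 h), Multiset.map_cons, h1]
    rfl

namespace Bk

variable {m a e : ℕ} (D : Bk p x m a e)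

omit [Finite G] in
theorem ct_eq_zero {χ : IrrCharacter G} :
    D.sum (ind χ) = 0 ↔ ¬ (χ ∈ D.X ∨ χ ∈ D.Y) := by
  simp only [sum, ind, Finset.sum_ite_eq']
  simp

theorem sum_le (F : IrrCharacter G → ℕ) : D.sum F ≤ ∑ χ, F χ := by
  rw [sum, ← Finset.sum_union D.disj]
  exact Finset.sum_le_sum_of_subset (Finset.subset_univ _)

/-- The signed degrees of the nonexceptional characters. -/
noncomputable def sd : Multiset ℤ := D.X.val.map fun χ => D.σ χ * charDegree χ.1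

omit [Finite G] in
theorem sd_sum {θ : IrrCharacter G} (hθ : θ ∈ D.Y) : D.sd.sum = D.ε * charDegree θ.1 := by
  have := D.eqn θ hθ 1 (CL.Blk.not_dvd_orderOf_one hp.out)
  simp only [IsIrrCharacter.apply_one_eq_charDegree (Subtype.prop _)] at this
  exact_mod_cast this

omit [Finite G] in
theorem sd_map {M : Type*} [AddCommMonoid M] (F : ℤ → ℕ → M) :
    (D.sd.map fun y => F y.sign y.natAbs).sum = ∑ χ ∈ D.X, F (D.σ χ) (charDegree χ.1) := by
  rw [sd, Multiset.map_map]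
  exact Finset.sum_congr rfl fun χ h => by
    simp only [Function.comp, sign_aux (D.σ_sign χ h) χ.2.charDegree_pos]

omit [Finite G] in
theorem sum_deg (F : ℕ → ℕ) : D.sum (fun χ => F (charDegree χ.1)) =
    (D.sd.map fun y => F y.natAbs).sum + D.Y.card * F D.sd.sum.natAbs := by
  rw [D.sd_map fun _ d => F d, sum, ← smul_eq_mul, ← Finset.sum_const]
  refine congrArg _ (Finset.sum_congr rfl fun θ hθ => ?_)
  rw [D.sd_sum hθ, (sign_aux D.ε_sign θ.2.charDegree_pos).2]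

omit [Finite G] in
theorem sw_eq {w : ℕ → ℤ} {g : G} (hg : ¬ p ∣ orderOf g)
    (hw : ∀ χ : IrrCharacter G, 2 * (χ.1 g).re = w (charDegree χ.1)) :
    (D.sd.map fun y => y.sign * w y.natAbs).sum = D.sd.sum.sign * w D.sd.sum.natAbs := by
  obtain ⟨θ, hθ⟩ := D.Y_nonempty
  have h1 := congrArg (fun z : ℂ => 2 * z.re) (D.eqn θ hθ g hg)
  have h2 := sign_aux D.ε_sign θ.2.charDegree_pos
  rw [D.sd_map fun s d => s * w d, D.sd_sum hθ, h2.1, h2.2]
  simp only [Complex.re_sum, Finset.mul_sum, Complex.mul_re, Complex.intCast_re, Complex.intCast_im,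
    zero_mul, sub_zero, mul_left_comm (2 : ℝ), hw] at h1
  exact_mod_cast h1

omit [Finite G] in
theorem full (h : P1 p x) (he : e + 1 = p) : ∃ (S : Finset (IrrCharacter G)) (s : IrrCharacter G → ℤ),
    S.card = p ∧ (∀ χ, χ ∈ S ↔ χ ∈ D.X ∨ χ ∈ D.Y) ∧
      (∀ χ ∈ S, (s χ = 1 ∨ s χ = -1) ∧ χ.1 x = (s χ * m : ℤ)) ∧
      (∀ g, ¬ p ∣ orderOf g → ∑ χ ∈ S, s χ * χ.1 g = 0) ∧
      ∀ F : IrrCharacter G → ℕ, D.sum F = ∑ χ ∈ S, F χ := by
  have h2 := D.card_Y
  have := hp.out.one_lt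
  have h3 : D.Y.card = 1 := Nat.eq_of_mul_eq_mul_right (by omega : 0 < e) (by omega)
  have h4 := Finset.disjoint_right.1 D.disj
  refine ⟨D.X ∪ D.Y, fun χ => if χ ∈ D.X then D.σ χ else -D.ε, ?_, by simp, fun χ hχ => ?_,
    fun g hg => ?_, fun F => (Finset.sum_union D.disj).symm⟩
  · rw [Finset.card_union_of_disjoint D.disj, D.card_X, h3, he]
  · rcases Finset.mem_union.1 hχ with hχ | hχ
    · simp only [if_pos hχ]
      exact ⟨D.σ_sign χ hχ, D.val_X χ hχ x (mem_zpowers x) (ne_one h)⟩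
    · simp only [if_neg (h4 hχ), neg_mul]
      exact ⟨by have := D.ε_sign; omega, D.val_Y1 he hχ (mem_zpowers x) (ne_one h)⟩
  · obtain ⟨θ, h5⟩ := Finset.card_eq_one.1 h3
    have h6 : θ ∈ D.Y := by simp [h5]
    dsimp only
    rw [Finset.sum_union D.disj, Finset.sum_congr rfl fun χ hχ => by rw [if_pos hχ], D.eqn θ h6 g hg,
      h5, Finset.sum_singleton, if_neg (h4 h6)]
    simp

theorem quad (hn : ∀ y : G, orderOf y = p → ¬ IsConj y y⁻¹) {θ : IrrCharacter G} (hθ : θ ∈ D.Y)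
    {t : G} (ht : t * t = 1) :
    ∑ χ ∈ D.X, D.σ χ * (χ.1 t ^ 2 / χ.1 1) = D.ε * (θ.1 t ^ 2 / θ.1 1) := by
  have := Fintype.ofFinite G
  have h1 : ∀ χ : IrrCharacter G, χ.1 t ^ 2 / χ.1 1 =
      (Nat.card G ^ 2 : ℂ)⁻¹ * ∑ g, Blk.pairCt t t g * conj (χ.1 g) := fun χ => by
    have := Blk.classInner_pairCt t t χ
    rw [Blk.irr_conj_of_mul_self χ ht, classInner] at this
    have h0 := card_ne_zero G
    rw [sq (_ : ℂ), sq, mul_inv, mul_assoc, this]
    field_simp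
  simp only [h1, mul_left_comm _ (_ ^ 2 : ℂ)⁻¹, ← Finset.mul_sum]
  simp only [Finset.mul_sum]
  rw [Finset.sum_comm]
  refine Finset.sum_congr rfl fun g _ => ?_
  by_cases h2 : Blk.pairCt t t g = 0
  · simp [h2]
  obtain ⟨u, v, rfl⟩ := Blk.exists_of_pairCt_ne_zero h2
  have h3 : ∀ u : G, (u * t * u⁻¹)⁻¹ = u * t * u⁻¹ := fun u => by
    simp [inv_eq_of_mul_eq_one_right ht, mul_assoc]
  generalize u * t * u⁻¹ = a, v * t * v⁻¹ = b, h3 u = ha, h3 v = hb
  have h4 := congrArg conj (D.eqn θ hθ (a * b) fun hg => by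
    obtain ⟨k, hk⟩ := exists_pow_orderOf_eq hg
    refine hn _ hk (isConj_iff.2 ⟨a⁻¹, ?_⟩)
    rw [← conj_pow, ← inv_pow, mul_inv_rev, inv_mul_cancel_left, inv_inv, ha, hb])
  simp only [map_sum, map_mul, map_intCast] at h4
  simp only [mul_left_comm _ (Blk.pairCt t t _), ← Finset.mul_sum, h4]

end Bk

end CL.OJ
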