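import Cfsg.Agent.SPOR.Ord24b
import Cfsg.Agent.SPOR.OrdBk3
import Cfsg.Agent.SPOR.Ord33

/-! The degrees of the blocks of defect one of a group with the local structure of `M24`. -/

set_option autoImplicit false
open Cfsg Subgroup CL.Char CL.D1 CL.D1T CL.Ord
open scoped Classical

namespace CL.OJ.M24

/-- The local structure of `M24`. -/
structure Hyp (G : Type*) [Group G] : Prop where
  simple : IsSimpleGroup G
  card : Nat.card G = 244823040
  c23 : ∀ x : G, orderOf x = 23 → Nat.card (centralizer ({x} : Set G)) = 23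
  c11 : ∀ x : G, orderOf x = 11 → Nat.card (centralizer ({x} : Set G)) = 11
  c7 : ∀ x : G, orderOf x = 7 → Nat.card (centralizer ({x} : Set G)) = 42 ∧
    ∃ t t' : G, orderOf t = 2 ∧ orderOf t' = 2 ∧ t ≠ t' ∧ Commute t x ∧ Commute t' x
  c5 : ∀ y : G, orderOf y = 5 → Nat.card (centralizer ({y} : Set G)) = 60 ∧
    ∃ v : G, orderOf v = 3 ∧ Commute v y ∧
      Nat.card ↥(centralizer ({y} : Set G) ⊓ centralizer ({v} : Set G)) ≤ 15

instance : Fact (Nat.Prime 23) := ⟨by norm_num⟩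
instance : Fact (Nat.Prime 11) := ⟨by norm_num⟩
instance : Fact (Nat.Prime 7) := ⟨by norm_num⟩
instance : Fact (Nat.Prime 5) := ⟨by norm_num⟩

variable {G : Type*} [Group G] [Finite G] (H : Hyp G)

omit [Finite G] in
theorem sm_eq {p m a e : ℕ} [Fact p.Prime] {x : G} (D : Bk p x m a e) {l : List ℤ} (h : ↑l = D.sd)
    (F : ℕ → ℕ) : D.sum (fun χ => F (charDegree χ.1)) = sm F D.Y.card l := by
  rw [D.sum_deg, ← h]
  rfl

theorem solv_mk {x : En} {m : ℕ → ℕ}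
    (h1 : x.sq + ([770, 1540, 4830, 8855, 10395, 12880].map fun d => m d * d ^ 2).sum = 244823040)
    (h2 : x.b + ([770, 1540, 4830, 8855, 10395, 12880].map fun d => m d * fb d).sum = 11)
    (h3 : x.c + ([770, 1540, 4830, 8855, 10395, 12880].map fun d => m d * fc d).sum = 2)
    (h4 : x.d + ([770, 1540, 4830, 8855, 10395, 12880].map fun d => m d * fd d).sum = 11) :
    Solv x := by
  have e : ∀ f : ℕ → ℕ, ([770, 1540, 4830, 8855, 10395, 12880].map f).sum =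
      f 770 + f 1540 + f 4830 + f 8855 + f 10395 + f 12880 := fun f => by simp [add_assoc]
  rw [e] at h1 h2 h3 h4
  simp [fb, fc, fd] at h2 h3 h4
  norm_num only at h1
  exact ⟨m 770, m 1540, m 4830, m 8855, m 10395, m 12880, by omega, by omega, by omega, by omega⟩

namespace Hyp
include H

omit [Finite G] in
theorem nc : ¬ IsMulCommutative G :=
  have := H.simple
  CL.Small.not_comm_of_not_prime (by rw [H.card]; norm_num)

omit [Finite G] in
theorem perf : commutator G = ⊤ :=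
  have := H.simple
  CL.Small.commutator_eq_top H.nc

omit [Finite G] in
theorem p1 {p : ℕ} {x : G} (hx : orderOf x = p) (h : ¬ p ^ 2 ∣ 244823040) : P1 p x :=
  ⟨hx, H.card ▸ h⟩

theorem ex (p : ℕ) [Fact p.Prime] (h : p ∣ 244823040) : ∃ x : G, orderOf x = p :=
  exists_prime_orderOf_dvd_card' p (H.card ▸ h)

theorem ex23 : ∃ x : G, orderOf x = 23 ∧ (∀ χ : IrrCharacter G, 2 * (χ.1 x).re = w23 (charDegree χ.1) ∧
    charDegree χ.1 % 23 ∈ [0, 1, 22, 11, 12]) ∧ ∑ χ : IrrCharacter G, fb (charDegree χ.1) = 11 ∧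
      ∑ χ : IrrCharacter G, fc (charDegree χ.1) = 2 := by
  obtain ⟨x, hx⟩ := H.ex 23 (by norm_num)
  have h := H.p1 hx (by norm_num)
  have hf := card_expA h (c := 10644480) (f := 11) (by rw [H.c23 x hx, H.card]) rfl
  obtain ⟨D, hD⟩ := hf ▸ dec_one h (H.c23 x hx)
  have hn := not_isConj_inv h (by rw [hf]) (by rw [hf]; decide)
  have h1 : ∀ χ ∈ D.X, charDegree χ.1 % 23 = 1 ∧ D.σ χ = 1 ∨ charDegree χ.1 % 23 = 22 ∧ D.σ χ = -1 :=
    fun χ hχ => by have := D.deg_X h hχ; have := D.σ_sign χ hχ; unfold Int.ModEq at *; omega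
  have h2 : ∀ χ ∈ D.Y, charDegree χ.1 % 23 = 11 ∧ D.ε = 1 ∨ charDegree χ.1 % 23 = 12 ∧ D.ε = -1 :=
    fun χ hχ => by have := D.deg_Y χ hχ; have := D.ε_sign; unfold Int.ModEq at *; omega
  have h4 := D.card_Y
  refine ⟨x, hx, fun χ => ?_, ?_, ?_⟩
  · by_cases h0 : 23 ∣ charDegree χ.1
    · simp [val_zero h h0 hx.symm.dvd, w23, Nat.mod_eq_zero_of_dvd h0]
    rcases not_not.1 (D.ct_eq_zero (χ := χ).not.1 (by rw [← hD, ct_sum, if_neg h0]; simp)) with hχ | hχ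
    · rcases h1 χ hχ with h1 | h1 <;>
        simp [D.val_X χ hχ x (mem_zpowers x) h.ne_one, w23, h1]
    · rcases h2 χ hχ with h1 | h1 <;> simp [(D.re_Y h (by rw [hf]) hn one_pos hχ).1, w23, h1]
  · rw [sum_cut (p := 23) (F := fb) fun d hd => if_neg (by omega), hD, Bk.sum]
    unfold fb
    rw [Finset.sum_congr rfl fun χ hχ => if_pos (by have := h1 χ hχ; omega),
      Finset.sum_eq_zero (s := D.Y) fun χ hχ => if_neg (by have := h2 χ hχ; omega)]
    simp [D.card_X]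
  · rw [sum_cut (p := 23) (F := fc) fun d hd => if_neg (by omega), hD, Bk.sum]
    unfold fc
    rw [Finset.sum_eq_zero fun χ hχ => if_neg (by have := h1 χ hχ; omega),
      Finset.sum_congr rfl fun χ hχ => if_pos (by have := h2 χ hχ; omega)]
    simp
    omega

theorem ex11 : ∃ x : G, orderOf x = 11 ∧ (∀ χ : IrrCharacter G,
    χ.1 x = (w11 (charDegree χ.1) / 2 : ℤ) ∧ 2 * (χ.1 x).re = w11 (charDegree χ.1) ∧
      charDegree χ.1 % 11 ∈ [0, 1, 10]) ∧ ∑ χ : IrrCharacter G, fd (charDegree χ.1) = 11 := by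
  obtain ⟨x, hx⟩ := H.ex 11 (by norm_num)
  have h := H.p1 hx (by norm_num)
  have hf := card_expA h (c := 22256640) (f := 10) (by rw [H.c11 x hx, H.card]) rfl
  obtain ⟨D, hD⟩ := dec_one h (H.c11 x hx)
  obtain ⟨S, s, h1, h2, h3, -, h4⟩ := D.full h (by rw [hf])
  have h5 : ∀ χ ∈ S, charDegree χ.1 % 11 = 1 ∧ s χ = 1 ∨ charDegree χ.1 % 11 = 10 ∧ s χ = -1 :=
    fun χ hχ => by have := int_mod_of_val hx (h3 χ hχ).2 rfl; have := (h3 χ hχ).1; omega
  refine ⟨x, hx, fun χ => ?_, ?_⟩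
  · by_cases h0 : 11 ∣ charDegree χ.1
    · simp [val_zero h h0 hx.symm.dvd, w11, Nat.mod_eq_zero_of_dvd h0]
    have hχ := (h2 χ).2 (not_not.1 (D.ct_eq_zero.not.1 (by rw [← hD, ct_sum, if_neg h0]; simp)))
    rcases h5 χ hχ with h1 | h1 <;> simp [(h3 χ hχ).2, w11, h1]
  · rw [sum_cut (p := 11) (F := fd) fun d hd => if_pos (by omega), hD, h4]
    unfold fd
    rw [Finset.sum_congr rfl fun χ hχ => if_neg (by have := h5 χ hχ; omega)]
    simp [h1]

theorem mem_D {χ : IrrCharacter G} (h : χ ≠ irrOne G) : charDegree χ.1 ∈ D := by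
  obtain ⟨_, -, h1, -⟩ := H.ex23
  obtain ⟨_, -, h2, -⟩ := H.ex11
  exact (by decide +kernel : ∀ d ∈ dlist [(2, 10), (3, 3), (5, 1), (7, 1), (11, 1), (23, 1)],
    d * d ≤ 244823040 → 2 ≤ d → d % 23 ∈ [0, 1, 22, 11, 12] → d % 11 ∈ [0, 1, 10] → d ∈ D) _
    (mem_dlist (by simp; norm_num) (H.card ▸ χ.2.charDegree_dvd_card :))
    (by rw [← sq, ← H.card]; exact deg_sq_le χ) (degree_ne_one H.perf h) (h1 χ).2 (h2 χ).2.2

variable {p m a e c k : ℕ} [Fact p.Prime] {x : G} (D : Bk p x m a e) (h : P1 p x)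
  (hc : 244823040 = Nat.card (centralizer ({x} : Set G)) * c) {cs acc : List ℤ}
  (hcs : cands p m (c * m) = cs) {L : List (List ℤ)}
include h hc hcs

theorem mem_cs {χ : IrrCharacter G} (h1 : χ ≠ irrOne G) {s : ℤ} (hs : s = 1 ∨ s = -1)
    (h2 : χ.1 x = (s * m : ℤ)) : s * charDegree χ.1 ∈ cs := by
  have h3 := dvd_index_mul h2 rfl
  rw [Nat.eq_of_mul_eq_mul_left Nat.card_pos ((card_mul_index _).trans (H.card.trans hc))] at h3
  refine hcs ▸ mem_cands hs (H.mem_D h1) (int_mod_of_val h.ord h2 rfl).symm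
    (Int.natCast_dvd_natCast.1 ?_)
  rcases hs with rfl | rfl <;> simpa using h3

theorem list2 {ws : List (ℕ → ℤ)} (hen : en2 p (e * m) ws L k cs acc = false) (he : 2 * e + 1 = p)
    (hw : ∀ w ∈ ws, ∃ g : G, ¬ p ∣ orderOf g ∧
      ∀ χ : IrrCharacter G, 2 * (χ.1 g).re = w (charDegree χ.1)) (hk : acc.length + k = e)
    (ha : acc = [] ∧ ¬ (irrOne G ∈ D.X ∨ irrOne G ∈ D.Y) ∨
      acc = [1] ∧ (irrOne G ∈ D.X ∨ irrOne G ∈ D.Y) ∧ m = 1) :
    ∃ l ∈ L, ↑l = D.sd ∧ ∀ F : ℕ → ℕ, D.sum (fun χ => F (charDegree χ.1)) = sm F 2 l := by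
  have h1 := D.card_Y
  have := (Fact.out : p.Prime).one_lt
  have h2 : D.Y.card = 2 := Nat.eq_of_mul_eq_mul_right (by omega : 0 < e) (by omega)
  have h3 : irrOne G ∉ D.Y := fun h3 => by
    obtain ⟨θ, h4, h5⟩ := Finset.exists_mem_ne (by omega : 1 < D.Y.card) (irrOne G)
    have := degree_ne_one H.perf h5
    rw [D.deg_Y_eq h4 h3, show charDegree (irrOne G).1 = 1 from charDegree_const_one] at this
    omega
  obtain ⟨θ, hθ⟩ := D.Y_nonempty
  obtain ⟨h4, h5⟩ := map_split (S := D.X) (f := fun χ => D.σ χ * charDegree χ.1) (acc := acc)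
    (ha.imp (And.imp_right fun h h' => h (.inl h')) (And.imp_right fun ⟨h4, h5⟩ => by
      have h6 := D.val_X _ (h4.resolve_right h3) x (mem_zpowers x) h.ne_one
      subst h5
      rw [irrOne_apply, ← Int.cast_one, Int.cast_inj] at h6
      refine ⟨h4.resolve_right h3, ?_⟩
      rwa [show charDegree (irrOne G).1 = 1 from charDegree_const_one, eq_comm]))
  have h6 := D.sum_le fun χ => charDegree χ.1 ^ 2
  rw [D.sum_deg (· ^ 2), sum_deg_sq, H.card, h2] at h6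
  obtain ⟨l, h7, h8⟩ := en2_spec hen (t := D.sd) h4 (by have := D.card_X; omega) (fun y hy => by
      obtain ⟨χ, hχ, rfl⟩ := Multiset.mem_map.1 hy
      obtain ⟨a1, a2⟩ := Finset.mem_erase.1 hχ
      exact H.mem_cs h hc hcs a1 (D.σ_sign χ a2) (D.val_X χ a2 x (mem_zpowers x) h.ne_one))
    (by
      have := (D.deg_Y θ hθ).mul_left D.ε
      rw [D.sd_sum hθ]
      rcases D.ε_sign with h | h <;> simpa [h] using this)
    (by rw [D.sd_sum hθ, (sign_aux D.ε_sign θ.2.charDegree_pos).2]; exact H.mem_D fun h => h3 (h ▸ hθ))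
    h6 fun w h => (hw w h).elim fun g hg => D.sw_eq hg.1 hg.2
  exact ⟨l, h7, h8, h2 ▸ sm_eq D h8⟩

theorem list1 (hen : en1 L k cs acc = false) (he : e + 1 = p)
    (hw : ∀ w ∈ [w23, w11, w7], ∃ g : G, ¬ p ∣ orderOf g ∧
      ∀ χ : IrrCharacter G, 2 * (χ.1 g).re = w (charDegree χ.1)) (hk : acc.length + k = e)
    (ha : acc = [] ∧ ¬ (irrOne G ∈ D.X ∨ irrOne G ∈ D.Y) ∨
      acc = [1] ∧ (irrOne G ∈ D.X ∨ irrOne G ∈ D.Y) ∧ m = 1) :
    ∃ l ∈ L, ∀ F : ℕ → ℕ, D.sum (fun χ => F (charDegree χ.1)) = sm F 1 l := by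
  obtain ⟨S, s, h1, h2, h3, h4, h5⟩ := D.full h he
  obtain ⟨h6, h7⟩ := map_split (S := S) (f := fun χ => s χ * charDegree χ.1) (acc := acc)
    (by
      rw [h2]
      refine ha.imp_right (And.imp_right fun ⟨h4, h5⟩ => ⟨h4, ?_⟩)
      have h6 := (h3 _ ((h2 _).2 h4)).2
      rw [h5, irrOne_apply, ← Int.cast_one, Int.cast_inj] at h6
      rwa [show charDegree (irrOne G).1 = 1 from charDegree_const_one, eq_comm])
  have h8 : ∀ {M : Type} [AddCommMonoid M] (F : ℤ → ℕ → M),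
      ((S.val.map fun χ => s χ * charDegree χ.1).map fun y => F y.sign y.natAbs).sum =
        ∑ χ ∈ S, F (s χ) (charDegree χ.1) := fun F => by
    rw [Multiset.map_map]
    exact Finset.sum_congr rfl fun χ h => by
      simp only [Function.comp, sign_aux (h3 χ h).1 χ.2.charDegree_pos]
  obtain ⟨l, h9, h10⟩ := en1_spec hen (by rcases ha with h | h <;> simp [h.1]) h6 (by omega)
    (fun y hy => by
      obtain ⟨χ, hχ, rfl⟩ := Multiset.mem_map.1 hy
      obtain ⟨a1, a2⟩ := Finset.mem_erase.1 hχ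
      exact H.mem_cs h hc hcs a1 (h3 χ a2).1 (h3 χ a2).2)
    (by
      have := h4 1 (CL.Blk.not_dvd_orderOf_one Fact.out)
      simp only [IsIrrCharacter.apply_one_eq_charDegree (Subtype.prop _)] at this
      exact_mod_cast this)
    (by
      rw [h8 fun _ d => d ^ 2, ← h5, ← H.card, ← sum_deg_sq]
      exact D.sum_le _) fun w h => by
      obtain ⟨g, a1, a2⟩ := hw w h
      have h1 := congrArg (fun z : ℂ => 2 * z.re) (h4 g a1)
      simp only [Complex.re_sum, Finset.mul_sum, Complex.mul_re, Complex.intCast_re,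
        Complex.intCast_im, zero_mul, sub_zero, mul_left_comm (2 : ℝ), a2] at h1
      rw [Complex.zero_re, mul_zero] at h1
      exact (h8 fun s d => s * w d).trans (by exact_mod_cast h1)
  refine ⟨l, h9, fun F => ?_⟩
  rw [h5, ← h8 fun _ d => F d, ← h10, sm]
  simp [add_comm]

omit h hc hcs

theorem f7 {x : G} (hx : orderOf x = 7) : (expA 7 x).card = 3 ∧ ¬ IsConj x x⁻¹ :=
  have h := H.p1 hx (by norm_num)
  have hf := card_expA h (c := 5829120) (f := 3) (by rw [(H.c7 x hx).1, H.card]) rfl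
  ⟨hf, not_isConj_inv h (by rw [hf]) (by rw [hf]; decide)⟩

theorem ex7 : ∃ (x : G) (D₀ D₁ : Bk 7 x 1 1 3) (D₂ : Bk 7 x 2 2 3), orderOf x = 7 ∧
    (irrOne G ∈ D₀.X ∨ irrOne G ∈ D₀.Y) ∧ (∀ (M : Type) [AddCommMonoid M] (F : IrrCharacter G → M),
      ∑ χ with ¬ 7 ∣ charDegree χ.1, F χ = D₀.sum F + (D₁.sum F + D₂.sum F)) ∧
    ∀ χ : IrrCharacter G, 2 * (χ.1 x).re = w7 (charDegree χ.1) := by
  obtain ⟨x, hx⟩ := H.ex 7 (by norm_num)
  have h := H.p1 hx (by norm_num)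
  obtain ⟨hf, hn⟩ := H.f7 hx
  obtain ⟨h1, t, t', a1, a2, a3, a4, a5⟩ := H.c7 x hx
  obtain ⟨D₀, D₁, D₂, h2, hD⟩ := hf ▸ dec_six h (by norm_num) h1 (by rw [a1]; norm_num) a4 (by
    by_contra h2
    have b1 := mem_centralizer_singleton_iff.2 a4.eq
    have b2 := mem_centralizer_singleton_iff.2 a5.eq
    have h3 := card_dvd_of_le (inf_le_left (a := centralizer {x}) (b := centralizer {t}))
    have h4 := CL.Small.orderOf_dvd_card_of_mem (mem_inf.2 ⟨b1, mem_centralizer_singleton_iff.2 rfl⟩)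
    have h5 := eq_of_le_of_card_ge (inf_le_left (a := centralizer {x}) (b := centralizer {t})) (by
      rw [h1, a1] at *
      exact (by decide : ∀ d ∈ Nat.divisors 42, 2 ∣ d → ¬ d ≤ 7 * 2 → 42 ≤ d) _ (by simpa) h4 h2)
    have := Fact.mk Nat.prime_two
    have h6 := P1.mem_of_commute (p := 2) (x := (⟨t, b1⟩ : centralizer {x})) (y := ⟨t', b2⟩)
      ⟨by simpa, by rw [h1]; norm_num⟩ ⟨1, by simpa⟩
      (Subtype.ext (mem_centralizer_singleton_iff.1 (h5.ge b2).2).symm)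
    rw [mem_zpowers_iff_mem_range_orderOf, orderOf_mk, a1] at h6
    simp only [Finset.range_add_one, Finset.range_zero, Finset.mem_image, Finset.mem_insert,
      Finset.notMem_empty, or_false, exists_eq_or_imp, exists_eq_left, Subtype.ext_iff] at h6
    rcases h6 with h6 | h6
    · exact a3 (by simpa using h6)
    · simp [← show 1 = t' by simpa using h6] at a2)
  refine ⟨x, D₀, D₁, D₂, hx, h2, hD, fun χ => ?_⟩
  by_cases h0 : 7 ∣ charDegree χ.1
  · simp [val_zero h h0 hx.symm.dvd, w7, Nat.mod_eq_zero_of_dvd h0]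
  have h3 : ∀ {m : ℕ} (D : Bk 7 x m m 3), m = 1 ∨ m = 2 → D.sum (ind χ) ≠ 0 →
      2 * (χ.1 x).re = w7 (charDegree χ.1) := fun {m} D hm h3 => by
    rcases not_not.1 (D.ct_eq_zero.not.1 h3) with hχ | hχ
    · have h4 : charDegree χ.1 % 7 = ((D.σ χ * m) % 7).toNat := by
        have := D.deg_X h hχ; unfold Int.ModEq at this; omega
      rw [D.val_X χ hχ x (mem_zpowers x) h.ne_one, w7, h4]
      rcases D.σ_sign χ hχ with h5 | h5 <;> rcases hm with rfl | rfl <;> simp [h5] <;> norm_num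
    · have h4 : charDegree χ.1 % 7 = ((D.ε * (3 * m)) % 7).toNat := by
        have := D.deg_Y χ hχ; unfold Int.ModEq at this; push_cast at this; omega
      rw [(D.re_Y h (by rw [hf]) hn (by omega) hχ).1, w7, h4]
      rcases D.ε_sign with h5 | h5 <;> rcases hm with rfl | rfl <;> simp [h5]
  have h4 := hD ℕ (ind χ)
  rw [ct_sum, if_neg h0] at h4
  by_cases h5 : D₀.sum (ind χ) = 0
  · by_cases h6 : D₁.sum (ind χ) = 0
    · exact h3 D₂ (.inr rfl) (by omega)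
    exact h3 D₁ (.inl rfl) h6
  exact h3 D₀ (.inl rfl) h5

theorem tot (F : ℕ → ℕ) : ∑ χ : IrrCharacter G, F (charDegree χ.1) =
    ∑ χ : IrrCharacter G with ¬ 7 ∣ charDegree χ.1, cut 1 F (charDegree χ.1) +
      ∑ χ : IrrCharacter G with ¬ 5 ∣ charDegree χ.1, cut 7 F (charDegree χ.1) +
      ([770, 1540, 4830, 8855, 10395, 12880].map fun d =>
        (Finset.univ.filter fun χ : IrrCharacter G => charDegree χ.1 = d).card * F d).sum := by
  simp only [List.map_cons, List.map_nil, List.sum_cons, List.sum_nil, Finset.card_filter,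
    Finset.sum_filter, Finset.sum_mul, add_zero, ← Finset.sum_add_distrib]
  refine Finset.sum_congr rfl fun χ _ => ?_
  have h1 : charDegree χ.1 ∈ 1 :: M24.D := by
    by_cases h : χ = irrOne G
    · simp [h, show charDegree (irrOne G).1 = 1 from charDegree_const_one]
    exact List.mem_cons_of_mem _ (H.mem_D h)
  generalize charDegree χ.1 = d at h1
  by_cases h2 : 7 ∣ d ∧ 5 ∣ d
  · have := (by decide +kernel : ∀ d ∈ 1 :: M24.D, 7 ∣ d ∧ 5 ∣ d →
      d ∈ [770, 1540, 4830, 8855, 10395, 12880]) d h1 h2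
    simp only [List.mem_cons, List.not_mem_nil, or_false] at this
    rcases this with rfl | rfl | rfl | rfl | rfl | rfl <;> simp
  rw [if_neg (by omega : d ≠ 770), if_neg (by omega : d ≠ 1540), if_neg (by omega : d ≠ 4830),
    if_neg (by omega : d ≠ 8855), if_neg (by omega : d ≠ 10395), if_neg (by omega : d ≠ 12880)]
  simp only [cut, Nat.mod_one, ← Nat.dvd_iff_mod_eq_zero]
  by_cases h3 : 7 ∣ d <;> simp_all

theorem solv_of {A B : (ℕ → ℕ) → ℕ}
    (hA : ∀ F, ∑ χ : IrrCharacter G with ¬ 7 ∣ charDegree χ.1, F (charDegree χ.1) = A F)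
    (hB : ∀ F, ∑ χ : IrrCharacter G with ¬ 5 ∣ charDegree χ.1, F (charDegree χ.1) = B F) :
    A g1 = B g1 ∧ A g2 = B g2 ∧ (∀ x : En, x.sq = A (cut 1 (· ^ 2)) + B (cut 7 (· ^ 2)) →
      x.b = A (cut 1 fb) + B (cut 7 fb) → x.c = A (cut 1 fc) + B (cut 7 fc) →
      x.d = A (cut 1 fd) + B (cut 7 fd) → Solv x) ∧
      ∑ χ : IrrCharacter G, fz (charDegree χ.1) = A (cut 1 fz) + B (cut 7 fz) ∧
      ∑ χ : IrrCharacter G, fu (charDegree χ.1) = A (cut 1 fu) + B (cut 7 fu) := by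
  obtain ⟨_, -, -, h1, h2⟩ := H.ex23
  obtain ⟨_, -, -, h3⟩ := H.ex11
  have h4 := H.card ▸ sum_deg_sq (G := G)
  rw [H.tot fb] at h1
  rw [H.tot fc] at h2
  rw [H.tot fd] at h3
  rw [H.tot (· ^ 2)] at h4
  rw [H.tot fz, H.tot fu, ← hA, ← hA, ← hB, ← hB, ← sum_cut (F := g1) fun d _ => if_neg (by omega),
    ← sum_cut (F := g2) fun d _ => if_neg (by omega), ← sum_cut (F := g1) fun d _ => if_neg (by omega),
    ← sum_cut (F := g2) fun d _ => if_neg (by omega)]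
  simp only [hA, hB] at h1 h2 h3 h4 ⊢
  exact ⟨trivial, trivial, fun x a1 a2 a3 a4 => solv_mk (a1 ▸ h4) (a2 ▸ h1) (a3 ▸ h2) (a4 ▸ h3),
    by simp [fz], by simp [fu]⟩

theorem sieve : ∃ (x : G) (D₀ D₁ : Bk 7 x 1 1 3) (D₂ : Bk 7 x 2 2 3), orderOf x = 7 ∧
    (∀ (M : Type) [AddCommMonoid M] (F : IrrCharacter G → M),
      ∑ χ with ¬ 7 ∣ charDegree χ.1, F χ = D₀.sum F + (D₁.sum F + D₂.sum F)) ∧
    (∑ χ : IrrCharacter G, fz (charDegree χ.1) = 0 ∧ ∑ χ : IrrCharacter G, fu (charDegree χ.1) = 1 ∨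
      D₁.sd = ↑[(3795 : ℤ), -3520, -230] ∨ D₀.sd = ↑[(2024 : ℤ), -1035, 1] ∧
        D₁.sd = ↑[(-3520 : ℤ), 3312, 253] ∧ D₂.sd = ↑[(-1265 : ℤ), -1265, -1265]) := by
  obtain ⟨x, D₀, D₁, D₂, hx, h1, hD, h7⟩ := H.ex7
  obtain ⟨x₁, a1, a2, -⟩ := H.ex23
  obtain ⟨x₂, b1, b2, -⟩ := H.ex11
  obtain ⟨y, hy⟩ := H.ex 5 (by norm_num)
  have h := H.p1 hx (by norm_num)
  have h' := H.p1 hy (by norm_num)
  have c7 : 244823040 = Nat.card (centralizer ({x} : Set G)) * 5829120 := by rw [(H.c7 x hx).1]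
  have c5 : 244823040 = Nat.card (centralizer ({y} : Set G)) * 4080384 := by rw [(H.c5 y hy).1]
  have hf := card_expA h' (f := 4) (H.card.trans c5) rfl
  obtain ⟨e1, e2, e3, e4, e5⟩ := cands_eq
  obtain ⟨f1, f2, f3, f4, f5, f6, f7⟩ := ent_eq
  have w7 : ∀ w ∈ [w23, w11], ∃ g : G, ¬ 7 ∣ orderOf g ∧
      ∀ χ : IrrCharacter G, 2 * (χ.1 g).re = w (charDegree χ.1) := by
    simp only [List.forall_mem_cons, List.not_mem_nil, false_imp_iff, implies_true, and_true]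
    exact ⟨⟨x₁, by simp [a1], fun χ => (a2 χ).1⟩, x₂, by simp [b1], fun χ => (b2 χ).2.1⟩
  have w5 : ∀ w ∈ [w23, w11, M24.w7], ∃ g : G, ¬ 5 ∣ orderOf g ∧
      ∀ χ : IrrCharacter G, 2 * (χ.1 g).re = w (charDegree χ.1) := by
    simp only [List.forall_mem_cons, List.not_mem_nil, false_imp_iff, implies_true, and_true]
    exact ⟨⟨x₁, by simp [a1], fun χ => (a2 χ).1⟩, ⟨x₂, by simp [b1], fun χ => (b2 χ).2.1⟩,
      x, by simp [hx], h7⟩
  have one : ¬ 7 ∣ charDegree (irrOne G).1 ∧ ¬ 5 ∣ charDegree (irrOne G).1 := by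
    simp [show charDegree (irrOne G).1 = 1 from charDegree_const_one]
  have h2 := hD ℕ (ind (irrOne G))
  have h3 := D₀.ct_eq_zero.not.2 (not_not.2 h1)
  rw [ct_sum, if_neg one.1] at h2
  obtain ⟨a, ha, ha1, ha2⟩ := H.list2 D₀ h c7 e1 en_a rfl w7 rfl (.inr ⟨rfl, h1, rfl⟩)
  obtain ⟨b, hb, hb1, hb2⟩ := H.list2 D₁ h c7 e1 en_b rfl w7 rfl
    (.inl ⟨rfl, D₁.ct_eq_zero.1 (by omega)⟩)
  obtain ⟨c, hc, hc1, hc2⟩ := H.list2 D₂ h c7 e2 en_c rfl w7 rfl
    (.inl ⟨rfl, D₂.ct_eq_zero.1 (by omega)⟩)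
  have hA : ∀ F : ℕ → ℕ, ∑ χ : IrrCharacter G with ¬ 7 ∣ charDegree χ.1, F (charDegree χ.1) =
      sm F 2 a + (sm F 2 b + sm F 2 c) := fun F => by rw [hD, ha2, hb2, hc2]
  replace ha := f1 ▸ List.mem_map_of_mem (f := ent 1 2) ha
  replace hb := f2 ▸ List.mem_map_of_mem (f := ent 1 2) hb
  replace hc := f3 ▸ List.mem_map_of_mem (f := ent 1 2) hc
  refine ⟨x, D₀, D₁, D₂, hx, hD, ?_⟩
  rw [← ha1, ← hb1, ← hc1]
  suffices ∃ z : En, Fin (ent 1 2 a) (ent 1 2 b) (ent 1 2 c) z ∧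
      ∑ χ : IrrCharacter G, fz (charDegree χ.1) = z.z ∧
        ∑ χ : IrrCharacter G, fu (charDegree χ.1) = z.u by
    obtain ⟨z, h1, h2, h3⟩ := this
    rw [h2, h3]
    exact h1.imp_right (Or.imp (congrArg _) fun h => ⟨congrArg _ h.1, congrArg _ h.2.1, congrArg _ h.2.2⟩)
  obtain ⟨h4, v, g1, g2, g3⟩ := H.c5 y hy
  obtain ⟨E₀, E₃, h5, h6⟩ := hf ▸ dec_twelve h' (by norm_num) h4 (by rw [g1]; norm_num) g2 g3
  have h7 := E₀.ct_eq_zero.not.2 (not_not.2 h5)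
  obtain ⟨q, hq, hq2⟩ := H.list1 E₀ h' c5 e3 en_q rfl w5 rfl (.inr ⟨rfl, h5, rfl⟩)
  replace hq := f5 ▸ List.mem_map_of_mem (f := ent 7 1) hq
  rcases h6 with ⟨E₁, hE⟩ | ⟨E₁, E₂, hE⟩ <;> have h8 := hE ℕ (ind (irrOne G)) <;>
    rw [ct_sum, if_neg one.2] at h8 <;>
    obtain ⟨r, hr, hr2⟩ := H.list1 E₃ h' c5 e4 en_r rfl w5 rfl
      (.inl ⟨rfl, E₃.ct_eq_zero.1 (by omega)⟩) <;>
    replace hr := f6 ▸ List.mem_map_of_mem (f := ent 7 1) hr
  · obtain ⟨w, hw, -, hw2⟩ := H.list2 E₁ h' c5 e5 en_w rfl w5 rfl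
      (.inl ⟨rfl, E₁.ct_eq_zero.1 (by omega)⟩)
    obtain ⟨s1, s2, s3, s4⟩ := H.solv_of hA (B := fun F => sm F 1 q + (sm F 2 w + sm F 1 r))
      fun F => by rw [hE, hq2, hw2, hr2]
    exact ⟨_, join1 (w := ent 7 2 w) ha hb hc hq hr (f4 ▸ List.mem_map_of_mem (f := ent 7 2) hw) s1 s2
      (s3 _ rfl rfl rfl rfl), s4⟩
  · obtain ⟨v, hv, hv2⟩ := H.list1 E₁ h' c5 e3 en_v rfl w5 rfl
      (.inl ⟨rfl, E₁.ct_eq_zero.1 (by omega)⟩)
    obtain ⟨u, hu, hu2⟩ := H.list1 E₂ h' c5 e3 en_v rfl w5 rfl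
      (.inl ⟨rfl, E₂.ct_eq_zero.1 (by omega)⟩)
    obtain ⟨s1, s2, s3, s4⟩ := H.solv_of hA
      (B := fun F => sm F 1 q + (sm F 1 v + (sm F 1 u + sm F 1 r)))
      fun F => by rw [hE, hq2, hv2, hu2, hr2]
    exact ⟨_, join2 (v := ent 7 1 v) (u := ent 7 1 u) ha hb hc hq hr
      (f7 ▸ List.mem_map_of_mem (f := ent 7 1) hv)
      (f7 ▸ List.mem_map_of_mem (f := ent 7 1) hu) s1 s2 (s3 _ rfl rfl rfl rfl), s4⟩

end Hyp

end CL.OJ.M24
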