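import Cfsg.Agent.BLK.D1Exc
import Cfsg.Agent.SPOR.OrdDeg

/-! All blocks of full defect for a Sylow subgroup of prime order. -/

set_option autoImplicit false
open Cfsg Subgroup CL.Char CL.D1T
open scoped ComplexConjugate CL.Cyc

namespace CL.OJ

/-- A block with defect group `⟨x⟩` of order `p`. -/
structure Bk {G : Type*} [Group G] (p : ℕ) [Fact p.Prime] (x : G) (m a e : ℕ) where
  X : Finset (IrrCharacter G)
  Y : Finset (IrrCharacter G)
  σ : IrrCharacter G → ℤ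
  ε : ℤ
  disj : Disjoint X Y
  card_X : X.card = e
  card_Y : Y.card * e + 1 = p
  σ_sign : ∀ χ ∈ X, σ χ = 1 ∨ σ χ = -1
  ε_sign : ε = 1 ∨ ε = -1
  val_X : ∀ χ ∈ X, ∀ z ∈ zpowers x, z ≠ 1 → χ.1 z = (σ χ * m : ℤ)
  deg_Y : ∀ θ ∈ Y, (charDegree θ.1 : ℤ) ≡ ε * (e * m) [ZMOD p]
  eqn : ∀ θ ∈ Y, ∀ g, ¬ p ∣ orderOf g → ∑ χ ∈ X, (σ χ : ℂ) * χ.1 g = ε * θ.1 g
  sum_Y : ∀ z ∈ zpowers x, z ≠ 1 → ∑ θ ∈ Y, θ.1 z = (-(ε * m) : ℤ)
  val_Y : ∀ θ ∈ Y, ∃ φ : AddChar (ZMod p) ℂ, φ.IsPrimitive ∧ ∀ j : ZMod p, j ≠ 0 →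
    θ.1 (x ^ j.val) = ε * a * ∑ b ∈ expA p x, φ (b * j)

variable {G : Type*} [Group G] [Finite G] {p : ℕ} [hp : Fact p.Prime] {x : G}

open CL.Cyc CL.Blk in
theorem exists_bk [Fintype G] (h : P1 p x) {M : Ideal AlgInt} {B : Set (IrrCharacter G)}
    {c : Set (IrrCharacter (centralizer (zpowers x : Set G)))} {b : MonoidAlgebra (F M) G}
    {θ₀ : IrrCharacter (centralizer (zpowers x : Set G))} {e : ℕ}
    (hl : Loc p M B (zpowers x) c (zpowers x) b θ₀ e) (hk : InKer (zpowers x) θ₀) :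
    ∃ D : Bk p x ((expA p x).card / e * charDegree θ₀.1) (charDegree θ₀.1) e,
      ∀ χ, χ ∈ B ↔ χ ∈ D.X ∨ χ ∈ D.Y := by
  classical
  obtain ⟨X, ψ, δ, ε, s⟩ := hl.exists_str
  have hf : (centralizer (zpowers x : Set G)).relIndex (normalizer (zpowers x : Set G)) =
      (expA p x).card := by
    have h2 := CL.Small.card_centralizer_mul_relIndex (zpowers x)
    rw [h.card_normalizer, ← CL.Small.centralizer_zpowers_eq, mul_comm _ (Nat.card _)] at h2
    exact Nat.eq_of_mul_eq_mul_left Nat.card_pos h2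
  have hY : ∀ θ, θ ∈ (ψ '' (c \ {θ₀})).toFinset ↔ ∃ θ' ∈ c, θ' ≠ θ₀ ∧ ψ θ' = θ := fun θ => by
    simp [and_assoc]
  have hv : ∀ χ ∈ X, ∀ z ∈ zpowers x, z ≠ 1 → χ.1 z =
      (-δ χ * ((expA p x).card / e * charDegree θ₀.1 : ℕ) : ℤ) := fun χ hχ z hz h1 => by
    rw [s.val_X_Z hl hk hχ hz h1, hf, neg_mul]
  have he : ∀ θ ∈ (ψ '' (c \ {θ₀})).toFinset, ∀ g, ¬ p ∣ orderOf g →
      ∑ χ ∈ X, ((-δ χ : ℤ) : ℂ) * χ.1 g = ε * θ.1 g := fun θ hθ g hg => by
    obtain ⟨θ', h1, h2, rfl⟩ := (hY θ).1 hθ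
    have := s.val_reg hl h1 h2 hg
    simp only [Int.cast_neg, neg_mul, Finset.sum_neg_distrib]
    linear_combination -this
  have hd : Disjoint X (ψ '' (c \ {θ₀})).toFinset := by
    rw [← Finset.disjoint_coe, Set.coe_toFinset]; exact s.disjoint
  have hB : ∀ χ, χ ∈ B ↔ χ ∈ X ∨ χ ∈ (ψ '' (c \ {θ₀})).toFinset := fun χ => by
    rw [hY, s.mem_iff]
  refine ⟨⟨X, (ψ '' (c \ {θ₀})).toFinset, fun χ => -δ χ, ε, hd, s.card_X, ?_, fun χ hχ => ?_, s.sign',
    hv, fun θ hθ => ?_, he, fun z hz h1 => ?_, fun θ hθ => ?_⟩, hB⟩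
  · rw [Set.toFinset_card, ← Nat.card_eq_fintype_card, s.card_Y, hl.card_c, h.card]
  · have := s.sign χ hχ
    omega
  · obtain ⟨θ', h1, h2, rfl⟩ := (hY θ).1 hθ
    have h3 := s.degree_Y_Z hl hk h1 h2
    obtain ⟨k, hk⟩ := hf ▸ hl.e_dvd_f
    rw [hf, hk] at h3
    rw [hk, Nat.mul_div_cancel_left _ hl.e_pos]
    simpa [mul_assoc] using h3
  · have hz' : p ∣ orderOf z := by
      rw [CL.Small.orderOf_eq_of_card_prime h.card hz h1]
    have h6 := sum_degree_mul_eq_zero hl.hM hl.blkB hz'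
    obtain ⟨θ', h2, h3⟩ := hl.exists_ne
    have h4 := (hY _).2 ⟨θ', h2, h3, rfl⟩
    have h7 : ∀ θ ∈ (ψ '' (c \ {θ₀})).toFinset, θ.1 1 = (ψ θ').1 1 := fun θ hθ => by
      obtain ⟨θ, a1, a2, rfl⟩ := (hY θ).1 hθ
      exact s.val_reg_eq hl a1 a2 h2 h3 (not_dvd_orderOf_one hp.out)
    rw [show Finset.univ.filter (· ∈ B) = X ∪ (ψ '' (c \ {θ₀})).toFinset by ext; simp [hB],
      Finset.sum_union hd, Finset.sum_congr rfl (fun χ hχ => by
        rw [hv χ hχ z hz h1, Int.cast_mul, mul_left_comm, ← mul_assoc, mul_comm]),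
      Finset.sum_congr (s₁ := (ψ '' (c \ {θ₀})).toFinset) (f := fun θ => θ.1 1 * θ.1 z) rfl
        (fun θ h' => by rw [h7 θ h']), ← Finset.mul_sum] at h6
    have h8 := he _ h4 1 (not_dvd_orderOf_one hp.out)
    refine mul_left_cancel₀ (ψ θ').2.one_ne_zero ?_
    rw [← Finset.mul_sum, h8] at h6
    push_cast at h6 ⊢
    linear_combination h6
  obtain ⟨θ, h1, h2, rfl⟩ := (hY θ).1 hθ
  have hxC : x ∈ centralizer (zpowers x : Set G) := hl.Z_le (mem_zpowers x)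
  obtain ⟨ω, hω, hωθ⟩ := hl.exists_root hk h1 h2 (z := ⟨x, hxC⟩) rfl
  refine ⟨AddChar.zmodChar p hω.pow_eq_one, AddChar.zmodChar_primitive_of_primitive_root p hω,
    fun j hj => ?_⟩
  have hj' := P1.not_dvd_val hj
  have hA := inA_mul hp.out h.card (npow_mem_zpowers x j.val)
    (fun h1 => hj' (h.pow_eq_one_iff.1 h1)) (one_mem _) (not_dvd_orderOf_one hp.out)
  rw [mul_one] at hA
  rw [s.val_Y hl h1 h2 (hA.dvd hp.out h.card), hl.toSetup.indFun_apply h1 hA,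
    h.sum_normalizer _ (fun a => AddChar.zmodChar p hω.pow_eq_one (a * j) * θ.1 1),
    ← CL.Small.centralizer_zpowers_eq x, nsmul_eq_mul, inv_mul_cancel_left₀ (card_ne_zero _),
    ← Finset.sum_mul, hl.deg h1, θ₀.2.apply_one_eq_charDegree]
  · ring
  intro n a hn
  rw [smul_irr_apply, AddChar.zmodChar_apply, ← hωθ, mul_one]
  refine congrArg _ (Subtype.ext ?_)
  rw [coe_cjHom, SubmonoidClass.coe_pow, h.pow_val_mul, ← hn]
  have := conj_pow (a := (n : G)⁻¹) (b := x) (i := j.val)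
  rw [inv_inv] at this
  simp [this]

open CL.Cyc CL.Blk in
theorem exists_blocks (h : P1 p x) :
    ∃ (e : IrrCharacter (centralizer (zpowers x : Set G)) → ℕ)
      (A : IrrCharacter (centralizer (zpowers x : Set G)) → Set (IrrCharacter G)),
      (∀ θ, InKer (zpowers x) θ → Nat.card (MulAction.stabilizer (normalizer (zpowers x : Set G)) θ) =
          Nat.card (centralizer (zpowers x : Set G)) * e θ ∧
        ∃ D : Bk p x ((expA p x).card / e θ * charDegree θ.1) (charDegree θ.1) (e θ),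
          ∀ χ, χ ∈ A θ ↔ χ ∈ D.X ∨ χ ∈ D.Y) ∧
      (∀ χ : IrrCharacter G, ¬ p ∣ charDegree χ.1 → ∃ θ, InKer (zpowers x) θ ∧ χ ∈ A θ) ∧
      (∀ θ, InKer (zpowers x) θ → ∀ n : normalizer (zpowers x : Set G), A (n • θ) = A θ) ∧
      (∀ θ θ', InKer (zpowers x) θ → InKer (zpowers x) θ' → ∀ χ ∈ A θ, χ ∈ A θ' →
        ∃ n : normalizer (zpowers x : Set G), n • θ' = θ) ∧ Char.irrOne G ∈ A (Char.irrOne _) := by
  classical
  have := Fintype.ofFinite G
  obtain ⟨M, hM⟩ := CL.BS.exists_isPModular p hp.out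
  obtain ⟨P, hP⟩ := h.exists_sylow
  have hZ : IsPGroup p (zpowers x) := hP ▸ P.isPGroup'
  choose A hA using fun θ : IrrCharacter (centralizer (zpowers x : Set G)) =>
    inducedBlockDefined_centralizer hM hZ (isPBlock_blockOf (M := M) θ)
  have hS : ∀ θ, Setup p M (A θ) (zpowers x) (blockOf M θ.1) (zpowers x) (sb M _ (blockOf M θ.1)) := by
    intro θ
    refine setup_self hM ?_ h.card (hA θ)
    obtain ⟨D, hD⟩ := exists_isDefectGroup hM (hA θ).1
    obtain ⟨E, h1, h2⟩ := (hA θ).exists_isDefectGroup_ge hM hD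
    have : ((zpowers x).subgroupOf (centralizer (zpowers x : Set G))).Normal :=
      normal_subgroupOf_of_le_normalizer (centralizer_le_normalizer _)
    have h3 := map_mono (f := (centralizer (zpowers x : Set G)).subtype)
      (hD.normal_le hM (hA θ).1 (MSS.isPGroup_subgroupOf hZ _))
    rw [subgroupOf_map_subtype, inf_eq_left.2 (le_centralizer_of_isCyclic inferInstance)] at h3
    rwa [← hP, ← P.is_maximal' h1.isPGroup (hP ▸ h3.trans h2)]
  have hL := fun θ (hθ : InKer (zpowers x) θ) =>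
    (hS θ).exists_loc_inKer (mem_blockOf_self hM θ) hθ
  refine ⟨_, A, fun θ hθ => ⟨?_, exists_bk h (hL θ hθ) hθ⟩, fun χ hχ => ?_, fun θ hθ n => ?_,
    fun θ θ' hθ hθ' χ h1 h2 => ?_, ?_⟩
  · rw [← (hL θ hθ).card_T, show MulAction.stabilizer _ θ = (pairStab (zpowers x)
      (sb M _ (blockOf M θ.1))).subgroupOf _ from Subgroup.ext (hL θ hθ).smul_eq_iff]
    exact Nat.card_congr (subgroupOfEquivOfLe inf_le_left).toEquiv
  · have hB := isPBlock_blockOf (M := M) χ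
    have hD := (isDefectGroup_iff_sylow hM hB
      (blockDefect_eq_of_not_dvd (mem_blockOf_self hM χ) hχ)).2 h.exists_sylow
    obtain ⟨b, hb⟩ := exists_relPair_of_def hM hB hD
    obtain ⟨c, h0⟩ := exists_setup_of_le hM hB hb hD inferInstance le_rfl h.card
    obtain ⟨θ, h1, h2⟩ := h0.exists_inKer
    refine ⟨θ, h2, ?_⟩
    have h3 := h0.induced
    rw [block_eq_blockOf hM h0.blkc h1] at h3
    rw [(hA θ).unique hM h3]
    exact mem_blockOf_self hM χ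
  · obtain ⟨X, ψ, δ, ε, s⟩ := (hL θ hθ).exists_str
    obtain ⟨θ', h1, h2⟩ := (hL θ hθ).exists_ne
    have h3 := (smul_mem_iff hM (hA θ).1 (hA (n • θ)).1 h1 n).2
      ((smul_mem_iff hM (hA θ).1 (hA (n • θ)).1 (mem_blockOf_self hM θ) n).1 (mem_blockOf_self hM _))
    refine block_eq_of_mem hM (hA _).2.1 (hA _).2.1 (by_contra fun h4 => ?_) (s.mem_Y h1 h2)
    have h5 := (hL _ (hθ.smul n)).inner_gam_of_notMem h3 h4
    have h6 := s.inner_gam_Y h1 h2 h1 h2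
    rw [if_pos ⟨1, (one_smul _ _).symm⟩, mul_one] at h6
    rw [show gam (n • θ) (n • θ') = gam θ θ' by
      simp only [gam, indFun_sub, indFun_smul_irr], h6] at h5
    rcases s.sign' with h | h <;> simp [h] at h5
  · obtain ⟨n, hn, h3⟩ := (hS θ).exists_cj (hA θ').1
      (block_eq_of_mem hM (hA _).2.1 (hA _).2.1 h2 h1 ▸ (hA θ').indAlong hM)
    exact ⟨⟨n, hn⟩, (hL θ hθ).eq_of_inKer ((smul_mem_iff hM (hA θ').1 (hA θ).1
      (mem_blockOf_self hM θ') ⟨n, hn⟩).2 h3) (mem_blockOf_self hM θ) (hθ'.smul _) hθ⟩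
  · have h1 : IsInducedBlock M (centralizer (zpowers x : Set G)) (principalBlock M _)
        (principalBlock M G) := (isInducedBlock_iff_relPair hM hZ).2
      ⟨isPBlock_principalBlock, isPBlock_principalBlock, relPair_pb hM hZ⟩
    rw [(hA (Char.irrOne _)).unique hM h1]
    exact irrOne_mem_principalBlock hM

end CL.OJ
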