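import Cfsg.Agent.SPOR.OrdBk

/-! Decomposition of the characters of degree prime to `p` for small centralisers. -/

set_option autoImplicit false
open Cfsg Subgroup CL.Char CL.D1T CL.Ord
open scoped ComplexConjugate CL.Cyc Classical

namespace CL.OJ

variable {G : Type*} [Group G] [Finite G] {p : ℕ} [hp : Fact p.Prime] {x : G}

namespace Bk

variable {m a e : ℕ} (D : Bk p x m a e)

/-- The sum over the block. -/
def sum {M : Type*} [AddCommMonoid M] (F : IrrCharacter G → M) : M :=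
  ∑ χ ∈ D.X, F χ + ∑ χ ∈ D.Y, F χ

omit [Finite G] in
theorem ne_one (h : P1 p x) : x ≠ 1 := fun h1 => hp.out.one_lt.ne (by rw [← h.ord, h1, orderOf_one])

theorem deg_X (h : P1 p x) {χ : IrrCharacter G} (hχ : χ ∈ D.X) :
    (charDegree χ.1 : ℤ) ≡ D.σ χ * m [ZMOD p] := by
  simpa only [h.card] using CL.Cyc.modEq_of_val χ.2.isCharacter _ (D.val_X χ hχ)

omit [Finite G] in
theorem Y_eq {θ θ' : IrrCharacter G} (h : θ ∈ D.Y) (h' : θ' ∈ D.Y) {g : G} (hg : ¬ p ∣ orderOf g) :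
    θ.1 g = θ'.1 g := by
  have := (D.eqn θ h g hg).symm.trans (D.eqn θ' h' g hg)
  rcases D.ε_sign with h | h <;> simpa [h] using this

omit [Finite G] in
theorem deg_Y_eq {θ θ' : IrrCharacter G} (h : θ ∈ D.Y) (h' : θ' ∈ D.Y) :
    charDegree θ.1 = charDegree θ'.1 := by
  rw [charDegree, charDegree, D.Y_eq h h' (CL.Blk.not_dvd_orderOf_one hp.out)]

omit [Finite G] in
theorem Y_nonempty : D.Y.Nonempty := Finset.card_pos.1 (Nat.pos_of_ne_zero fun h => by
  have := D.card_Y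
  rw [h] at this
  exact hp.out.one_lt.ne (by omega))

theorem not_dvd (h : P1 p x) (hm : ¬ p ∣ m) (he : ¬ p ∣ e) {χ : IrrCharacter G}
    (hχ : χ ∈ D.X ∨ χ ∈ D.Y) : ¬ p ∣ charDegree χ.1 := fun h1 => by
  have h2 : (p : ℤ) ∣ charDegree χ.1 := Int.natCast_dvd_natCast.2 h1
  rcases hχ with hχ | hχ
  · have := (D.deg_X h hχ).dvd_iff.1 h2
    rcases D.σ_sign χ hχ with h | h <;> simp [h, Int.natCast_dvd_natCast, hm] at this
  · have := (D.deg_Y χ hχ).dvd_iff.1 h2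
    rw [← Nat.cast_mul] at this
    have h3 : ¬ p ∣ e * m := fun h => (hp.out.dvd_mul.1 h).elim he hm
    rcases D.ε_sign with h | h <;>
      simp only [h, one_mul, neg_mul, dvd_neg, Int.natCast_dvd_natCast, h3] at this

theorem re_Y (h : P1 p x) (hf : 2 * (expA p x).card + 1 = p) (hn : ¬ IsConj x x⁻¹) (ha : 0 < a)
    {θ : IrrCharacter G} (hθ : θ ∈ D.Y) : 2 * (θ.1 x).re = -(D.ε * a) ∧ (θ.1 x).im ≠ 0 := by
  obtain ⟨φ, h1, h2⟩ := D.val_Y θ hθ
  have := Fact.mk hp.out.one_lt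
  have h3 := h2 1 one_ne_zero
  have h4 := h2 (-1) (neg_ne_zero.2 one_ne_zero)
  rw [ZMod.val_one, pow_one] at h3
  rw [h.pow_val_neg_one, θ.2.apply_inv] at h4
  have h5 : Disjoint (expA p x) ((expA p x).image Neg.neg) := Finset.disjoint_left.2 fun b hb hb' => by
    obtain ⟨c, hc, rfl⟩ := Finset.mem_image.1 hb'
    have h6 : ∀ k : ℕ, c ^ k ∈ expA p x := fun k => by
      induction k with
      | zero => simpa using one_mem_expA x
      | succ k ih => exact pow_succ c k ▸ h.mul_mem ih hc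
    have h7 := h.mul_mem hb (h6 (p - 2))
    rw [neg_mul, ← pow_succ', show p - 2 + 1 = p - 1 by have := hp.out.two_le; omega,
      ZMod.pow_card_sub_one_eq_one (h.ne_zero_of_mem hc), mem_expA, h.pow_val_neg_one] at h7
    exact hn h7
  have h6 : expA p x ∪ (expA p x).image Neg.neg = Finset.univ.erase 0 := by
    refine Finset.eq_of_subset_of_card_le (fun b hb => ?_) ?_
    · rcases Finset.mem_union.1 hb with hb | hb
      · simp [h.ne_zero_of_mem hb]
      · obtain ⟨c, hc, rfl⟩ := Finset.mem_image.1 hb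
        simp [h.ne_zero_of_mem hc]
    · rw [Finset.card_union_of_disjoint h5, Finset.card_image_of_injective _ neg_injective,
        Finset.card_erase_of_mem (Finset.mem_univ _), Finset.card_univ, ZMod.card]
      omega
  have h7 : ∑ b ∈ expA p x, φ (b * 1) + ∑ b ∈ expA p x, φ (b * -1) = -1 := by
    have h8 := AddChar.sum_eq_zero_of_ne_one (ψ := φ) (by simpa using h1 one_ne_zero)
    rw [← Finset.add_sum_erase _ _ (Finset.mem_univ 0), ← h6, Finset.sum_union h5,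
      Finset.sum_image neg_injective.injOn, AddChar.map_zero_eq_one] at h8
    simp only [mul_one, mul_neg]
    linear_combination h8
  have h8 : θ.1 x + conj (θ.1 x) = -(D.ε * a) := by rw [h4, h3]; linear_combination D.ε * a * h7
  refine ⟨by simpa [two_mul] using congrArg Complex.re h8, fun h9 => ?_⟩
  rw [Complex.conj_eq_iff_im.2 h9, h3] at h8
  have h10 : IsIntegral ℤ (∑ b ∈ expA p x, φ (b * 1)) := IsIntegral.sum _ fun b _ =>
    IsIntegral.of_pow hp.out.pos (by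
      rw [← AddChar.map_nsmul_eq_pow, nsmul_eq_mul, ZMod.natCast_self, zero_mul,
        AddChar.map_zero_eq_one]
      exact isIntegral_one)
  have h11 : (D.ε : ℂ) * a ≠ 0 := by rcases D.ε_sign with h | h <;> simp [h, ha.ne']
  rw [show ∑ b ∈ expA p x, φ (b * 1) = ((-1 : ℤ) : ℂ) / (2 : ℕ) from mul_left_cancel₀ h11 (by
    push_cast; linear_combination h8 / 2)] at h10
  have := CL.D1.dvd_of_isIntegral_div two_pos h10
  omega

omit [Finite G] in
theorem val_Y1 (he : e + 1 = p) {θ : IrrCharacter G} (hθ : θ ∈ D.Y) {z : G} (hz : z ∈ zpowers x)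
    (h1 : z ≠ 1) : θ.1 z = (-(D.ε * m) : ℤ) := by
  have h2 := D.card_Y
  have := hp.out.one_lt
  obtain ⟨θ', h3⟩ := Finset.card_eq_one.1 (show D.Y.card = 1 from
    Nat.eq_of_mul_eq_mul_right (by omega : 0 < e) (by omega))
  have h4 := D.sum_Y z hz h1
  rw [h3, Finset.mem_singleton] at hθ
  rwa [h3, Finset.sum_singleton, ← hθ] at h4

end Bk

open CL.Cyc CL.Blk in
theorem col_ker (h : P1 p x) {g : centralizer (zpowers x : Set G)} (hg : ¬ p ∣ orderOf g) :
    (p : ℝ) * ∑ θ with InKer (zpowers x) θ, ‖θ.1 g‖ ^ 2 =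
      Nat.card ↥(centralizer ({x} : Set G) ⊓ centralizer ({(g : G)} : Set G)) := by
  set N := (zpowers x).subgroupOf (centralizer (zpowers x : Set G))
  have : N.Normal := normal_subgroupOf_of_le_normalizer (centralizer_le_normalizer _)
  have := Fintype.ofFinite N
  have hN : Nat.card N = p := (Nat.card_congr (subgroupOfEquivOfLe
    (le_centralizer_of_isCyclic inferInstance)).toEquiv).trans h.card
  have h1 : ∀ θ : IrrCharacter (centralizer (zpowers x : Set G)), ∑ n : N, θ.1 (n * g) =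
      if InKer (zpowers x) θ then p * θ.1 g else 0 := fun θ => by
    have h2 := blockPart_kerSet (N := N) θ.2.isClassFunction g
    rw [blockPart_irr, hN] at h2
    have h3 : (p : ℂ) ≠ 0 := Nat.cast_ne_zero.2 hp.out.ne_zero
    have h4 : θ ∈ kerSet N ↔ InKer (zpowers x) θ := Iff.rfl
    rw [← mul_inv_cancel_left₀ h3 (Finset.sum _ _), ← h2]
    split_ifs <;> simp_all
  have h2 : ∑ n : N, ∑ θ : IrrCharacter (centralizer (zpowers x : Set G)),
      θ.1 (n * g) * conj (θ.1 g) = Nat.card (centralizer ({g} : Set (centralizer (zpowers x : Set G)))) := by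
    rw [Finset.sum_eq_single 1, OneMemClass.coe_one, one_mul, column_conj (IsConj.refl _)]
    · refine fun n _ hn => column_not_conj fun hc => hg ?_
      rw [← hc.orderOf_eq']
      refine dvd_orderOf_mul_of_ne_one hp.out (Subtype.ext (mem_centralizer_iff.1 g.2 _ n.2)) ⟨1, ?_⟩
        hg fun h => hn (Subtype.ext h)
      rw [pow_one, orderOf_coe]
      exact orderOf_eq_prime (by rw [← hN, pow_card_eq_one']) hn
    · simp
  rw [Finset.sum_comm] at h2
  simp only [← Finset.sum_mul, h1, ite_mul, zero_mul, mul_assoc, Complex.mul_conj,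
    Complex.normSq_eq_norm_sq, ← Finset.sum_filter, ← Finset.mul_sum] at h2
  rw [← CL.Small.centralizer_zpowers_eq, ← Nat.card_congr (subgroupOfEquivOfLe inf_le_left).toEquiv,
    inf_subgroupOf_left, show (centralizer ({(g : G)} : Set G)).subgroupOf _ = centralizer {g} by
      ext; simp [mem_subgroupOf, mem_centralizer_singleton_iff, Subtype.ext_iff]]
  exact_mod_cast h2

open CL.Cyc in
theorem ker_degs (h : P1 p x) {c b : ℕ} (hc : Nat.card (centralizer ({x} : Set G)) = p * c) {g : G}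
    (hg : ¬ p ∣ orderOf g) (hgx : Commute g x)
    (hb : Nat.card ↥(centralizer ({x} : Set G) ⊓ centralizer ({g} : Set G)) ≤ p * b) :
    ∃ K₁ K₂ : Finset (IrrCharacter (centralizer (zpowers x : Set G))), irrOne _ ∈ K₁ ∧
      (∀ θ, θ ∈ K₁ ↔ InKer (zpowers x) θ ∧ charDegree θ.1 = 1) ∧
      (∀ θ, θ ∈ K₂ ↔ InKer (zpowers x) θ ∧ 2 ≤ charDegree θ.1) ∧ K₁.card ≤ b ∧
      K₁.card + ∑ θ ∈ K₂, charDegree θ.1 ^ 2 = c := by
  have hp0 : (0 : ℝ) < p := Nat.cast_pos.2 hp.out.pos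
  refine ⟨Finset.univ.filter fun θ => InKer (zpowers x) θ ∧ charDegree θ.1 = 1,
    Finset.univ.filter fun θ => InKer (zpowers x) θ ∧ 2 ≤ charDegree θ.1,
    by simpa using ⟨fun _ _ => rfl, charDegree_const_one⟩, by simp, by simp, ?_, ?_⟩
  · have h1 := col_ker h (g := ⟨g, by
      rw [CL.Small.centralizer_zpowers_eq]; exact mem_centralizer_singleton_iff.2 hgx⟩)
      (by rwa [← orderOf_coe])
    rw [← Nat.cast_le (α := ℝ), ← h1, Nat.cast_mul, mul_le_mul_iff_right₀ hp0] at hb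
    rw [← Nat.cast_le (α := ℝ), Finset.card_eq_sum_ones, Nat.cast_sum]
    refine le_trans ?_ hb
    rw [← Finset.filter_filter, Finset.sum_filter]
    refine Finset.sum_le_sum fun θ _ => ?_
    split_ifs with h2
    · rw [θ.2.isCharacter.norm_eq_one_of_apply_one (by rw [θ.2.apply_one_eq_charDegree, h2]; simp)]
      simp
    · positivity
  · have h1 := col_ker h (g := 1) (CL.Blk.not_dvd_orderOf_one hp.out)
    rw [show centralizer ({((1 : centralizer (zpowers x : Set G)) : G)} : Set G) = ⊤ by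
      ext; simp [mem_centralizer_singleton_iff], inf_top_eq, hc, Nat.cast_mul,
      mul_right_inj' hp0.ne'] at h1
    simp only [IsIrrCharacter.apply_one_eq_charDegree (Subtype.property _), Complex.norm_natCast] at h1
    norm_cast at h1
    rw [← h1, ← Finset.filter_filter, ← Finset.filter_filter, Finset.card_eq_sum_ones,
      Finset.sum_filter, Finset.sum_filter (s := Finset.filter _ _), ← Finset.sum_add_distrib]
    refine Finset.sum_congr rfl fun θ _ => ?_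
    have := θ.2.charDegree_pos
    split_ifs with h2 h3 h3
    · omega
    · exact (congrArg (· ^ 2) h2).symm
    · exact zero_add _
    · omega

open CL.Cyc in
theorem exists_dec (h : P1 p x) (R : Finset (IrrCharacter (centralizer (zpowers x : Set G))))
    (k : IrrCharacter (centralizer (zpowers x : Set G)) → ℕ) (h1 : ∀ θ ∈ R, InKer (zpowers x) θ ∧
      (MulAction.orbit (normalizer (zpowers x : Set G)) θ).ncard = k θ ∧ ¬ p ∣ charDegree θ.1)
    (h2 : ∀ θ, InKer (zpowers x) θ → ∃ r ∈ R, ∃ n : normalizer (zpowers x : Set G), n • r = θ)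
    (h3 : ∀ θ ∈ R, ∀ θ' ∈ R, ∀ n : normalizer (zpowers x : Set G), n • θ' = θ → θ = θ') :
    ∃ D : ∀ θ : R, Bk p x (k θ * charDegree θ.1.1) (charDegree θ.1.1) ((expA p x).card / k θ),
      (∀ h : irrOne _ ∈ R, irrOne G ∈ (D ⟨_, h⟩).X ∨ irrOne G ∈ (D ⟨_, h⟩).Y) ∧
      ∀ (M : Type) [AddCommMonoid M] (F : IrrCharacter G → M),
        ∑ χ with ¬ p ∣ charDegree χ.1, F χ = ∑ θ, (D θ).sum F := by
  obtain ⟨e, A, a1, a2, a3, a4, a5⟩ := exists_blocks h
  have hf : ∀ θ ∈ R, k θ * e θ = (expA p x).card := fun θ hθ => by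
    have h4 := (MulAction.stabilizer (normalizer (zpowers x : Set G)) θ).index_mul_card
    rw [MulAction.index_stabilizer, (h1 θ hθ).2.1, (a1 θ (h1 θ hθ).1).1, h.card_normalizer, ← CL.Small.centralizer_zpowers_eq,
      mul_left_comm, mul_comm] at h4
    exact Nat.eq_of_mul_eq_mul_right Nat.card_pos h4
  have h0 : ¬ p ∣ (expA p x).card := fun h4 => by
    have := hp.out.two_le
    have := Nat.le_of_dvd (by omega) (h4.trans h.card_expA_dvd)
    omega
  have key : ∀ θ : R, ∃ D : Bk p x (k θ * charDegree θ.1.1) (charDegree θ.1.1)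
      ((expA p x).card / k θ), ∀ χ, χ ∈ A θ ↔ χ ∈ D.X ∨ χ ∈ D.Y := fun θ => by
    have h4 := (a1 θ (h1 θ θ.2).1).2
    have h5 := hf θ θ.2
    have h6 : k θ * e θ ≠ 0 := fun h => h0 (by rw [← h5, h]; exact dvd_zero _)
    rw [Nat.div_eq_of_eq_mul_right (by positivity [left_ne_zero_of_mul h6]) h5.symm]
    rwa [Nat.div_eq_of_eq_mul_left (by positivity [right_ne_zero_of_mul h6]) h5.symm] at h4
  choose D hD using key
  refine ⟨D, fun h => (hD _ _).1 a5, fun M _ F => ?_⟩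
  rw [show (Finset.univ.filter fun χ : IrrCharacter G => ¬ p ∣ charDegree χ.1) =
    Finset.univ.biUnion fun θ : R => (D θ).X ∪ (D θ).Y from Finset.ext fun χ => ?_,
    Finset.sum_biUnion fun θ _ θ' _ h4 => Finset.disjoint_left.2 fun χ h5 h6 => ?_]
  · exact Finset.sum_congr rfl fun θ _ => Finset.sum_union (D θ).disj
  · rw [Finset.mem_union, ← hD] at h5 h6
    obtain ⟨n, hn⟩ := a4 _ _ (h1 _ θ.2).1 (h1 _ θ'.2).1 χ h5 h6
    exact h4 (Subtype.ext (h3 _ θ.2 _ θ'.2 n hn))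
  simp only [Finset.mem_filter, Finset.mem_univ, true_and, Finset.mem_biUnion, Finset.mem_union]
  refine ⟨fun h4 => ?_, fun ⟨θ, h4⟩ => (D θ).not_dvd h (fun h5 => ?_) (fun h5 => ?_) h4⟩
  · obtain ⟨θ, h5, h6⟩ := a2 χ h4
    obtain ⟨r, h7, n, rfl⟩ := h2 θ h5
    exact ⟨⟨r, h7⟩, (hD _ _).1 (a3 r (h1 r h7).1 n ▸ h6)⟩
  · exact (hp.out.dvd_mul.1 h5).elim (fun h5 => h0 (hf θ θ.2 ▸ h5.mul_right _)) (h1 θ θ.2).2.2
  · exact h0 (h5.trans (Nat.div_dvd_of_dvd ⟨_, (hf θ θ.2).symm⟩))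

omit [Finite G] in
open CL.Cyc in
theorem orbit_one {θ : IrrCharacter (centralizer (zpowers x : Set G))}
    (h : ∀ n : normalizer (zpowers x : Set G), n • θ = θ) :
    (MulAction.orbit (normalizer (zpowers x : Set G)) θ).ncard = 1 := by
  rw [show MulAction.orbit (normalizer (zpowers x : Set G)) θ = {θ} from
    Set.eq_singleton_iff_unique_mem.2 ⟨MulAction.mem_orbit_self _, by rintro _ ⟨n, rfl⟩; exact h n⟩,
    Set.ncard_singleton]

omit [Finite G] in
open CL.Cyc in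
theorem deg_smul (n : normalizer (zpowers x : Set G))
    (θ : IrrCharacter (centralizer (zpowers x : Set G))) :
    charDegree (n • θ).1 = charDegree θ.1 := by
  rw [charDegree, smul_irr_one, charDegree]

omit [Finite G] in
theorem Bk.cast {m a e m' a' e' : ℕ} (D : Bk p x m a e) (h1 : m = m') (h2 : a = a') (h3 : e = e') :
    ∃ E : Bk p x m' a' e', E.X = D.X ∧ E.Y = D.Y := by
  subst h1 h2 h3
  exact ⟨D, rfl, rfl⟩

open CL.Cyc in
theorem dec_one (h : P1 p x) (hc : Nat.card (centralizer ({x} : Set G)) = p) :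
    ∃ D : Bk p x 1 1 (expA p x).card, ∀ (M : Type) [AddCommMonoid M] (F : IrrCharacter G → M),
      ∑ χ with ¬ p ∣ charDegree χ.1, F χ = D.sum F := by
  obtain ⟨K₁, K₂, a1, a2, a3, -, a4⟩ := ker_degs h (b := 1) (hc.trans (mul_one p).symm)
    (CL.Blk.not_dvd_orderOf_one hp.out) (Commute.one_left x)
    ((card_le_of_le inf_le_left).trans_eq (by rw [hc, mul_one]))
  have a5 := Finset.card_pos.2 ⟨_, a1⟩
  have a6 : ∀ θ, InKer (zpowers x) θ → θ = irrOne _ := fun θ hθ => by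
    refine Finset.card_le_one.1 (by omega) _ ((a2 θ).2 ⟨hθ, by_contra fun h1 => ?_⟩) _ a1
    have := θ.2.charDegree_pos
    have h2 := Finset.single_le_sum (f := fun θ : IrrCharacter _ => charDegree θ.1 ^ 2)
      (fun _ _ => Nat.zero_le _) ((a3 θ).2 ⟨hθ, by omega⟩)
    have := Nat.pow_pos (n := 2) this
    omega
  have a7 := ((a2 _).1 a1).1
  obtain ⟨D, -, hD⟩ := exists_dec h {irrOne _} (fun _ => 1) (fun θ hθ => by
    rw [Finset.mem_singleton.1 hθ, ((a2 _).1 a1).2]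
    exact ⟨a7, orbit_one fun n => a6 _ (a7.smul n), hp.out.not_dvd_one⟩)
    (fun θ hθ => ⟨_, Finset.mem_singleton_self _, 1, by rw [one_smul, a6 θ hθ]⟩) (by simp)
  obtain ⟨E, b1, b2⟩ := (D ⟨_, Finset.mem_singleton_self _⟩).cast (m' := 1)
    (by rw [((a2 _).1 a1).2]) ((a2 _).1 a1).2 (Nat.div_one _)
  exact ⟨E, fun M _ F => by rw [hD, Finset.univ_unique, Finset.sum_singleton, Bk.sum, Bk.sum, b1, b2]; rfl⟩

theorem sum_sub3 {α M : Type*} [DecidableEq α] [AddCommMonoid M] {a b c : α} (h1 : a ≠ b) (h2 : a ≠ c) (h3 : b ≠ c)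
    (f : ({a, b, c} : Finset α) → M) :
    ∑ θ, f θ = f ⟨a, by simp⟩ + (f ⟨b, by simp⟩ + f ⟨c, by simp⟩) := by
  rw [show (Finset.univ : Finset ({a, b, c} : Finset α)) =
    {⟨a, by simp⟩, ⟨b, by simp⟩, ⟨c, by simp⟩} from Finset.ext fun ⟨a, ha⟩ => by
      simpa only [Finset.mem_univ, true_iff, Finset.mem_insert, Finset.mem_singleton,
        Subtype.mk.injEq] using ha,
    Finset.sum_insert (by simp [*]), Finset.sum_pair (by simp [*])]

theorem sum_sub4 {α M : Type*} [DecidableEq α] [AddCommMonoid M] {a b c d : α} (h1 : a ≠ b) (h2 : a ≠ c) (h3 : b ≠ c)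
    (h4 : a ≠ d) (h5 : b ≠ d) (h6 : c ≠ d) (f : ({a, b, c, d} : Finset α) → M) :
    ∑ θ, f θ = f ⟨a, by simp⟩ + (f ⟨b, by simp⟩ + (f ⟨c, by simp⟩ + f ⟨d, by simp⟩)) := by
  rw [show (Finset.univ : Finset ({a, b, c, d} : Finset α)) =
    {⟨a, by simp⟩, ⟨b, by simp⟩, ⟨c, by simp⟩, ⟨d, by simp⟩} from Finset.ext fun ⟨a, ha⟩ => by
      simpa only [Finset.mem_univ, true_iff, Finset.mem_insert, Finset.mem_singleton,
        Subtype.mk.injEq] using ha,
    Finset.sum_insert (by simp [*]), Finset.sum_insert (by simp [*]), Finset.sum_pair (by simp [*])]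

theorem sq_cases {α : Type*} {K : Finset α} {d : α → ℕ} (h : ∀ a ∈ K, 2 ≤ d a) {s : ℕ}
    (hs : ∑ a ∈ K, d a ^ 2 = s) (h1 : s ≠ 0) (h2 : s ≠ 8) (h3 : s ≤ 11) :
    ∃ a, K = {a} ∧ d a ^ 2 = s := by
  have h4 : K.card * 4 ≤ s := by
    rw [← hs, ← smul_eq_mul, ← Finset.sum_const]
    exact Finset.sum_le_sum fun a ha => Nat.pow_le_pow_left (h a ha) 2
  obtain h5 | h5 | h5 : K.card = 0 ∨ K.card = 1 ∨ K.card = 2 := by omega
  · simp [Finset.card_eq_zero.1 h5, h1.symm] at hs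
  · obtain ⟨a, rfl⟩ := Finset.card_eq_one.1 h5
    exact ⟨a, rfl, by simpa using hs⟩
  · obtain ⟨a, b, h6, rfl⟩ := Finset.card_eq_two.1 h5
    rw [Finset.sum_pair h6] at hs
    have h7 := h a (by simp)
    have h8 := h b (by simp)
    have : d a ≤ 2 := by nlinarith
    have : d b ≤ 2 := by nlinarith
    rw [show d a = 2 by omega, show d b = 2 by omega] at hs
    omega

open CL.Cyc in
theorem dec_six (h : P1 p x) (hp2 : p ≠ 2) (hc : Nat.card (centralizer ({x} : Set G)) = p * 6) {g : G}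
    (hg : ¬ p ∣ orderOf g) (hgx : Commute g x)
    (hb : Nat.card ↥(centralizer ({x} : Set G) ⊓ centralizer ({g} : Set G)) ≤ p * 2) :
    ∃ (D₀ D₁ : Bk p x 1 1 (expA p x).card) (D₂ : Bk p x 2 2 (expA p x).card),
      (irrOne G ∈ D₀.X ∨ irrOne G ∈ D₀.Y) ∧ ∀ (M : Type) [AddCommMonoid M] (F : IrrCharacter G → M),
        ∑ χ with ¬ p ∣ charDegree χ.1, F χ = D₀.sum F + (D₁.sum F + D₂.sum F) := by
  obtain ⟨K₁, K₂, a1, a2, a3, a4, a5⟩ := ker_degs h hc hg hgx hb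
  have a6 := Finset.card_pos.2 ⟨_, a1⟩
  obtain ⟨τ, rfl, b1⟩ := sq_cases (fun θ hθ => ((a3 θ).1 hθ).2) rfl (by omega) (by omega) (by omega)
  have b2 := (a3 τ).1 (by simp)
  have b3 : charDegree τ.1 = 2 := by
    rw [← b1] at a5
    nlinarith
  obtain ⟨σ, b4⟩ := Finset.card_eq_one.1 (show (K₁.erase (irrOne _)).card = 1 by
    rw [← b1, b3] at a5; rw [Finset.card_erase_of_mem a1]; omega)
  have b5 := Finset.mem_erase.1 (b4 ▸ Finset.mem_singleton_self σ)
  have b6 := (a2 _).1 a1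
  have b7 := (a2 _).1 b5.2
  have b8 : ∀ θ, InKer (zpowers x) θ → charDegree θ.1 = 1 → θ ≠ irrOne _ → θ = σ := fun θ h1 h2 h3 =>
    Finset.mem_singleton.1 (b4 ▸ Finset.mem_erase.2 ⟨h3, (a2 θ).2 ⟨h1, h2⟩⟩)
  have b9 : ∀ θ, InKer (zpowers x) θ → charDegree θ.1 ≠ 1 → θ = τ := fun θ h1 h2 =>
    Finset.mem_singleton.1 ((a3 θ).2 ⟨h1, by have := θ.2.charDegree_pos; omega⟩)
  have c1 : ∀ θ, InKer (zpowers x) θ → ∀ n : normalizer (zpowers x : Set G), n • θ = θ := by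
    intro θ hθ n
    by_cases h1 : θ = irrOne _
    · rw [h1]; rfl
    by_cases h2 : charDegree θ.1 = 1
    · rw [b8 _ (hθ.smul n) (by rw [deg_smul, h2]) fun h => h1 (smul_eq_iff_eq_inv_smul n |>.1 h),
        b8 θ hθ h2 h1]
    · rw [b9 _ (hθ.smul n) (by rwa [deg_smul]), b9 θ hθ h2]
  have c2 : ∀ θ ∈ ({irrOne _, σ, τ} : Finset _), InKer (zpowers x) θ ∧ ¬ p ∣ charDegree θ.1 := by
    have := hp.out.not_dvd_one
    have := mt (Nat.prime_dvd_prime_iff_eq hp.out Nat.prime_two).1 hp2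
    simp only [Finset.mem_insert, Finset.mem_singleton, forall_eq_or_imp, forall_eq]
    exact ⟨⟨b6.1, by rwa [b6.2]⟩, ⟨b7.1, by rwa [b7.2]⟩, b2.1, by rwa [b3]⟩
  obtain ⟨D, d1, d2⟩ := exists_dec h {irrOne _, σ, τ} (fun _ => 1)
    (fun θ hθ => ⟨(c2 θ hθ).1, orbit_one (c1 θ (c2 θ hθ).1), (c2 θ hθ).2⟩)
    (fun θ hθ => ⟨θ, by
      simp only [Finset.mem_insert, Finset.mem_singleton]
      have := b8 θ hθ
      have := b9 θ hθ
      tauto, 1, one_smul _ _⟩)
    fun θ _ θ' hθ n h => by rw [← h, c1 θ' (c2 θ' hθ).1]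
  obtain ⟨E₀, e1, e2⟩ := (D ⟨irrOne _, by simp⟩).cast (m' := 1) (by rw [b6.2]) b6.2 (Nat.div_one _)
  obtain ⟨E₁, e3, e4⟩ := (D ⟨σ, by simp⟩).cast (m' := 1) (by rw [b7.2]) b7.2 (Nat.div_one _)
  obtain ⟨E₂, e5, e6⟩ := (D ⟨τ, by simp⟩).cast (m' := 2) (by rw [b3]) b3 (Nat.div_one _)
  refine ⟨E₀, E₁, E₂, e1 ▸ e2 ▸ d1 _, fun M _ F => ?_⟩
  rw [d2, sum_sub3 b5.1.symm (fun h => by rw [← h] at b3; omega) fun h => by rw [← h] at b3; omega]
  simp only [Bk.sum, e1, e2, e3, e4, e5, e6]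

open CL.Cyc in
theorem dec_twelve (h : P1 p x) (hp3 : p ≠ 3) (hc : Nat.card (centralizer ({x} : Set G)) = p * 12)
    {g : G} (hg : ¬ p ∣ orderOf g) (hgx : Commute g x)
    (hb : Nat.card ↥(centralizer ({x} : Set G) ⊓ centralizer ({g} : Set G)) ≤ p * 3) :
    ∃ (D₀ : Bk p x 1 1 (expA p x).card) (D₃ : Bk p x 3 3 (expA p x).card),
      (irrOne G ∈ D₀.X ∨ irrOne G ∈ D₀.Y) ∧
      ((∃ D₁ : Bk p x 2 1 ((expA p x).card / 2), ∀ (M : Type) [AddCommMonoid M]
        (F : IrrCharacter G → M),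
          ∑ χ with ¬ p ∣ charDegree χ.1, F χ = D₀.sum F + (D₁.sum F + D₃.sum F)) ∨
      ∃ D₁ D₂ : Bk p x 1 1 (expA p x).card, ∀ (M : Type) [AddCommMonoid M] (F : IrrCharacter G → M),
        ∑ χ with ¬ p ∣ charDegree χ.1, F χ = D₀.sum F + (D₁.sum F + (D₂.sum F + D₃.sum F))) := by
  obtain ⟨K₁, K₂, a1, a2, a3, a4, a5⟩ := ker_degs h hc hg hgx hb
  have a6 := Finset.card_pos.2 ⟨_, a1⟩
  obtain ⟨τ, rfl, b1⟩ := sq_cases (fun θ hθ => ((a3 θ).1 hθ).2) rfl (by omega) (by omega) (by omega)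
  have b2 := (a3 τ).1 (by simp)
  have b3 : charDegree τ.1 = 3 := by
    rw [← b1] at a5
    nlinarith
  obtain ⟨σ, ρ, b0, b4⟩ := Finset.card_eq_two.1 (show (K₁.erase (irrOne _)).card = 2 by
    rw [← b1, b3] at a5; rw [Finset.card_erase_of_mem a1]; omega)
  have b5 := Finset.mem_erase.1 (b4 ▸ Finset.mem_insert_self σ _)
  have b5' := Finset.mem_erase.1 (b4 ▸ Finset.mem_insert_of_mem (Finset.mem_singleton_self ρ))
  have b6 := (a2 _).1 a1
  have b7 := (a2 _).1 b5.2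
  have b7' := (a2 _).1 b5'.2
  have b8 : ∀ θ, InKer (zpowers x) θ → charDegree θ.1 = 1 → θ ≠ irrOne _ → θ = σ ∨ θ = ρ :=
    fun θ h1 h2 h3 => by simpa [b4] using Finset.mem_erase.2 ⟨h3, (a2 θ).2 ⟨h1, h2⟩⟩
  have b9 : ∀ θ, InKer (zpowers x) θ → charDegree θ.1 ≠ 1 → θ = τ := fun θ h1 h2 =>
    Finset.mem_singleton.1 ((a3 θ).2 ⟨h1, by have := θ.2.charDegree_pos; omega⟩)
  have c0 : ∀ n : normalizer (zpowers x : Set G), n • irrOne (centralizer (zpowers x : Set G)) =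
    irrOne _ := fun _ => rfl
  have c1 : ∀ n : normalizer (zpowers x : Set G), n • τ = τ := fun n =>
    b9 _ (b2.1.smul n) (by rw [deg_smul]; omega)
  have c2 : ∀ θ, InKer (zpowers x) θ → charDegree θ.1 = 1 → θ ≠ irrOne _ →
      ∀ n : normalizer (zpowers x : Set G), n • θ = σ ∨ n • θ = ρ := fun θ h1 h2 h3 n =>
    b8 _ (h1.smul n) (by rw [deg_smul, h2]) fun h => h3 (smul_eq_iff_eq_inv_smul n |>.1 h)
  have c3 := hp.out.not_dvd_one
  have c4 := mt (Nat.prime_dvd_prime_iff_eq hp.out Nat.prime_three).1 hp3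
  have n1 : τ ≠ σ := fun h => by rw [h] at b3; omega
  have n2 : τ ≠ ρ := fun h => by rw [h] at b3; omega
  have n3 : τ ≠ irrOne _ := fun h => by rw [h] at b3; omega
  by_cases c5 : ∃ n : normalizer (zpowers x : Set G), n • σ = ρ
  · obtain ⟨D, d1, d2⟩ := exists_dec h {irrOne _, σ, τ} (fun θ => if θ = σ then 2 else 1) (by
      simp only [Finset.mem_insert, Finset.mem_singleton, forall_eq_or_imp, forall_eq]
      refine ⟨⟨b6.1, by simp [orbit_one c0, b5.1.symm], by rwa [b6.2]⟩, ⟨b7.1, ?_, by rwa [b7.2]⟩,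
        b2.1, by simp [orbit_one c1, n1], by rwa [b3]⟩
      rw [if_pos trivial, ← Set.ncard_pair b0]
      refine congrArg _ (Set.Subset.antisymm ?_ ?_)
      · rintro _ ⟨n, rfl⟩
        exact c2 σ b7.1 b7.2 b5.1 n
      · rintro _ (rfl | rfl)
        exacts [MulAction.mem_orbit_self _, c5])
      (fun θ hθ => by
        by_cases h1 : θ = ρ
        · exact ⟨σ, by simp, h1 ▸ c5⟩
        refine ⟨θ, ?_, 1, one_smul _ _⟩
        simp only [Finset.mem_insert, Finset.mem_singleton]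
        have := b8 θ hθ
        have := b9 θ hθ
        tauto) (by
      simp only [Finset.mem_insert, Finset.mem_singleton]
      rintro θ h1 θ' (rfl | rfl | rfl) n rfl
      · rfl
      · have := c2 _ b7.1 b7.2 b5.1 n
        grind
      · exact c1 n)
    obtain ⟨E₀, e1, e2⟩ := (D ⟨irrOne _, by simp⟩).cast (m' := 1) (e' := (expA p x).card)
      (by simp [b6.2, b5.1.symm]) b6.2 (by simp [b5.1.symm])
    obtain ⟨E₁, e3, e4⟩ := (D ⟨σ, by simp⟩).cast (m' := 2) (e' := (expA p x).card / 2)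
      (by simp [b7.2]) b7.2 (by simp)
    obtain ⟨E₂, e5, e6⟩ := (D ⟨τ, by simp⟩).cast (m' := 3) (e' := (expA p x).card)
      (by simp [n1, b3]) b3 (by simp [n1])
    refine ⟨E₀, E₂, e1 ▸ e2 ▸ d1 _, .inl ⟨E₁, fun M _ F => ?_⟩⟩
    rw [d2, sum_sub3 b5.1.symm n3.symm n1.symm]
    simp only [Bk.sum, e1, e2, e3, e4, e5, e6]
  have c6 : ∀ θ ∈ ({irrOne _, σ, ρ, τ} : Finset _), InKer (zpowers x) θ ∧ ¬ p ∣ charDegree θ.1 ∧
      ∀ n : normalizer (zpowers x : Set G), n • θ = θ := by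
    simp only [Finset.mem_insert, Finset.mem_singleton, forall_eq_or_imp, forall_eq]
    exact ⟨⟨b6.1, by rwa [b6.2], c0⟩, ⟨b7.1, by rwa [b7.2], fun n =>
      (c2 σ b7.1 b7.2 b5.1 n).resolve_right fun h => c5 ⟨n, h⟩⟩, ⟨b7'.1, by rwa [b7'.2], fun n =>
      (c2 ρ b7'.1 b7'.2 b5'.1 n).resolve_left fun h => c5 ⟨n⁻¹, by rw [← h, inv_smul_smul]⟩⟩,
      b2.1, by rwa [b3], c1⟩
  obtain ⟨D, d1, d2⟩ := exists_dec h {irrOne _, σ, ρ, τ} (fun _ => 1)
    (fun θ hθ => ⟨(c6 θ hθ).1, orbit_one (c6 θ hθ).2.2, (c6 θ hθ).2.1⟩)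
    (fun θ hθ => ⟨θ, by
      simp only [Finset.mem_insert, Finset.mem_singleton]
      have := b8 θ hθ
      have := b9 θ hθ
      tauto, 1, one_smul _ _⟩)
    fun θ _ θ' hθ n h => by rw [← h, (c6 θ' hθ).2.2]
  obtain ⟨E₀, e1, e2⟩ := (D ⟨irrOne _, by simp⟩).cast (m' := 1) (by rw [b6.2]) b6.2 (Nat.div_one _)
  obtain ⟨E₁, e3, e4⟩ := (D ⟨σ, by simp⟩).cast (m' := 1) (by rw [b7.2]) b7.2 (Nat.div_one _)
  obtain ⟨E₂, e5, e6⟩ := (D ⟨ρ, by simp⟩).cast (m' := 1) (by rw [b7'.2]) b7'.2 (Nat.div_one _)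
  obtain ⟨E₃, e7, e8⟩ := (D ⟨τ, by simp⟩).cast (m' := 3) (by rw [b3]) b3 (Nat.div_one _)
  refine ⟨E₀, E₃, e1 ▸ e2 ▸ d1 _, .inr ⟨E₁, E₂, fun M _ F => ?_⟩⟩
  rw [d2, sum_sub4 b5.1.symm b5'.1.symm b0 n3.symm n1.symm n2.symm]
  simp only [Bk.sum, e1, e2, e3, e4, e5, e6, e7, e8]

end CL.OJ
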