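import Cfsg.Agent.SPOR.OrdJoin
import Cfsg.Agent.INV.FixDim

/-! The sieve for the orders dividing the order of `U₃(8)`. -/

set_option autoImplicit false
open Cfsg Subgroup CL.Ord CL.Small CL.OJ CL.Char

namespace CL.OU

variable {G : Type*} [Group G] [Finite G]

/-- values at an involution inverting a self-centralizing Sylow subgroup of order `p + 1` -/
theorem exists_inv {p : ℕ} {T : Tr} (h : IsTree G (p + 1) T) (hc : T.c = 1) (he : T.e = p)
    (hp : 2 ∣ p) : ∃ t : G, orderOf t = 2 ∧ ∀ χ : IrrCharacter G, χ ≠ irrOne G →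
      ¬ p + 1 ∣ charDegree χ.1 → ∀ a : ℤ, χ.1 t = a → ∃ k : ℕ, a.natAbs ≤ k ∧
        ((p + 1) * k = charDegree χ.1 + p ∨ (p + 1) * k + p = charDegree χ.1) := by
  classical
  have hC : ∀ x : G, orderOf x = p + 1 → Nat.card (centralizer ({x} : Set G)) = p + 1 :=
    fun x hx => by simpa [hc] using h.cent hx
  obtain ⟨hl, -, P, D, θ, L, hP, -, hN, -⟩ := h
  have := Fact.mk hl
  have := Fact.mk Nat.prime_two
  have := Fintype.ofFinite G
  obtain ⟨S, s, -, -, hS, hs, -⟩ := full_data D (by rw [he])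
  obtain ⟨t, ht, ht2⟩ := exists_mem_orderOf_eq_prime (normalizer ((P : Subgroup G) : Set G)) 2
    (hN ▸ (he ▸ hp).mul_left _)
  refine ⟨t, ht2, fun χ h1 h2 a ha => ?_⟩
  have ho : ∀ x ∈ (P : Subgroup G), x ≠ 1 → orderOf x = p + 1 := fun x hx =>
    orderOf_eq_of_card_prime hP hx
  obtain ⟨x, -, hx⟩ := exists_mem_orderOf_eq_prime (P : Subgroup G) (p + 1) (by rw [hP])
  obtain ⟨h3, h4⟩ := hs χ ((hS χ).2 (by_contra fun h3 =>
    h2 (D.dvd_of_notMem hx (hC x hx) h1 (fun h => h3 (.inl h)) fun h => h3 (.inr h))))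
  have hcm : ∀ x ∈ (P : Subgroup G), x * t = t * x → x = 1 := fun x hx h5 => by_contra fun h6 => by
    have := orderOf_dvd_card_of_mem (show t ∈ centralizer ({x} : Set G) from
      mem_centralizer_singleton_iff.2 h5.symm)
    rw [hC x (ho x hx h6), ht2] at this
    omega
  have hdj : ∀ x ∈ (P : Subgroup G), x ∈ zpowers t → x = 1 := fun x hx h5 =>
    hcm x hx (by obtain ⟨k, rfl⟩ := h5; exact ((Commute.refl t).zpow_left k).eq)
  obtain ⟨f, f1, f2, -⟩ := exists_fixDim χ.2.isCharacter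
  have hP' : Nat.card (P : Subgroup G) = p + 1 := hP
  have s1 : ∑ x : (P : Subgroup G), χ.1 x = charDegree χ.1 + p * s χ := by
    rw [← Finset.add_sum_erase _ _ (Finset.mem_univ 1), Finset.sum_congr rfl
      (g := fun _ => (s χ : ℂ)) fun (x : (P : Subgroup G)) hx =>
        h4 x (ho x x.2 (by simpa using hx)).symm.dvd]
    simp [χ.2.apply_one_eq_charDegree, Finset.card_erase_of_mem, ← Nat.card_eq_fintype_card, hP']
  have s2 := f1 ((P : Subgroup G) ⊔ zpowers t)
  have s3 := f1 P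
  have s4 := f2 (le_sup_left : (P : Subgroup G) ≤ (P : Subgroup G) ⊔ zpowers t)
  rw [sum_sup (zpowers_le.2 ht) hdj, sum_zpowers_two ht2 fun a => ∑ x : (P : Subgroup G), χ.1 (x * a),
    sum_coset ht hcm χ.2.isClassFunction, CL.Small.card_sup_of_disjoint (zpowers_le.2 ht) hdj,
    Nat.card_zpowers, ht2, ha] at s2
  simp only [mul_one, s3] at s2
  rw [s1, hP'] at s3
  have s5 : (f P : ℤ) + a = 2 * f ((P : Subgroup G) ⊔ zpowers t) := by
    have : ((f P : ℤ) + a : ℂ) = 2 * f ((P : Subgroup G) ⊔ zpowers t) :=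
      mul_left_cancel₀ (Nat.cast_ne_zero.2 (Nat.card_pos (α := (P : Subgroup G))).ne')
        (by push_cast at s2 ⊢; linear_combination s2)
    exact_mod_cast this
  have s6 : (charDegree χ.1 + p * s χ : ℤ) = ((p + 1) * f P : ℕ) := by exact_mod_cast s3
  refine ⟨f P, by omega, ?_⟩
  rcases h3 with h3 | h3 <;> rw [h3] at s6 <;> omega

theorem le_bind {α β : Type} {s : Multiset (α × β)} {l : List α} {f : α → List β}
    (h : s.map Prod.fst ≤ l) (h' : ∀ r ∈ s, r.2 ∈ f r.1) :
    s ≤ ↑(l.flatMap fun d => (f d).map (d, ·)) := by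
  obtain ⟨u, hu⟩ := Multiset.le_iff_exists_add.1 h
  rw [← Multiset.coe_bind, hu, Multiset.add_bind]
  refine le_trans ?_ (Multiset.le_add_right _ _)
  clear h hu
  induction s using Multiset.induction_on with
  | empty => simp
  | cons a s ih =>
    rw [Multiset.map_cons, Multiset.cons_bind, ← Multiset.singleton_add]
    exact add_le_add (Multiset.singleton_le.2 (List.mem_map.2 ⟨_, h' a (Multiset.mem_cons_self _ _), rfl⟩))
      (ih fun r hr => h' r (Multiset.mem_cons_of_mem hr))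

def dv8 : List ℕ := dlist [(2, 9), (3, 4), (7, 1), (19, 1)]

def kv (d : ℕ) : List ℤ :=
  if d = 189 then [-7, -3, 1, 5, 9] else if d = 324 then [-16, -12, -8, -4, 0, 4, 8, 12, 16] else [0]

noncomputable def t18 (T : Tr) : Bool :=
  T.e == 18 && T.c == 1 && (T.degs 19).all ([18, 56, 96, 189, 324].contains ·) &&
    ((T.degs 19).contains 18 || (dv8.filter fun C => 344736 % C == 0).all fun C =>
      btest 344736 C 19 T [(19, (T.degs 19).flatMap fun d => (kv d).map (d, ·))] [] fun _ => false)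

theorem mem_dv8 {d : ℕ} (h : d ∣ 19 * 290304) : d ∈ dv8 := mem_dlist (by decide) h

theorem t18_spec [IsSimpleGroup G] (hG : ¬ IsMulCommutative G) (hn : Nat.card G = 344736) {T : Tr}
    (h : IsTree G 19 T) : t18 T = false := by
  classical
  by_contra! h0
  simp only [t18, ne_eq, Bool.not_eq_false, Bool.and_eq_true, beq_iff_eq, List.all_eq_true,
    Bool.or_eq_true, List.contains_iff_mem, List.mem_filter, and_imp] at h0
  obtain ⟨⟨⟨he, hc⟩, hd⟩, hb⟩ := h0
  obtain ⟨t, ht, h1⟩ := exists_inv (p := 18) h hc he (by norm_num)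
  have key : ∀ χ : IrrCharacter G, χ ≠ irrOne G → ¬ 19 ∣ charDegree χ.1 →
      charDegree χ.1 ≠ 18 ∧ (rk t χ).2 ∈ kv (charDegree χ.1) := fun χ h2 h3 => by
    obtain ⟨a, a1, a2, -⟩ := inv_val hG ht h2 rfl
    obtain ⟨k, k1, k2⟩ := h1 χ h2 h3 a a1
    have h4 := hd _ (h.deg_mem hc h2 h3)
    have h5 : charDegree χ.1 = 96 → a = 0 := fun h5 => by
      exact_mod_cast a1.symm.trans (vanish Nat.prime_two h5 (by rw [hn]; norm_num) ht.symm.dvd)
    rw [rk_spec a1]
    simp only [List.mem_cons, List.not_mem_nil, or_false] at h4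
    rcases h4 with h4 | h4 | h4 | h4 | h4 <;> rw [h4] at a2 k2 h5 ⊢ <;> simp [kv] <;> omega
  rcases hb with hb | hb
  · obtain ⟨χ, h2, h3⟩ := h.exists_deg hb
    exact (key χ h2 (by omega)).1 h3
  have h2 := hn ▸ card_subgroup_dvd_card (centralizer ({t} : Set G))
  refine absurd (btest_spec hG h ht (U := []) (fin := fun _ => false) ?_ (by simp)
    (hn ▸ hb _ (mem_dv8 (h2.trans (by norm_num))) (Nat.mod_eq_zero_of_dvd h2))) (by simp)
  rw [List.forall_mem_singleton]
  refine le_bind (le_trans (le_of_eq ?_) (h.degs_le.2 hc)) fun r hr => ?_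
  · rw [Rec, Rec, Multiset.filter_map, Multiset.filter_map, Multiset.map_map]; rfl
  · obtain ⟨h3, h4⟩ := Multiset.mem_filter.1 hr
    obtain ⟨χ, h5, rfl⟩ := Multiset.mem_map.1 h3
    exact (key χ (Finset.ne_of_mem_erase h5) h4).2

def D8 : List ℕ :=
  [1, 2, 3, 4, 6, 7, 8, 9, 12, 14, 16, 18, 21, 24, 27, 28, 32, 36, 42, 48, 54, 56, 63, 64, 72, 81,
    84, 96, 108, 112, 126, 128, 144, 162, 168, 189, 192, 216, 224, 252, 256, 288, 324, 336, 378,
    384, 432, 448, 504, 512, 567, 576, 648, 672, 756, 768, 864, 896, 1008, 1134, 1152, 1296,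
    1344, 1512, 1536, 1728, 1792, 2016, 2268, 2304]

noncomputable def chk8 (k : ℕ) : Bool :=
  tall (19 * k) 19 dv8 D8 (fun _ _ => false) fun T =>
    (k == 290304 && decide (T = ⟨3, 1, [-512, -56], -567⟩)) || (k == 18144 && t18 T) ||
    (k % 2 == 0 && jtest2 (19 * k)
      (dv8.filter fun C => C % (if T.c % 2 = 0 then 38 else Nat.gcd k 512) == 0 && 19 * k % C == 0)
      19 [] [T] [] fun _ _ _ => false)

theorem chk8_a : chk8 18144 = true := by decide +kernel

end CL.OU
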