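import Cfsg.Agent.SPOR.OrdU38a

/-! The sieve for the orders dividing the order of `U₃(8)`, second part. -/

set_option autoImplicit false

namespace CL.OU

open CL.OJ

theorem chk8_b : chk8 290304 = true := by decide +kernel

theorem chk8_c : chk8 145152 = true := by decide +kernel

theorem chk8_d : chk8 72576 = true := by decide +kernel

end CL.OU
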