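import Cfsg.Agent.SPOR.OrdU38a

/-! The sieve for the orders dividing the order of `U₃(8)`, third part. -/

set_option autoImplicit false

namespace CL.OU

open CL.OJ

theorem chk8_e : ((dlist [(2, 9), (3, 4), (7, 1)]).all fun k =>
    [18144, 290304, 145152, 72576].contains k || chk8 k) = true := by decide +kernel

end CL.OU
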