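import Cfsg.Agent.SPOR.OrdU3b
import Cfsg.Agent.SOLV.CoprimeGen
import Cfsg.Agent.S0219

/-! A simple group with the order and the degrees of `U₃(9)` has `2`-rank at most two. -/

set_option autoImplicit false
open Cfsg Subgroup CL.Ord CL.Small

namespace CL.OU

variable {G : Type*} [Group G] [Fintype G] {f : G → ℤ}

theorem normal_7290 [Fact (Nat.Prime 3)] {C : Subgroup G} (hC : Nat.card C = 7290)
    {P : Sylow 3 G} (h : (P : Subgroup G) ≤ C) : C ≤ normalizer ((P : Subgroup G) : Set G) := by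
  have := Fact.mk Nat.prime_two
  obtain ⟨T⟩ : Nonempty (Sylow 2 C) := inferInstance
  obtain ⟨H, hH⟩ := Cfsg.Agent.S0219.result (by rw [hC]; decide) T (isCyclic_of_prime_card
    (p := 2) (card_sylow_eq_of_factor T (a := 1) (m := 3645) hC (by norm_num)))
  have := H.normal_of_index_eq_two hH
  have h1 := H.card_mul_index
  rw [hH] at h1
  have h2 := card_sylow_dvd_of_factor (G := H) (p := 3) (a := 6) (m := 5) (by omega) (by norm_num)
  have h3 := card_sylow_mod (G := H) (p := 3)
  have h4 : Nat.card (Sylow 3 H) = 1 := by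
    rcases (Nat.dvd_prime Nat.prime_five).1 h2 with e | e <;> omega
  have h5 := le_of_normal_of_not_dvd_index (N := H) (P.subtype h).isPGroup' (by omega)
  exact le_normalizer_of_card_sylow_eq_one P h (card_sylow_eq_one_of_normal _
    (sylow_normal_of_le_normal _ h5 h4))

theorem rank9 (h : Hy 3 729 800 73 72 f) : PRankLE 2 2 G := by
  have := Fact.mk Nat.prime_three
  have := Fact.mk Nat.prime_five
  have := Fact.mk Nat.prime_two
  have hQ : 729 = 3 ^ 6 := rfl
  have hm : ¬ 3 ∣ 800 * 73 := by norm_num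
  obtain ⟨v, hv, ⟨j, h1, h2⟩, hz⟩ := h.single hQ hm (W := 9) (by norm_num) (by norm_num)
    fun u _ j hj => by
      have h1 := (Int.natCast_dvd.1 (h.cdvd u)).mul_right (f u - 1).natAbs
      rw [Int.natAbs_mul, Int.natAbs_natCast, mul_right_comm, hj, mul_right_comm] at h1
      exact Nat.Coprime.dvd_of_dvd_mul_right (by norm_num) (Dvd.dvd.trans (by norm_num) h1)
  have hz' := h.val_or hz
  have hn : ∀ P : Sylow 3 G, f v = -9 ∧ (tr f (f v) P).ncard = 8 := fun P => by
    obtain ⟨a, b, ha, hb, -⟩ := h.sums hz' P.2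
    rw [h.card_sylow hQ hm] at ha hb
    have h3 := h.modp v hv
    have h4 := Nat.le_of_dvd (by norm_num) (Dvd.intro_left _ h1)
    have : f v = 3 ∨ f v = -3 ∨ f v = 9 ∨ f v = -9 := by
      generalize e : (f v).natAbs = w at h1 h4
      interval_cases w <;> omega
    rcases this with e | e | e | e <;> rw [e] at ha hb ⊢ <;> omega
  obtain ⟨P⟩ : Nonempty (Sylow 3 G) := inferInstance
  have hv9 := (hn P).1
  have hC : ∀ (P : Sylow 3 G), ∀ u ∈ tr f (f v) P, Nat.card (centralizer ({u} : Set G)) = 7290 :=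
    fun P u hu => by
      rw [card_centralizer_eq_of_isConj ((hz u (mem_pel_of P.2 hu.1 hu.2.1)).resolve_left
        (by rw [hu.2.2]; omega))]
      rw [hv9] at h1 h2
      obtain rfl : j = 1 := by simpa using h1
      simpa using h2
  have key : ∀ P : Sylow 3 G, ∃ Z : Subgroup G, Nat.card Z = 9 ∧ tr f (f v) P = (Z : Set G) \ {1} ∧
      ∀ w ∈ tr f (f v) P, (P : Subgroup G) ≤ centralizer {w} := fun P => by
    have hP := h.card_sylow hQ hm P
    replace hn := (hn P).2
    have hS : ∀ q, (∀ x ∈ tr f (f v) P, ¬ (P : Subgroup G) ≤ centralizer {x} →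
        q ∣ (centralizer ({x} : Set G)).relIndex P) →
        q ∣ {x ∈ tr f (f v) P | ¬ (P : Subgroup G) ≤ centralizer {x}}.ncard := fun q hq =>
      CL.Cnt.dvd_ncard_of_conj_elem (P : Subgroup G) (fun g hg x hx => ⟨h.conj_tr (le_normalizer hg) hx.1,
        fun e => hx.2 fun y hy => mem_centralizer_singleton_iff.2 (by
          have := mem_centralizer_singleton_iff.1 (e (mul_mem (mul_mem hg hy) (inv_mem hg)))
          calc y * x = g⁻¹ * (g * y * g⁻¹ * (g * x * g⁻¹)) * g := by group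
            _ = _ := by rw [this]; group)⟩) fun x hx => hq x hx.1 hx.2
    have hr : ∀ x : G, ∃ i ≤ 6, (centralizer ({x} : Set G)).relIndex P = 3 ^ i := fun x =>
      (Nat.dvd_prime_pow Nat.prime_three).1 (hQ ▸ hP ▸ relIndex_dvd_card _ _)
    obtain ⟨u, hu, hPu⟩ : ∃ u ∈ tr f (f v) P, (P : Subgroup G) ≤ centralizer {u} := by
      by_contra! e
      have := hS 3 fun x _ hx => by
        obtain ⟨i, -, hi⟩ := hr x
        exact hi ▸ dvd_pow_self 3 (by rintro rfl; exact hx (relIndex_eq_one.1 hi))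
      rw [Set.sep_eq_self_iff_mem_true.2 e, hn] at this
      omega
    obtain ⟨y, hy, hy5⟩ := exists_mem_orderOf_eq_prime (centralizer {u}) 5
      (by rw [hC P u hu]; norm_num)
    have hyN := normal_7290 (hC P u hu) hPu hy
    let Z := (P : Subgroup G) ⊓ centralizer {y}
    have hZ : (Z : Set G) \ {1} ⊆ tr f (f v) P := fun x hx => ⟨hx.1.1, hx.2,
      (hz' x (mem_pel_of P.2 hx.1.1 hx.2)).resolve_left (h.ne_zero hQ hm
        (mem_pel_of P.2 hx.1.1 hx.2) Nat.prime_five (by norm_num) hy5.symm.dvd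
        (mem_centralizer_singleton_iff.1 hx.1.2).symm)⟩
    have h5 : ∀ S : Set G, (∀ g ∈ zpowers y, ∀ x ∈ S, g * x * g⁻¹ ∈ S) →
        (∀ x ∈ S, x ∉ centralizer {y}) → 5 ∣ S.ncard := fun S h1 h2 =>
      CL.Cnt.dvd_ncard_of_conj_elem _ h1 fun x hx => by
        rcases (Nat.dvd_prime Nat.prime_five).1 (hy5 ▸ Nat.card_zpowers y ▸
          relIndex_dvd_card (centralizer {x}) (zpowers y)) with e | e
        · exact absurd (mem_centralizer_singleton_iff.2 (mem_centralizer_singleton_iff.1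
            (relIndex_eq_one.1 e (mem_zpowers y))).symm) (h2 x hx)
        · exact e.symm.dvd
    have hyc : ∀ {x}, x ∈ centralizer {y} → zpowers y ≤ centralizer {x} := fun hx =>
      zpowers_le.2 (mem_centralizer_singleton_iff.2 (mem_centralizer_singleton_iff.1 hx).symm)
    have b1 := h5 (tr f (f v) P \ (Z \ {1})) (fun g hg x hx =>
      ⟨h.conj_tr (zpowers_le.2 hyN hg) hx.1, fun e => hx.2 ⟨⟨hx.1.1, by
        have := mul_mem (mul_mem (inv_mem (hyc (mem_centralizer_singleton_iff.2 rfl) hg)) e.1.2)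
          (hyc (mem_centralizer_singleton_iff.2 rfl) hg)
        simpa [mul_assoc] using this⟩, hx.1.2.1⟩⟩) fun x hx e => hx.2 ⟨⟨hx.1.1, e⟩, hx.1.2.1⟩
    have b2 := Set.ncard_le_ncard hZ
    obtain ⟨i, hi⟩ : ∃ i, Nat.card Z = 3 ^ i := (P.2.to_le (inf_le_left : Z ≤ P)).exists_card_eq
    have b3 : 1 < Nat.card Z := Z.one_lt_card_iff_ne_bot.2 fun e => hu.2.1 (mem_bot.1 (e ▸
      (⟨hu.1, mem_centralizer_singleton_iff.2 (mem_centralizer_singleton_iff.1 hy).symm⟩ : u ∈ Z)))
    rw [Set.ncard_sdiff hZ] at b1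
    rw [ncard_sdiff_one, hn] at b1 b2
    have hZ9 : Nat.card Z = 9 := by
      have : i < 3 := (Nat.pow_lt_pow_iff_right (a := 3) (by norm_num)).1 (by omega)
      interval_cases i <;> omega
    have hT := (Set.eq_of_subset_of_ncard_le hZ (by rw [ncard_sdiff_one]; omega)).symm
    have hc := IsPGroup.isMulCommutative_of_card_eq_prime_sq (p := 3) hZ9
    have b4 := hS 81 fun w hw hPw => by
      have hwZ := (hT ▸ hw).1
      have c1 := h5 (P \ ((P : Subgroup G) ⊓ centralizer {w} : Subgroup G)) (fun g hg x hx =>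
        ⟨(mem_normalizer_iff.1 (zpowers_le.2 hyN hg) x).1 hx.1, fun e => hx.2 ⟨hx.1, by
          have := mul_mem (mul_mem (inv_mem (hyc hwZ.2 hg)) e.2) (hyc hwZ.2 hg)
          simpa [mul_assoc] using this⟩⟩) fun x hx e => hx.2 ⟨hx.1, mem_centralizer_singleton_iff.2
            (congrArg Subtype.val (hc.is_comm.comm ⟨x, hx.1, e⟩ ⟨w, hwZ⟩))⟩
      rw [Set.ncard_sdiff fun _ h => h.1] at c1
      have c2 := CL.Small.card_inf_mul_relIndex (centralizer {w}) (P : Subgroup G)
      obtain ⟨i, hi6, hi⟩ := hr w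
      have c3 : i ≠ 0 := by rintro rfl; exact hPw (relIndex_eq_one.1 hi)
      change 5 ∣ Nat.card P - Nat.card ((P : Subgroup G) ⊓ centralizer {w} : Subgroup G) at c1
      rw [hi] at c2 ⊢
      interval_cases i <;> omega
    have b5 := Set.ncard_le_ncard (Set.sep_subset (tr f (f v) P)
      fun x => ¬ (P : Subgroup G) ≤ centralizer {x})
    have b6 : ∀ w ∈ tr f (f v) P, (P : Subgroup G) ≤ centralizer {w} := fun w hw => by
      by_contra e
      have := (Set.ncard_pos (s := {x ∈ tr f (f v) P | ¬ (P : Subgroup G) ≤ centralizer {x}})).2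
        ⟨w, hw, e⟩
      omega
    exact ⟨Z, hZ9, hT, b6⟩
  have hs := h.card_syl hv (by omega) hz (fun P => (hn P).2) fun P R u hu huR =>
    eq_of_le_normalizer (((key R).choose_spec.2.2 u ⟨huR, hu.2⟩).trans
      (normal_7290 (hC P u hu) ((key P).choose_spec.2.2 u hu)))
  have h3 := (centralizer ({v} : Set G)).card_mul_index
  obtain ⟨R, hR⟩ := exists_sylow_mem (mem_pel.1 hv).2.choose_spec
  rw [hC R v ⟨hR, (mem_pel.1 hv).1, rfl⟩, h.card] at h3
  intro E hE hE2
  by_contra hlt
  have hP : IsPGroup 2 E := fun x => ⟨1, Subtype.ext (hE2 x x.2)⟩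
  obtain ⟨P, hx⟩ : ∃ x : Sylow 3 G, ¬ 4 ∣ (MulAction.stabilizer E x).index := by
    by_contra! H'
    have := CL.Cnt.dvd_ncard_of_smul (A := E) Set.univ.toFinite (fun _ _ _ => trivial)
      fun x _ => H' x
    rw [Set.ncard_univ] at this
    omega
  obtain ⟨Z, hZ, hT, -⟩ := key P
  set E' := (MulAction.stabilizer E P).map E.subtype
  have hle : E' ≤ E := map_subtype_le _
  have : IsMulCommutative E' := ⟨⟨fun a b => Subtype.ext
    (congrArg (Subtype.val (p := (· ∈ E))) (hE.is_comm.comm ⟨a, hle a.2⟩ ⟨b, hle b.2⟩))⟩⟩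
  have hc : 2 < Nat.card E' := by
    obtain ⟨j, hj⟩ := hP.index (MulAction.stabilizer E P)
    have h1 := card_mul_index (MulAction.stabilizer E P)
    rw [card_map_of_injective E.subtype_injective]
    have : j ≤ 1 := by
      by_contra h; exact hx (hj ▸ pow_dvd_pow 2 (show 2 ≤ j by omega))
    rw [hj] at h1
    interval_cases j <;> omega
  obtain ⟨i, hi⟩ := (hP.to_le hle).exists_card_eq
  have := card_le_of_le (CL.coprime_le_of_forall_centralizer_le E' (P : Subgroup G) Z (fun e => by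
    obtain ⟨g, hg⟩ := e.exists_ofOrder_eq_natCard
    have := Nat.le_of_dvd two_pos (orderOf_dvd_of_pow_eq_one (x := g) (Subtype.ext (hE2 g (hle g.2))))
    omega) (by rintro _ ⟨g, hg, rfl⟩; exact smul_sylow_eq_iff.1 hg)
    (by rw [hi, h.card_sylow hQ hm]; exact Nat.Coprime.pow_left i (by norm_num))
    fun a ha h1 x hx => by
      by_cases e : x = 1
      · exact e ▸ one_mem Z
      have b := mem_pel_of P.2 hx.1 e
      exact (hT ▸ ⟨hx.1, e, (hz' x b).resolve_left (h.ne_zero hQ hm b Nat.prime_two (by norm_num)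
        (orderOf_eq_prime (hE2 a (hle ha)) h1).symm.dvd
        (mem_centralizer_singleton_iff.1 hx.2).symm)⟩ : x ∈ (Z : Set G) \ {1}).1)
  rw [h.card_sylow hQ hm] at this
  omega

end CL.OU
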