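import Cfsg.Agent.SPOR.OrdJoin
import Cfsg.Agent.SPOR.Ord33
import Cfsg.Agent.SPOR.Ord11

/-! Simple groups of order `Q m l` whose principal `l`-block has the degrees `1, a, Q; m` of a
unitary group `U₃(q)`: the values of the character of degree `a` on the `p`-elements. -/

set_option autoImplicit false
open Cfsg Subgroup CL.Char CL.D1 CL.Ord CL.Small
open scoped ComplexConjugate

namespace CL.OU

open Classical in
/-- the nontrivial `p`-elements -/
noncomputable def pel (G : Type*) [Group G] [Fintype G] (p : ℕ) : Finset G :=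
  Finset.univ.filter fun u => u ≠ 1 ∧ ∃ k, orderOf u = p ^ k

/-- The properties of the integer valued character `f` of degree `a`. -/
structure Hy {G : Type*} [Group G] [Fintype G] (p Q m l a : ℕ) (f : G → ℤ) : Prop where
  card : Nat.card G = Q * m * l
  cls : ∀ g h, f (h * g * h⁻¹) = f g
  one : f 1 = a
  sum_dvd : ∀ (H : Subgroup G) [Fintype H], ∃ k : ℕ, ∑ h : H, f h = Nat.card H * k
  sq_dvd : ∀ (H : Subgroup G) [Fintype H], ∃ k : ℕ, ∑ h : H, f h ^ 2 = Nat.card H * k ∧
    (IsMulCommutative H → a ≤ k)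
  pow : ∀ g k, k.Coprime (orderOf g) → f (g ^ k) = f g
  cdvd : ∀ g, (a : ℤ) ∣ (centralizer ({g} : Set G)).index * f g
  ydvd : ∀ u ∈ pel G p, ∀ R ≤ centralizer ({u} : Set G), ¬ p ∣ Nat.card R →
    (Nat.card R : ℤ) ∣ f u - 1
  modp : ∀ u ∈ pel G p, (p : ℤ) ∣ f u
  s1 : ∑ u ∈ pel G p, (f u - 1) = -(m * (Q + 1))
  s2 : ∑ u ∈ pel G p, f u * (f u - 1) = m * (2 * Q - m - 1)
  inv : p = 2 → ∀ t, orderOf t = 2 → m * f t ^ 2 = a * (m + (f t - 1) ^ 2)

variable {G : Type*} [Group G] [Fintype G]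

theorem mem_pel {p : ℕ} {u : G} : u ∈ pel G p ↔ u ≠ 1 ∧ ∃ k, orderOf u = p ^ k := by
  simp [pel]

theorem dvd_of_mem_pel {p : ℕ} {u : G} (h : u ∈ pel G p) : p ∣ orderOf u := by
  obtain ⟨h1, k, hk⟩ := mem_pel.1 h
  exact hk ▸ dvd_pow_self p (by rintro rfl; exact h1 (orderOf_eq_one_iff.1 hk))

theorem sum_int {φ ψ : G → ℂ} {f g : G → ℤ} (hf : ∀ x, φ x = f x) (hg : ∀ x, ψ x = g x) {n : ℤ}
    (h : classInner φ ψ = n) : ∑ x, f x * g x = Nat.card G * n := by
  have := card_mul_classInner φ ψ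
  simp only [h, hf, hg, map_intCast] at this
  exact_mod_cast this.symm

theorem deg_le_inner (hc : ∀ a b : G, a * b = b * a) {χ : G → ℂ} (h : IsCharacter G χ) :
    ∃ d n : ℕ, χ 1 = d ∧ classInner χ χ = n ∧ d ≤ n := by
  refine h.induction_on (P := fun χ => ∃ d n : ℕ, χ 1 = d ∧ classInner χ χ = n ∧ d ≤ n)
    ⟨0, 0, by simp, by simp [classInner_zero_left], le_rfl⟩
    (fun ψ h => ⟨1, 1, by simp [h.one_eq_one_of_comm hc], by simp [h.inner_self], le_rfl⟩) ?_
  rintro a b ha hb ⟨d, n, h1, h2, h3⟩ ⟨d', n', h4, h5, h6⟩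
  obtain ⟨i, hi⟩ := ha.exists_nat_inner hb
  obtain ⟨j, hj⟩ := hb.exists_nat_inner ha
  exact ⟨d + d', n + i + (j + n'), by simp [h1, h4], by
    simp [classInner_add_left, classInner_add_right, h2, h5, hi, hj]; ring, by omega⟩

theorem exists_hy [IsSimpleGroup G] {p k m l a : ℕ} (hp : p.Prime)
    (hT : CL.OJ.IsTree G l ⟨3, 1, [-(p ^ k : ℕ), -a], -m⟩) (hG : Nat.card G = p ^ k * m * l)
    (hpm : ¬ p ∣ m) (hpl : p ≠ l) (hpa : p ∣ a) (h1 : 1 < a) (h2 : a < p ^ k) (h3 : p ^ k < m) :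
    ∃ f : G → ℤ, Hy p (p ^ k) m l a f := by
  classical
  have hC : ∀ x : G, orderOf x = l → Nat.card (centralizer ({x} : Set G)) = l := fun x hx => by
    simpa using hT.cent hx
  obtain ⟨hl, -, P, D, θ, L, hP, -, hN, hθ, hL, hX, hd, he⟩ := hT
  have := Fact.mk hl
  obtain ⟨σ, χ, rfl, e1, e2⟩ : ∃ σ χ, L = [σ, χ] ∧ D.δ σ * charDegree σ.1 = -(p ^ k : ℕ) ∧
      D.δ χ * charDegree χ.1 = -a := by
    obtain ⟨σ, L, rfl, e1, h⟩ := List.map_eq_cons_iff.1 hd
    obtain ⟨χ, L, rfl, e2, h⟩ := List.map_eq_cons_iff.1 h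
    exact ⟨σ, χ, by rw [List.map_eq_nil_iff.1 h], e1, e2⟩
  have hσ : σ ∈ D.X := (hX σ).2 (by simp)
  have hχ : χ ∈ D.X := (hX χ).2 (by simp)
  have hne : σ ≠ χ := by simpa using hL
  have hDX : D.X = {σ, χ} := by ext; simp [hX]
  obtain ⟨d1, -, s1⟩ := deg_of_sdeg (D.δ_sign σ hσ) e1
  obtain ⟨d2, -, s2⟩ := deg_of_sdeg (D.δ_sign χ hχ) e2
  obtain ⟨d3, -, s3⟩ := deg_of_sdeg D.ε_sign he
  simp only [Int.natAbs_neg, Int.natAbs_natCast] at d1 d2 d3
  replace s1 := s1 (by omega)
  replace s2 := s2 (by omega)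
  replace s3 := s3 (by dsimp only; omega)
  obtain ⟨x, hx⟩ := exists_prime_orderOf_dvd_card' (G := G) l (hG ▸ dvd_mul_left l _)
  have hint : ∀ φ ∈ D.X, ∀ g, ∃ n : ℤ, φ.1 g = n := fun φ hφ => exists_int_of_unique fun ψ h => by
    have h4 : ¬ l ∣ charDegree ψ.1 := h ▸ D.not_dvd_deg_X hx hφ
    have h5 : charDegree φ.1 = p ^ k ∨ charDegree φ.1 = a := by
      rw [hDX] at hφ
      rcases Finset.mem_insert.1 hφ with rfl | h
      exacts [.inl d1, .inr (Finset.mem_singleton.1 h ▸ d2)]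
    by_cases h6 : ψ ∈ D.X
    · rw [hDX] at h6 hφ
      simp only [Finset.mem_insert, Finset.mem_singleton] at h6 hφ
      rcases h6 with rfl | rfl <;> rcases hφ with rfl | rfl <;> first | rfl | omega
    refine (h4 (D.dvd_of_notMem hx (hC x hx) ?_ h6 fun h7 => ?_)).elim
    · rintro rfl
      rw [show charDegree (irrOne G).1 = 1 from charDegree_const_one] at h
      omega
    · have := D.deg_Y_eq h7 hθ
      omega
  choose f hf using hint χ hχ
  choose s hs using hint σ hσ
  have hreg : ∀ g : G, ¬ l ∣ orderOf g → θ.1 g = (f g + s g - 1 : ℤ) := fun g hg => by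
    have := D.eqn θ hθ g hg
    rw [hDX, Finset.sum_pair hne, s1, s2, s3, hf, hs] at this
    push_cast at this ⊢
    linear_combination -this
  have hlm : ¬ l ∣ m := d3 ▸ D.not_dvd_deg_Y hθ
  have hs0 : ∀ g : G, p ∣ orderOf g → s g = 0 := fun g hg => by
    have := vanish hp d1 (by
      rw [hG, mul_assoc, Nat.mul_div_cancel_left _ (by omega)]
      exact fun h => (hp.dvd_mul.1 h).elim hpm fun h => hpl ((Nat.prime_dvd_prime_iff_eq hp hl).1 h))
      hg
    rw [hs] at this
    exact_mod_cast this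
  have hθ0 : ∀ (g : G) (r : ℕ), r.Prime → r ≠ p → r ∣ orderOf g → ¬ l ∣ orderOf g →
      f g + s g - 1 = 0 := fun g r hr hrp hg hl' => by
    have := vanish hr d3 (by
      rw [hG, mul_right_comm, Nat.mul_div_cancel _ (by omega)]
      exact fun h => (hr.dvd_mul.1 h).elim
        (fun h => hrp ((Nat.prime_dvd_prime_iff_eq hr hp).1 (hr.dvd_of_dvd_pow h)))
        fun h => hl' ((Nat.prime_dvd_prime_iff_eq hr hl).1 h ▸ hg)) hg
    rw [hreg g hl'] at this
    exact_mod_cast this
  have hnl : ∀ g : G, p ∣ orderOf g → ¬ l ∣ orderOf g := fun g hg h =>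
    hpl ((Nat.prime_dvd_prime_iff_eq hp hl).1 (orderOf_eq_of_cent hC h ▸ hg))
  have f1 : f 1 = a := by
    have := hf 1
    rw [χ.2.apply_one_eq_charDegree, d2] at this
    exact_mod_cast this.symm
  have g1 : f 1 + s 1 - 1 = m := by
    have := hreg 1 (by simpa using hl.ne_one)
    rw [θ.2.apply_one_eq_charDegree, d3] at this
    exact_mod_cast this.symm
  have hsum : ∀ F : ℤ → ℤ, F 0 = 0 → ∑ g, F (f g + s g - 1) =
      F m + ∑ u ∈ pel G p, F (f u - 1) + Nat.card {y : G // orderOf y = l} * F (-3) := by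
    intro F hF
    rw [Finset.sum_congr rfl fun g _ => show _ = (if g = 1 then F m else 0) +
      (if g ∈ pel G p then F (f g - 1) else 0) + if orderOf g = l then F (-3) else 0 from ?_,
      Finset.sum_add_distrib, Finset.sum_add_distrib, Finset.sum_ite_eq', Finset.sum_ite_mem,
      Finset.univ_inter, ← Finset.sum_filter, Finset.sum_const, Nat.card_eq_fintype_card,
      Fintype.card_subtype]
    · simp
    by_cases b1 : g = 1
    · subst b1
      simp [mem_pel, g1, hl.ne_one.symm]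
    by_cases b2 : g ∈ pel G p
    · have b3 := dvd_of_mem_pel b2
      rw [if_neg b1, if_pos b2, if_neg fun h => hnl g b3 h.symm.dvd, hs0 g b3]
      simp
    by_cases b3 : l ∣ orderOf g
    · have c1 := D.val_X χ hχ g b3
      have c2 := D.val_X σ hσ g b3
      rw [hf, s2] at c1
      rw [hs, s1] at c2
      rw [if_neg b1, if_neg b2, if_pos (orderOf_eq_of_cent hC b3), Int.cast_injective c1,
        Int.cast_injective c2]
      simp
    rw [if_neg b1, if_neg b2, if_neg fun h => b3 h.symm.dvd]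
    obtain ⟨r, hr, c1, c2⟩ : ∃ r, r.Prime ∧ r ∣ orderOf g ∧ r ≠ p := by
      by_contra! c
      exact b2 (mem_pel.2 ⟨b1, _, Nat.eq_prime_pow_of_unique_prime_dvd (orderOf_pos g).ne'
        fun hr h => c _ hr h⟩)
    simp [hθ0 g r hr c2 c1 b3, hF]
  have hcnt : (3 : ℤ) * Nat.card {y : G // orderOf y = l} = p ^ k * m * (l - 1) := by
    have b1 := card_sylow_mul_card_normalizer P
    rw [hN, hG] at b1
    rw [card_orderOf_eq_prime P hP, Nat.cast_mul, Nat.cast_pred hl.pos, ← mul_assoc]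
    congr 1
    have : 3 * Nat.card (Sylow l G) = p ^ k * m :=
      Nat.eq_of_mul_eq_mul_right hl.pos (by rw [← b1]; ring)
    exact_mod_cast this
  have one : ∀ x, (irrOne G).1 x = (1 : ℤ) := fun x => by simp [irrOne_apply]
  have o1 := sum_int hf one (n := 0) (by
    simpa using χ.2.inner_of_ne (irrOne G).2 fun h => D.ne_one (.inl hχ) (Subtype.ext h))
  have o2 := sum_int hs one (n := 0) (by
    simpa using σ.2.inner_of_ne (irrOne G).2 fun h => D.ne_one (.inl hσ) (Subtype.ext h))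
  have o3 := sum_int hs hf (n := 0) (by
    simpa using σ.2.inner_of_ne χ.2 fun h => hne (Subtype.ext h))
  have o4 := sum_int hf hf (n := 1) (by simpa using χ.2.inner_self)
  have o5 := sum_int hs hs (n := 1) (by simpa using σ.2.inner_self)
  have o6 : ∑ _g : G, (1 : ℤ) = Nat.card G := by simp
  have t1 := hsum id rfl
  have t2 := hsum (fun z => z * (z + 1)) (by simp)
  rw [Finset.sum_congr rfl fun g _ => show id _ = f g * 1 + s g * 1 - 1 by simp,
    Finset.sum_sub_distrib, Finset.sum_add_distrib, o1, o2, o6, hG] at t1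
  rw [Finset.sum_congr rfl fun g _ => show _ = f g * f g + s g * s g + 2 * (s g * f g) -
    (f g * 1 + s g * 1) by ring, Finset.sum_sub_distrib, Finset.sum_add_distrib,
    Finset.sum_add_distrib, Finset.sum_add_distrib, ← Finset.mul_sum, o1, o2, o3, o4, o5, hG,
    Finset.sum_congr rfl fun g _ => show _ = f g * (f g - 1) by ring] at t2
  refine ⟨f, hG, fun g h => ?_, f1, fun H _ => ?_, fun H _ => ?_, fun g k hk => ?_,
    fun g => dvd_index_mul (hf g) d2, fun u hu R hR hpR => ?_, fun u hu => ?_, ?_, ?_,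
    fun h2 t ht => ?_⟩
  · have := χ.2.isCharacter.isClassFunction g h
    rw [hf, hf] at this
    exact_mod_cast this
  · obtain ⟨n, hn⟩ := (χ.2.isCharacter.res H).exists_nat_inner isCharacter_one
    exact ⟨n, by simpa using sum_int (g := fun _ => 1) (fun x : H => hf x) (by simp) (n := n) hn⟩
  · obtain ⟨n, hn⟩ := (χ.2.isCharacter.res H).exists_nat_inner (χ.2.isCharacter.res H)
    refine ⟨n, by simpa [sq] using sum_int (fun x : H => hf x) (fun x : H => hf x) (n := n) hn,
      fun hc => ?_⟩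
    obtain ⟨d, n', b1, b2, b3⟩ := deg_le_inner hc.is_comm.comm (χ.2.isCharacter.res H)
    rw [hn, Nat.cast_inj] at b2
    rw [OneMemClass.coe_one, χ.2.apply_one_eq_charDegree, d2, Nat.cast_inj] at b1
    omega
  · obtain ⟨τ, hτ⟩ := exists_gal_eq_pow_of_coprime_orderOf g hk
    have := hτ _ χ.2.isCharacter.isGen
    rw [hf, hf, map_intCast] at this
    exact_mod_cast this.symm
  · have := Fintype.ofFinite R
    have b1 := (isCharacter_avg χ.2.isCharacter R (zpowers u) fun a ha b ⟨i, hi⟩ =>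
      hi ▸ (Commute.zpow_right (mem_centralizer_singleton_iff.1 (hR ha)) i).eq).isIntegral
      ⟨u, mem_zpowers u⟩
    have b2 : ∑ r : R, χ.1 (r * u) = (f u - 1 + Nat.card R : ℤ) := by
      rw [Finset.sum_congr rfl fun (r : R) _ => show χ.1 (r * u) =
        (if r = 1 then ((f u - 1 : ℤ) : ℂ) else 0) + 1 from ?_, Finset.sum_add_distrib,
        Finset.sum_ite_eq']
      · simp
      by_cases c : r = 1
      · simp [c, hf]
      have c1 : Commute (r : G) u := mem_centralizer_singleton_iff.1 (hR r.2)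
      obtain ⟨-, j, hj⟩ := mem_pel.1 hu
      have c2 : ¬ p ∣ orderOf (r : G) := fun h => hpR (h.trans (R.orderOf_dvd_natCard r.2))
      have c3 := c1.orderOf_mul_eq_mul_orderOf_of_coprime
        (hj ▸ Nat.Coprime.pow_right j ((Nat.Prime.coprime_iff_not_dvd hp).2 c2).symm)
      have c4 : p ∣ orderOf (r * u) := c3 ▸ (dvd_of_mem_pel hu).mul_left _
      have c5 : orderOf (r : G) ≠ 1 := fun h => c (Subtype.ext (orderOf_eq_one_iff.1 h))
      have := hθ0 _ _ (Nat.minFac_prime c5) (fun h => c2 (h ▸ Nat.minFac_dvd _))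
        (c3 ▸ (Nat.minFac_dvd _).mul_right _) (hnl _ c4)
      rw [hs0 _ c4] at this
      rw [hf, if_neg c, show f (r * u) = 1 by omega]
      simp
    rw [b2, mul_comm, ← div_eq_mul_inv] at b1
    exact (dvd_add_left dvd_rfl).1 (dvd_of_isIntegral_div Nat.card_pos b1)
  · obtain ⟨-, j, hj⟩ := mem_pel.1 hu
    have := χ.2.isCharacter.isGen.int_modEq_one hp (k := j) (by rw [← hj, pow_orderOf_eq_one])
      (hf u) (hf 1)
    rw [f1] at this
    simpa using dvd_add this.symm.dvd (Int.natCast_dvd_natCast.2 hpa)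
  · simp only [id] at t1
    push_cast at t1 ⊢
    linear_combination -t1 + hcnt
  · push_cast at t2 ⊢
    linear_combination -t2 - 2 * hcnt
  · subst h2
    have b1 : ¬ l ∣ orderOf t := hnl t ht.symm.dvd
    have b2 := cm_data D hx (hC x hx) hθ b1 b1 hl.not_dvd_one
    rw [cm_eq_zero ht (by
      rw [N_of_sylow P hP hN hx]
      exact fun h => (Nat.prime_two.dvd_mul.1 h).elim (fun h => hpl
        ((Nat.prime_dvd_prime_iff_eq hp hl).1 (by simpa using h))) (by norm_num)),
      hDX, Finset.sum_pair hne, s1, s2, s3, hreg t b1, hf t, hs t, hs0 t ht.symm.dvd,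
      χ.2.apply_one_eq_charDegree, θ.2.apply_one_eq_charDegree, d2, d3] at b2
    have b3 : (a : ℂ) ≠ 0 := by exact_mod_cast (by omega)
    have b4 : (m : ℂ) ≠ 0 := by exact_mod_cast (by omega)
    have b5 := (mul_eq_zero.1 (b2.symm.trans (by simp))).resolve_left (card_ne_zero G)
    field_simp at b5
    apply Int.cast_injective (α := ℂ)
    push_cast at b5 ⊢
    linear_combination -b5

end CL.OU
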