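import Cfsg.Agent.SPOR.OrdU3a
import Cfsg.Agent.SPOR.Ord11c
import Cfsg.Agent.FGS.FiberCount

/-! The transvections of a simple group with the order and the degrees of `U₃(q)`. -/

set_option autoImplicit false
open Cfsg Subgroup CL.Ord CL.Small

namespace CL.OU

variable {G : Type*} [Group G] [Fintype G] {p Q m l a : ℕ} {f : G → ℤ}

/-- the nontrivial elements of `H` with value `z` -/
def tr (f : G → ℤ) (z : ℤ) (H : Subgroup G) : Set G := {u | u ∈ H ∧ u ≠ 1 ∧ f u = z}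

theorem conj_mem_pel {u : G} (h : u ∈ pel G p) (g : G) : g * u * g⁻¹ ∈ pel G p := by
  rw [mem_pel] at h ⊢
  exact ⟨fun e => h.1 (conj_eq_one_iff.1 e), by rw [orderOf_conj']; exact h.2⟩

theorem mem_pel_of [Fact p.Prime] {H : Subgroup G} (hH : IsPGroup p H) {u : G} (hu : u ∈ H)
    (h1 : u ≠ 1) : u ∈ pel G p :=
  mem_pel.2 ⟨h1, (IsPGroup.iff_orderOf.1 hH ⟨u, hu⟩).imp fun _ h => (orderOf_coe _).trans h⟩

theorem ncard_sdiff_one (H : Subgroup G) : ((H : Set G) \ {1}).ncard = Nat.card H - 1 :=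
  card_sdiff_one H

theorem dvd_relIndex {C Y : Subgroup G} {q : ℕ} (h1 : q ∣ Nat.card Y)
    (h2 : q.Coprime (Nat.card C)) : q ∣ C.relIndex Y :=
  (h2.coprime_dvd_right (card_dvd_of_le inf_le_right)).dvd_of_dvd_mul_left
    (h1.trans (CL.Small.card_inf_mul_relIndex C Y).symm.dvd)

namespace Hy

variable (h : Hy p Q m l a f)
include h

theorem conj_tr {z : ℤ} {H : Subgroup G} {g : G} (hg : g ∈ normalizer (H : Set G)) {x : G}
    (hx : x ∈ tr f z H) : g * x * g⁻¹ ∈ tr f z H :=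
  ⟨(mem_normalizer_iff.1 hg x).1 hx.1, fun e => hx.2.1 (conj_eq_one_iff.1 e),
    (h.cls x g).trans hx.2.2⟩

theorem class_le {v : G} (hv : v ∈ pel G p) :
    (centralizer ({v} : Set G)).index * (f v * (f v - 1)) ≤ m * (2 * Q - m - 1) ∧
      ((centralizer ({v} : Set G)).index * (f v * (f v - 1)) = m * (2 * Q - m - 1) →
        ∀ u ∈ pel G p, ¬ IsConj v u → f u * (f u - 1) = 0) := by
  classical
  have h1 := Finset.sum_filter_add_sum_filter_not (pel G p) (IsConj v) fun u => f u * (f u - 1)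
  have h2 : ∀ u ∈ (pel G p).filter (¬ IsConj v ·), 0 ≤ f u * (f u - 1) := fun u _ => by
    nlinarith [sq_nonneg (2 * f u - 1), Int.one_le_abs (show 2 * f u - 1 ≠ 0 by omega),
      sq_abs (2 * f u - 1)]
  rw [h.s2, show (pel G p).filter (IsConj v) = Finset.univ.filter (IsConj v) by
      ext u
      simp only [Finset.mem_filter, Finset.mem_univ, true_and, and_iff_right_iff_imp, isConj_iff]
      rintro ⟨c, rfl⟩
      exact conj_mem_pel hv c,
    Finset.sum_congr rfl fun u hu => show _ = f v * (f v - 1) by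
      obtain ⟨c, rfl⟩ := isConj_iff.1 (Finset.mem_filter.1 hu).2
      rw [h.cls], Finset.sum_const, ← Fintype.card_subtype, ← Nat.card_eq_fintype_card,
    card_conj_eq_index, nsmul_eq_mul] at h1
  have h3 := Finset.sum_nonneg h2
  exact ⟨by omega, fun e u hu hc => (Finset.sum_eq_zero_iff_of_nonneg h2).1 (by omega) u
    (Finset.mem_filter.2 ⟨hu, hc⟩)⟩

variable [hp : Fact p.Prime]

theorem ne_one {u : G} (hu : u ∈ pel G p) : f u ≠ 1 := fun e =>
  hp.out.one_lt.ne' (Nat.dvd_one.1 (by exact_mod_cast e ▸ h.modp u hu))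

theorem sum_pgrp {z : ℤ} (hz : ∀ u ∈ pel G p, f u = 0 ∨ f u = z) {H : Subgroup G}
    (hH : IsPGroup p H) [Fintype H] (F : ℤ → ℤ) (hF : F 0 = 0) :
    ∑ x : H, F (f x) = F a + (tr f z H).ncard * F z := by
  classical
  rw [← Finset.sum_subtype (Finset.univ.filter (· ∈ H)) (by simp) fun x => F (f x),
    Finset.sum_congr rfl fun x hx => show _ = (if x = 1 then F a else 0) +
      if x ∈ tr f z H then F z else 0 from ?_, Finset.sum_add_distrib, Finset.sum_ite_eq',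
    ← Finset.sum_filter, Finset.sum_const, Set.ncard_eq_toFinset_card', nsmul_eq_mul]
  · rw [if_pos (by simp)]
    congr 4
    ext x
    simp only [Finset.mem_filter, Set.mem_toFinset, Finset.mem_univ, true_and]
    exact ⟨fun h => h.2, fun h => ⟨h.1, h⟩⟩
  have hx := (Finset.mem_filter.1 hx).2
  by_cases h1 : x = 1
  · simp [h1, h.one, tr]
  by_cases h2 : f x = z
  · simp [h1, h2, hx, tr]
  · rw [if_neg h1, if_neg fun e => h2 e.2.2, (hz x (mem_pel_of hH hx h1)).resolve_right h2, hF]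
    simp

variable {k : ℕ} (hQ : Q = p ^ k) (hm : ¬ p ∣ m * l)
include hQ hm

theorem card_sylow (P : Sylow p G) : Nat.card P = Q :=
  hQ ▸ card_sylow_eq_of_factor P (by rw [h.card, hQ, mul_assoc]) hm

theorem weight {u : G} (hu : u ∈ pel G p) : ∃ j : ℕ, 0 < j ∧
    Nat.card (centralizer ({u} : Set G)) * j = Q * (f u - 1).natAbs ∧
    (centralizer ({u} : Set G)).index * (f u - 1).natAbs = j * (m * l) := by
  obtain ⟨j, hj⟩ : Nat.card (centralizer ({u} : Set G)) ∣ Q * (f u - 1).natAbs := by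
    refine (Nat.dvd_iff_prime_pow_dvd_dvd _ _).2 fun r i hr hi => ?_
    by_cases e : r = p
    · have := hi.trans (card_subgroup_dvd_card _)
      rw [h.card, mul_assoc, e] at this
      exact (e ▸ (Nat.Coprime.pow_left i (hp.out.coprime_iff_not_dvd.2 hm)).dvd_of_dvd_mul_right
        this).mul_right _
    have := Fact.mk hr
    obtain ⟨R, hR⟩ := Sylow.exists_subgroup_card_pow_prime r hi
    rw [← card_map_of_injective (subtype_injective _)] at hR
    exact (hR ▸ Int.natCast_dvd.1 (h.ydvd u hu _ (map_subtype_le R) fun b => e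
      ((Nat.prime_dvd_prime_iff_eq hp.out hr).1 (hp.out.dvd_of_dvd_pow (hR ▸ b))).symm)).mul_left _
  have h1 := (centralizer ({u} : Set G)).card_mul_index
  have h2 : 0 < Q := hQ ▸ pow_pos hp.out.pos k
  have h3 := h.ne_one hu
  refine ⟨j, Nat.pos_of_ne_zero (by rintro rfl; simp at hj; omega), hj.symm,
    Nat.eq_of_mul_eq_mul_left h2 ?_⟩
  rw [mul_left_comm, hj, mul_left_comm Q, ← mul_assoc Q, ← h.card, ← h1]
  ring

theorem cent_zero {u : G} (hu : u ∈ pel G p) (h0 : f u = 0) :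
    Nat.card (centralizer ({u} : Set G)) ∣ Q := by
  obtain ⟨j, -, hj, -⟩ := h.weight hQ hm hu
  exact ⟨j, by simpa [h0] using hj.symm⟩

/-- an element of `P` commuting with a `p`-regular element has a nonzero value -/
theorem ne_zero {u s : G} (hu : u ∈ pel G p) {r : ℕ} (hr : r.Prime) (hrp : r ≠ p)
    (hs : r ∣ orderOf s) (hc : Commute s u) : f u ≠ 0 := fun h0 =>
  hrp ((Nat.prime_dvd_prime_iff_eq hr hp.out).1 (hr.dvd_of_dvd_pow (hQ ▸ (hs.trans
    (orderOf_dvd_card_of_mem (mem_centralizer_singleton_iff.2 hc))).trans (h.cent_zero hQ hm hu h0))))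

theorem dvd_sub {z : ℤ} (hz : ∀ u ∈ pel G p, f u = 0 ∨ f u = z) {A Y : Subgroup G}
    (hA : IsPGroup p A) (hY : Y ≤ normalizer (A : Set G)) {q : ℕ} (h1 : q ∣ Nat.card Y)
    (h2 : q.Coprime p) : q ∣ Nat.card A - 1 - (tr f z A).ncard := by
  rw [← ncard_sdiff_one, ← Set.ncard_sdiff (show tr f z A ⊆ A \ {1} from fun x hx => ⟨hx.1, hx.2.1⟩)]
  refine CL.Cnt.dvd_ncard_of_conj_elem Y (fun g hg x hx => ⟨⟨(mem_normalizer_iff.1 (hY hg) x).1
    hx.1.1, fun e => hx.1.2 (conj_eq_one_iff.1 e)⟩, fun e => hx.2 ⟨hx.1.1, hx.1.2, ?_⟩⟩)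
    fun x hx => dvd_relIndex h1 ((h2.pow_right k).coprime_dvd_right (hQ ▸ h.cent_zero hQ hm
      (mem_pel_of hA hx.1.1 hx.1.2) ((hz x (mem_pel_of hA hx.1.1 hx.1.2)).resolve_right
        fun e => hx.2 ⟨hx.1.1, hx.1.2, e⟩)))
  rw [← e.2.2, h.cls]

/-- a single class with nonzero value -/
theorem single {W : ℕ} (hW : (m : ℤ) * (2 * Q - m - 1) = W * (m * l)) (hW0 : 0 < W)
    (hd : ∀ u ∈ pel G p, ∀ j : ℕ, (centralizer ({u} : Set G)).index * (f u - 1).natAbs =
      j * (m * l) → W ∣ j * (f u).natAbs) :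
    ∃ v ∈ pel G p, (∃ j, j * (f v).natAbs = W ∧
      Nat.card (centralizer ({v} : Set G)) * j = Q * (f v - 1).natAbs) ∧
      ∀ u ∈ pel G p, f u = 0 ∨ IsConj v u := by
  have hml : 0 < m * l := Nat.pos_of_ne_zero fun e => hm (e ▸ dvd_zero p)
  obtain ⟨v, hv, h0⟩ := Finset.exists_ne_zero_of_sum_ne_zero
    (h.s2.trans_ne (hW.trans_ne (by exact_mod_cast (Nat.mul_pos hW0 hml).ne')))
  obtain ⟨j, hj, h1, h2⟩ := h.weight hQ hm hv
  obtain ⟨h3, h4⟩ := h.class_le hv
  have h5 : ((centralizer ({v} : Set G)).index : ℤ) * (f v * (f v - 1)) =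
      (j * (f v).natAbs : ℕ) * (m * l) := by
    have : f v * (f v - 1) = (f v).natAbs * (f v - 1).natAbs := by
      rw [Int.natCast_natAbs, Int.natCast_natAbs, ← abs_mul, abs_of_nonneg]
      nlinarith [sq_nonneg (2 * f v - 1), Int.one_le_abs (show 2 * f v - 1 ≠ 0 by omega),
        sq_abs (2 * f v - 1)]
    rw [this, mul_left_comm, ← Nat.cast_mul, h2]
    push_cast
    ring
  rw [h5, hW] at h3 h4
  have h6 : j * (f v).natAbs = W := le_antisymm (by
    exact_mod_cast le_of_mul_le_mul_right h3 (by exact_mod_cast hml)) (Nat.le_of_dvd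
      (Nat.mul_pos hj (Int.natAbs_pos.2 (left_ne_zero_of_mul h0))) (hd v hv j h2))
  refine ⟨v, hv, ⟨j, h6, h1⟩, fun u hu => or_iff_not_imp_right.2 fun hc => ?_⟩
  exact (mul_eq_zero.1 (h4 (by rw [h6]) u hu hc)).resolve_right (sub_ne_zero.2 (h.ne_one hu))

omit hQ hm in
/-- counting the Sylow subgroups -/
theorem card_syl {v : G} (hv : v ∈ pel G p) (h0 : f v ≠ 0)
    (hz : ∀ u ∈ pel G p, f u = 0 ∨ IsConj v u) {n : ℕ}
    (hn : ∀ P : Sylow p G, (tr f (f v) P).ncard = n)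
    (hu : ∀ P R : Sylow p G, ∀ u ∈ tr f (f v) P, u ∈ (R : Subgroup G) → P = R) :
    (centralizer ({v} : Set G)).index = Nat.card (Sylow p G) * n := by
  have h1 : ∀ y : {y // IsConj v y}, ∃ P : Sylow p G, y.1 ∈ tr f (f v) P := fun ⟨y, hy⟩ => by
    obtain ⟨c, rfl⟩ := isConj_iff.1 hy
    obtain ⟨h1, i, hi⟩ := mem_pel.1 (conj_mem_pel hv c)
    exact (exists_sylow_mem hi).imp fun P hP => ⟨hP, h1, h.cls v c⟩
  choose φ hφ using h1
  rw [← card_conj_eq_index]
  refine card_eq_mul_of_fiber φ n fun P => (Nat.card_congr ?_).trans (hn P)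
  exact ⟨fun y => ⟨y.1.1, by simpa [y.2] using hφ y.1⟩, fun x => ⟨⟨x.1, (hz x (mem_pel_of P.2 x.2.1
    x.2.2.1)).resolve_left (x.2.2.2.trans_ne h0)⟩, hu _ _ _ (hφ _) x.2.1⟩, fun _ => rfl,
    fun _ => rfl⟩

omit hQ hm in
theorem sums {z : ℤ} (hz : ∀ u ∈ pel G p, f u = 0 ∨ f u = z) {H : Subgroup G}
    (hH : IsPGroup p H) : ∃ i j : ℕ, a + (tr f z H).ncard * z = Nat.card H * i ∧
      a ^ 2 + (tr f z H).ncard * z ^ 2 = Nat.card H * j ∧ (IsMulCommutative H → a ≤ j) := by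
  have := Fintype.ofFinite H
  obtain ⟨i, hi⟩ := h.sum_dvd H
  obtain ⟨j, hj, hc⟩ := h.sq_dvd H
  exact ⟨i, j, (h.sum_pgrp hz hH id rfl).symm.trans hi,
    (h.sum_pgrp hz hH (· ^ 2) (by simp)).symm.trans hj, hc⟩

omit hQ hm in
theorem val_or {v : G} (hz : ∀ u ∈ pel G p, f u = 0 ∨ IsConj v u) (u : G) (hu : u ∈ pel G p) :
    f u = 0 ∨ f u = f v :=
  (hz u hu).imp_right fun e => by obtain ⟨c, rfl⟩ := isConj_iff.1 e; exact h.cls v c

end Hy

theorem eq_of_le_normalizer [Fact p.Prime] {P R : Sylow p G}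
    (h : (R : Subgroup G) ≤ normalizer ((P : Subgroup G) : Set G)) : P = R :=
  (sylow_eq_of_le fun _ hx =>
    mem_sylow_of_mem_normalizer P (orderOf_mem_sylow R hx).choose_spec (h hx)).symm

end CL.OU
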